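import Cfsg.Agent.H42.PcDefs

/-! Project PC, piece MAIN: the Frattini reduction to the normaliser of a Sylow `2`-subgroup. -/

set_option autoImplicit false

namespace Cfsg.Agent.H29.PcMain

open Subgroup Cfsg.Agent.H42.Pc

universe u

theorem main (gl : GlStmt.{u}) (loc : LocStmt.{u}) (fin0 : Fin0Stmt.{u}) : MainStmt.{u} := by
  intro G _ _ hP S _ hs hn hc
  haveI : Fact (Nat.Prime 2) := ⟨Nat.prime_two⟩
  obtain ⟨P⟩ : Nonempty (Sylow 2 S) := inferInstance
  have hF := Sylow.normalizer_sup_eq_top P
  have hT : Syl S ((P : Subgroup S).map S.subtype) := by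
    refine ⟨map_subtype_le _, P.isPGroup'.map _, ?_⟩
    rw [relIndex, subgroupOf, comap_map_eq_self_of_injective S.subtype_injective,
      ← Nat.not_even_iff_odd, even_iff_two_dvd]
    exact P.not_dvd_index
  generalize (P : Subgroup S).map S.subtype = T at hF hT
  obtain ⟨O, hO⟩ := gl G S T hs hn hc hT
  have hsol : Group.IsSolvable (normalizer (T : Set G)) := by
    refine fin0 _ _ (O.subgroupOf (normalizer (T : Set G))) (loc G hP S T hs hn hT) fun g => ?_
    rw [mem_subgroupOf, hO, orderOf_coe]
    refine and_congr_left fun _ => ⟨fun h => mem_centralizer_iff.2 fun t ht => ?_,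
      fun h => mem_centralizer_iff.2 fun t ht => ?_⟩
    · exact Subtype.ext (mem_centralizer_iff.1 h t ht)
    · exact congrArg Subtype.val (mem_centralizer_iff.1 h ⟨t, le_normalizer ht⟩ ht)
  have hm : (normalizer (T : Set G)).map (QuotientGroup.mk' S) = ⊤ := by
    have := congrArg (map (QuotientGroup.mk' S)) hF
    rwa [Subgroup.map_sup, QuotientGroup.map_mk'_self, sup_bot_eq,
      map_top_of_surjective _ (QuotientGroup.mk'_surjective S)] at this
  refine Group.isSolvable_of_surjective
    (f := (QuotientGroup.mk' S).comp (normalizer (T : Set G)).subtype) fun q => ?_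
  obtain ⟨g, hg, e⟩ : q ∈ (normalizer (T : Set G)).map (QuotientGroup.mk' S) := hm ▸ mem_top q
  exact ⟨⟨g, hg⟩, e⟩

end Cfsg.Agent.H29.PcMain
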