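import Mathlib
import Cfsg.Agent.H29.ASTab7

/-! Finite checks in the Weyl group of `E₇`. -/

set_option autoImplicit false
set_option maxRecDepth 100000

namespace Cfsg.Agent.H29

open Cfsg.Lie

theorem alc7_5 : allAlc [2, 2, 3, 4, 3, 2, 1] 5
    (ratL tn7 5 2 [[1, 0, 0, 0, 0, 1, 0], [1, 0, 0, 0, 0, 1, 1]]) = true := by decide +kernel

theorem stab7_5 : ∀ a ∈ [[1, 0, 0, 0, 0, 1, 0], [1, 0, 0, 0, 0, 1, 1]], srch cn7 tn7 5 1 a
    (fun M => polyOK 5 un7 M (ordP 5 3) || polyOK 5 un7 M (ordP 5 5)) = true := by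
  simp only [List.forall_mem_cons, List.not_mem_nil, false_imp_iff, implies_true, and_true]
  refine ⟨?_, ?_⟩ <;> refine srch_of_split (m := 4) (by decide) fun i hi => ?_ <;>
    interval_cases i <;> decide +kernel

/-- The rational points of the alcove modulo `7`. -/
def rep7 : List (List ℕ) := [[0, 0, 0, 0, 1, 1, 2], [1, 0, 1, 0, 0, 0, 0], [1, 0, 0, 0, 0, 1, 1],
  [1, 0, 0, 0, 0, 1, 2], [0, 0, 0, 1, 0, 1, 0], [1, 0, 0, 1, 0, 0, 1]]

theorem alc7_7 : allAlc [2, 2, 3, 4, 3, 2, 1] 7 (ratL tn7 7 3 rep7) = true := by decide +kernel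

theorem stab7_7 : ∀ a ∈ rep7, srch cn7 tn7 7 1 a 
    (fun M => !polyOK 7 un7 M (ordP 7 6) || polyOK 7 un7 M (ordP 7 0)) = true := by
  simp only [rep7, List.forall_mem_cons, List.not_mem_nil, false_imp_iff, implies_true, and_true]
  refine ⟨?_, ?_, ?_, ?_, ?_, ?_⟩ <;> refine srch_of_split (m := 2) (by decide) fun i hi => ?_ <;>
    interval_cases i <;> decide +kernel

theorem zero7_7 : ∀ a ∈ rep7, zN 7 tn7 a = 30 ∨ zN 7 tn7 a = 24 ∨ zN 7 tn7 a = 12 ∧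
    srch cn7 tn7 7 1 a (fun M => hornA 7 un7 M (ordP 7 1) fun G =>
      Nat.ble 13 (cntL (fun x => allL (kil 7 · x.2.2) G) tn7)) = true := by
  decide +kernel

theorem inj7 : ∀ s ∈ [5, 7], ∀ j < chevE7.rank, ∀ r < chevE7.nroots,
    (chevE7.cartan j r - 2) % (s : ℕ) = 0 → r = chevE7.simple j := by decide +kernel

end Cfsg.Agent.H29
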