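import Mathlib
import Cfsg.Agent.H29.AS5
import Cfsg.Agent.H29.ASChk7

/-! Alternating sections of the groups of type `E₇`. -/

set_option autoImplicit false

namespace Cfsg.Agent.H29

open Equiv Cfsg.Lie H37 H40 H34 Finset

variable {C : Cert chevE7} {f : Fin chevE7.nroots → ℤ} {v w : Perm (Fin chevE7.nroots)}

theorem th7 : (rd chevE7 rcE7 (⟨125, by decide⟩ : Fin chevE7.nroots)).2.2.2 =
    [2, 2, 3, 4, 3, 2, 1].map (↑) := by decide +kernel

theorem comb7_5 (hf : IsAdd C.R f) (h0 : ¬ ∀ r, (f r : ZMod 5) = 0)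
    (h1 : ∀ r, (f (v r) : ZMod 5) = (2 : ℕ) * f r) (hw : w ∈ C.S.W)
    (h2 : ∀ r, (f (w r) : ZMod 5) = f r) : w ^ 12 = 1 := by
  obtain ⟨u, hu, a, ha, h3, h4⟩ := alc_rat tabOKE7 tabN7 (by decide) hf h1 h0 (by decide) _ th7 alc7_5
  have hw' := mul_mem (mul_mem (inv_mem hu) hw) hu
  have h5 := srch_spec tabOKE7 tabN7 (by decide) hw' h3 h4 (hf.comp hu) (fun r => by simp [h2])
    (stab7_5 a ha)
  have h6 : (u⁻¹ * w * u) ^ 12 = 1 := by
    rcases Bool.or_eq_true_iff.1 h5 with h5 | h5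
    · rw [show 12 = (3 + 1) * 3 from rfl, pow_mul, eq_one_of_mod (inj7 5 (by simp)) (pow_mem hw' _)
        fun g hg => ord_spec tabOKE7 tabN7 (by decide) hw' h5 hg, one_pow]
    · rw [show 12 = (5 + 1) * 2 from rfl, pow_mul, eq_one_of_mod (inj7 5 (by simp)) (pow_mem hw' _)
        fun g hg => ord_spec tabOKE7 tabN7 (by decide) hw' h5 hg, one_pow]
  rwa [conj_pow'', mul_assoc, inv_mul_eq_one, eq_comm, mul_eq_right] at h6

theorem comb7_7 (hf : IsAdd C.R f) (h0 : ¬ ∀ r, (f r : ZMod 7) = 0)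
    (h1 : ∀ r, (f (v r) : ZMod 7) = (3 : ℕ) * f r) :
    (∀ w ∈ C.S.W, (∀ r, (f (w r) : ZMod 7) = f r) → w ^ 7 = 1 → w = 1) ∧
    (z0 7 f = 30 ∨ z0 7 f = 24 ∨ z0 7 f = 12 ∧ ∀ w ∈ C.S.W, (∀ r, (f (w r) : ZMod 7) = f r) →
      ∀ g, IsAdd C.R g → (∀ r, (g (w r) : ZMod 7) = (2 : ℕ) * g r) → 13 ≤ z0 7 g) := by
  obtain ⟨u, hu, a, ha, h3, h4⟩ := alc_rat tabOKE7 tabN7 (by decide) hf h1 h0 (by decide) _ th7 alc7_7
  refine ⟨fun w hw h2 h7 => ?_, ?_⟩
  · have hw' := mul_mem (mul_mem (inv_mem hu) hw) hu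
    have h5 := srch_spec tabOKE7 tabN7 (by decide) hw' h3 h4 (hf.comp hu) (fun r => by simp [h2])
      (stab7_7 a ha)
    rw [polyOK_ord tabOKE7 tabN7 (by decide) hw' (by rw [conj_pow'', h7]; simp)] at h5
    have h6 := eq_one_of_mod (inj7 7 (by simp)) hw' fun g hg r => by
      simpa using ord_spec tabOKE7 tabN7 (by decide) hw' h5 hg r
    rwa [mul_assoc, inv_mul_eq_one, eq_comm, mul_eq_right] at h6
  have h5 := zero7_7 a ha
  rw [h4.zN_eq tabOKE7 tabN7 (by decide) (hf.comp hu), ← z0_congr u fun _ => Iff.rfl] at h5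
  refine h5.imp_right (Or.imp_right (And.imp_right fun h6 w hw h2 g hg h7 => ?_))
  have hw' := mul_mem (mul_mem (inv_mem hu) hw) hu
  have h8 := srch_spec tabOKE7 tabN7 (by decide) hw' h3 h4 (hf.comp hu) (fun r => by simp [h2]) h6
  rw [hornA_eq, Nat.ble_eq, cntL, sumL_tabN tabOKE7 tabN7] at h8
  rw [z0_congr u fun _ => Iff.rfl]
  refine h8.trans (sum_le_sum fun r _ => ?_)
  cases h9 : allL _ _
  · exact Nat.zero_le _
  have := (kil_all_iff tabOKE7 tabN7 (by decide) hw' _ (length_rn tabOKE7 tabN7 r)).1 h9 _ (hg.comp hu)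
  rw [ev_rn tabOKE7 tabN7 (by decide) ((hg.comp hu).pev hw' _),
    pev_eig (k := 2) fun r => by simp [h7], mul_eq_zero] at this
  rw [if_pos (this.resolve_left (by decide))]

theorem comb7_14 {g : Fin chevE7.nroots → ℤ} (hf : IsAdd C.R f) (hg : IsAdd C.R g) (hw : w ∈ C.S.W)
    (h1 : ∀ r, (g (v r) : ZMod 7) = f r) (h2 : ∀ r, (f (v r) : ZMod 7) = 3 * g r)
    (h3 : ∀ r, (f (w r) : ZMod 7) = f r) (h4 : ∀ r, (g (w r) : ZMod 7) = 2 * g r) :
    ∀ r, (f r : ZMod 7) = 0 := by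
  by_contra h0
  let z : ℤ → ℕ := fun c => z0 7 fun r => f r + c * g r
  have e1 : ∀ c d : ℤ, (d : ZMod 7) = 2 * c → z c = z d := fun c d h =>
    z0_congr w fun r => by simp [h, h3, h4, mul_comm, mul_left_comm]
  have e2 : z 1 = z 3 := z0_congr v fun r => by simp [h1, h2, add_comm]
  have e3 : z0 7 g = z0 7 f := z0_congr v fun r => by rw [h1]
  have e4 : (2 * z0 7 f + 6 * z 1) % 7 = 0 := by
    have h5 : ∀ x y : ZMod 7, ((if x = 0 then 1 else 0) + (if y = 0 then 1 else 0) +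
        (if x + 1 * y = 0 then 1 else 0) + (if x + 2 * y = 0 then 1 else 0) +
        (if x + 4 * y = 0 then 1 else 0) + (if x + 3 * y = 0 then 1 else 0) +
        (if x + 6 * y = 0 then 1 else 0) + if x + 5 * y = 0 then 1 else 0 : ℕ) % 7 = 1 := by decide
    have h6 : (z0 7 f + z0 7 g + z 1 + z 2 + z 4 + z 3 + z 6 + z 5) % 7 = 0 := by
      simp only [z, z0, ← sum_add_distrib, Int.cast_add, Int.cast_mul, Int.cast_ofNat, Int.cast_one]
      rw [sum_nat_mod, sum_congr rfl fun r _ => h5 (f r) (g r), sum_const, card_univ,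
        Fintype.card_fin]
      rfl
    rw [← e1 2 4 rfl, ← e1 1 2 rfl, ← e1 6 5 rfl, ← e1 3 6 rfl, ← e2, e3] at h6
    omega
  have h5 := (comb7_7 hf h0 (v := v * v) fun r => by simp [h1, h2]).2
  have h6 := (comb7_7 (hf.add (hg.mul 1)) (v := v * v) (fun h => h0 fun r => by
    have := h (w r)
    have := h r
    simp only [Int.cast_add, one_mul, h3, h4] at *
    linear_combination 2 * ‹(f r : ZMod 7) + g r = 0› - ‹(f r : ZMod 7) + 2 * g r = 0›)
    fun r => by simp [h1, h2]; ring).2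
  change z 1 = 30 ∨ z 1 = 24 ∨ z 1 = 12 ∧ _ at h6
  rcases h5 with h5 | h5 | ⟨h5, h7⟩
  · omega
  · omega
  · have := h7 w hw h3 g hg h4
    omega

theorem cardW_E7 (C : Cert chevE7) : Nat.card C.S.W = 2903040 := card_W_E7 (isCartan_E7 C)

variable (C) {L Γ : Type*} [Field L] [Fintype L] [Group Γ] [Finite Γ] (j : Γ →* chevE7.group L)
  (hj : Function.Injective j)
include C hj

theorem e7_no14 (hL : Fintype.card L ≡ 1 [MOD 7 ^ 2]) (π : Γ →* alternatingGroup (Fin 14))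
    (hπ : Function.Surjective π) : 7 ∣ Nat.card π.ker := by
  by_contra h
  let x : alternatingGroup (Fin 14) :=
    ⟨c[0, 1, 2, 3, 4, 5, 6], Perm.mem_alternatingGroup.2 (by decide +kernel)⟩
  let z : alternatingGroup (Fin 14) :=
    ⟨c[7, 8, 9, 10, 11, 12, 13], Perm.mem_alternatingGroup.2 (by decide +kernel)⟩
  let y : alternatingGroup (Fin 14) := ⟨c[0, 7] * c[1, 8, 3, 10, 2, 9, 6, 13, 4, 11, 5, 12],
    Perm.mem_alternatingGroup.2 (by decide +kernel)⟩
  let y' : alternatingGroup (Fin 14) :=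
    ⟨c[1, 2, 4] * c[3, 6, 5], Perm.mem_alternatingGroup.2 (by decide +kernel)⟩
  have e1 : y * x * y⁻¹ = z := by decide +kernel
  have e2 : y * z * y⁻¹ = x ^ 3 := by decide +kernel
  have e3 : y' * x * y'⁻¹ = x ^ 2 := by decide +kernel
  have e4 : y' * z * y'⁻¹ = z := by decide +kernel
  have hx : x ∈ Subgroup.closure {x, z} := Subgroup.subset_closure (by simp)
  have hz : z ∈ Subgroup.closure {x, z} := Subgroup.subset_closure (by simp)
  obtain ⟨P, h1, h2, h3, h4⟩ := lift_elab hπ h (S := {x, z})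
    (by simp only [Set.mem_insert_iff, Set.mem_singleton_iff, forall_eq_or_imp, forall_eq]; decide +kernel)
    (by simp only [Set.mem_insert_iff, Set.mem_singleton_iff, forall_eq_or_imp, forall_eq]; decide +kernel)
  obtain ⟨a, ha, hax⟩ := h3 x (by simp)
  obtain ⟨b, hb, hbz⟩ := h3 z (by simp)
  obtain ⟨g, -, hg⟩ := h4 y (by simp [e1, e2, hz, pow_mem hx])
  obtain ⟨g', -, hg'⟩ := h4 y' (by simp [e3, e4, hz, pow_mem hx])
  have h5 := hg a ha b hb (by rw [hax, hbz, e1])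
  have h6 := hg b hb _ (pow_mem ha 3) (by rw [map_pow, hax, hbz, e2])
  have h7 := hg' a ha _ (pow_mem ha 2) (by rw [map_pow, hax, e3])
  have h8 := hg' b hb b hb (by rw [hbz, e4])
  obtain ⟨j', hj', h9⟩ := toral C hL (by rw [cardW_E7]; decide) (by rw [cardW_E7]; decide) (k := 3)
    (fun f hf h0 v _ hv => (comb7_7 hf h0 hv).1) j hj h1 h2 ha hb (y := g * g)
    (fun e => by revert hax; rw [e, map_one]; decide +kernel)
    (fun i hi e => (by decide +kernel : ∀ i < 7, x ^ i ≠ z) i hi (by rw [← hax, ← hbz, e, map_pow]))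
    (by rw [← h6, ← h5]; group) (by
      calc _ = g * (g * b * g⁻¹) * g⁻¹ := by group
        _ = _ := by rw [h6, ← conj_pow, h5])
  obtain ⟨ζ, hζ⟩ := exists_prim (hL.of_dvd (dvd_pow_self 7 two_ne_zero))
  obtain ⟨f, hf⟩ := exists_lab hζ (by decide) (h9 a ha) (by rw [← map_pow, h1 a ha, map_one])
  obtain ⟨f', hf'⟩ := exists_lab hζ (by decide) (h9 b hb) (by rw [← map_pow, h1 b hb, map_one])
  obtain ⟨v, -, hv⟩ := exists_act' C j' g
  obtain ⟨w, hw, hw'⟩ := exists_act' C j' g'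
  have := (hf'.eq_one_iff hζ).2 (comb7_14 hf'.1 hf.1 hw (v := v)
    (by simpa using hv hζ 1 hf hf' (by simpa using h5)) (by simpa using hv hζ 3 hf' hf h6)
    (by simpa using hw' hζ 1 hf' hf' (by simpa using h8)) (by simpa using hw' hζ 2 hf hf h7))
  revert hbz
  rw [hj' (this.trans (map_one j').symm), map_one]
  decide +kernel

theorem e7_no15 (hL : Fintype.card L ≡ 1 [MOD 5 ^ 2]) (π : Γ →* alternatingGroup (Fin 15))
    (hπ : Function.Surjective π) : 5 ∣ Nat.card π.ker := by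
  by_contra h
  let x : alternatingGroup (Fin 15) :=
    ⟨c[0, 1, 2, 3, 4], Perm.mem_alternatingGroup.2 (by decide +kernel)⟩
  let z : alternatingGroup (Fin 15) :=
    ⟨c[5, 6, 7, 8, 9], Perm.mem_alternatingGroup.2 (by decide +kernel)⟩
  let t : alternatingGroup (Fin 15) :=
    ⟨c[10, 11, 12, 13, 14], Perm.mem_alternatingGroup.2 (by decide +kernel)⟩
  let y : alternatingGroup (Fin 15) :=
    ⟨c[1, 2, 4, 3] * c[6, 7, 9, 8], Perm.mem_alternatingGroup.2 (by decide +kernel)⟩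
  let y' : alternatingGroup (Fin 15) := ⟨c[5, 10] * c[6, 11, 7, 12, 9, 14, 8, 13],
    Perm.mem_alternatingGroup.2 (by decide +kernel)⟩
  have e1 : y * x * y⁻¹ = x ^ 2 := by decide +kernel
  have e2 : y * z * y⁻¹ = z ^ 2 := by decide +kernel
  have e3 : y * t * y⁻¹ = t := by decide +kernel
  have e4 : y' * x * y'⁻¹ = x := by decide +kernel
  have e5 : y' * z * y'⁻¹ = t := by decide +kernel
  have e6 : y' * t * y'⁻¹ = z ^ 2 := by decide +kernel
  have hx : x ∈ Subgroup.closure {x, z, t} := Subgroup.subset_closure (by simp)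
  have hz : z ∈ Subgroup.closure {x, z, t} := Subgroup.subset_closure (by simp)
  have ht : t ∈ Subgroup.closure {x, z, t} := Subgroup.subset_closure (by simp)
  obtain ⟨P, h1, h2, h3, h4⟩ := lift_elab hπ h (S := {x, z, t})
    (by simp only [Set.mem_insert_iff, Set.mem_singleton_iff, forall_eq_or_imp, forall_eq]; decide +kernel)
    (by simp only [Set.mem_insert_iff, Set.mem_singleton_iff, forall_eq_or_imp, forall_eq]; decide +kernel)
  obtain ⟨a, ha, hax⟩ := h3 x (by simp)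
  obtain ⟨b, hb, hbz⟩ := h3 z (by simp)
  obtain ⟨c, hc, hct⟩ := h3 t (by simp)
  obtain ⟨g, -, hg⟩ := h4 y (by simp [e1, e2, e3, ht, pow_mem hx, pow_mem hz])
  obtain ⟨g', -, hg'⟩ := h4 y' (by simp [e4, e5, e6, hx, ht, pow_mem hz])
  have h5 := hg a ha _ (pow_mem ha 2) (by rw [map_pow, hax, e1])
  obtain ⟨j', hj', h9⟩ := toral C hL (by rw [cardW_E7]; decide) (by rw [cardW_E7]; decide) (k := 2)
    (fun f hf h0 v _ hv w hw h5 h6 => by
      have h7 := comb7_5 hf h0 hv hw h5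
      rw [show 12 = 5 * 2 + 2 from rfl, pow_add, pow_mul, h6, one_pow, one_mul] at h7
      rwa [show 5 = 2 * 2 + 1 from rfl, pow_succ, pow_mul, h7, one_pow, one_mul] at h6)
    j hj h1 h2 ha hb (fun e => by revert hax; rw [e, map_one]; decide +kernel)
    (fun i hi e => (by decide +kernel : ∀ i < 5, x ^ i ≠ z) i hi (by rw [← hax, ← hbz, e, map_pow]))
    h5 (hg b hb _ (pow_mem hb 2) (by rw [map_pow, hbz, e2]))
  obtain ⟨ζ, hζ⟩ := exists_prim (hL.of_dvd (dvd_pow_self 5 two_ne_zero))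
  obtain ⟨f, hf⟩ := exists_lab hζ (by decide) (h9 a ha) (by rw [← map_pow, h1 a ha, map_one])
  obtain ⟨f', hf'⟩ := exists_lab hζ (by decide) (h9 b hb) (by rw [← map_pow, h1 b hb, map_one])
  obtain ⟨f'', hf''⟩ := exists_lab hζ (by decide) (h9 c hc) (by rw [← map_pow, h1 c hc, map_one])
  obtain ⟨v, -, hv⟩ := exists_act' C j' g
  obtain ⟨w, hw, hw'⟩ := exists_act' C j' g'
  have h6 := comb7_5 hf.1 (fun e => by
      revert hax
      rw [hj' (((hf.eq_one_iff hζ).2 e).trans (map_one j').symm), map_one]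
      decide +kernel) (hv hζ 2 hf hf h5) hw
    (by simpa using hw' hζ 1 hf hf (hg' a ha _ (pow_mem ha 1) (by rw [pow_one, hax, e4])))
  have h7 := hw' hζ 1 hf' hf'' (hg' b hb _ (pow_mem hc 1) (by rw [pow_one, hbz, hct, e5]))
  have h8 := hw' hζ 2 hf'' hf' (hg' c hc _ (pow_mem hb 2) (by rw [map_pow, hbz, hct, e6]))
  have := (hf'.eq_one_iff hζ).2 fun r => by
    have := rel_pow (f := f') (w := w ^ 2) (k := 2) (fun r => by rw [sq, Perm.mul_apply, h7, h8]; simp) 6 r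
    rw [← pow_mul, h6, Perm.one_apply] at this
    generalize (f' r : ZMod 5) = c at this
    revert c
    decide
  revert hbz
  rw [hj' (this.trans (map_one j').symm), map_one]
  decide +kernel

end Cfsg.Agent.H29
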