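import Cfsg.Agent.H53.AhKit
import Cfsg.Agent.H28.MwS

/-!
Project AH, piece O64-P: primitive `{2, 3}`-groups on 64 vectors.
-/

set_option autoImplicit false

namespace Cfsg.Agent.H29.AhO64P

open MulAction Cfsg.Agent.H12.RO Cfsg.Agent.H53.MW Cfsg.Agent.H53.AH

universe u

/-- A semilinear involution which is not linear fixes the square root of the number of vectors. -/
theorem fix_sq {G V K : Type*} [Group G] [AddCommGroup V] [Finite V] [DistribMulAction G V]
    [Field K] [Module K V] {t : G} (t2 : t * t = 1) {c c' : K} (hc : c' ≠ c)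
    (semi : ∀ v : V, t • c • v = c' • t • v) (two : ∀ v : V, v + v = 0) :
    Nat.card (fixedBy V t) * Nat.card (fixedBy V t) = Nat.card V := by
  refine le_antisymm ?_ ?_
  · rw [← Nat.card_prod]
    refine Nat.card_le_card_of_injective
      (fun x : fixedBy V t × fixedBy V t => (x.1 : V) + c • (x.2 : V)) ?_
    rintro ⟨⟨a, ha⟩, ⟨b, hb⟩⟩ ⟨⟨a', ha'⟩, ⟨b', hb'⟩⟩ e
    simp only [mem_fixedBy] at ha hb ha' hb' e
    have e' := congrArg (t • ·) e
    simp only [smul_add, semi, ha, hb, ha', hb'] at e'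
    have h1 : (c' - c) • (b - b') = 0 := by
      have := congrArg₂ (· - ·) e' e
      simp only [add_sub_add_left_eq_sub] at this
      rw [smul_sub, sub_smul, sub_smul, this, sub_self]
    obtain rfl : b = b' := sub_eq_zero.1 ((smul_eq_zero.1 h1).resolve_left (sub_ne_zero.2 hc))
    obtain rfl : a = a' := add_right_cancel e
    rfl
  · let f : V →+ V := AddMonoidHom.mk' (fun v => v + t • v) fun a b => by
      rw [smul_add, add_add_add_comm]
    rw [← f.ker.card_mul_index, AddSubgroup.index_ker]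
    refine Nat.mul_le_mul (Nat.card_le_card_of_injective (fun x => ⟨x.1, ?_⟩) ?_)
      (Nat.card_le_card_of_injective (fun x => ⟨x.1, ?_⟩) ?_)
    · have h : x.1 + t • x.1 = 0 := x.2
      exact add_left_cancel (h.trans (two _).symm)
    · exact fun a b e => Subtype.ext (Subtype.mk.inj e)
    · obtain ⟨_, v, rfl⟩ := x
      change t • (v + t • v) = v + t • v
      rw [smul_add, ← mul_smul, t2, one_smul, add_comm]
    · exact fun a b e => Subtype.ext (Subtype.mk.inj e)

/-- An involution preserving an alternating form on nine vectors and fixing a vector is trivial. -/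
theorem triv_of_fix {G W K : Type*} [Group G] [AddCommGroup W] [Finite W] [DistribMulAction G W]
    [Field K] {b : W → W → Kˣ} (h : Alt b) (hW : Nat.card W = 9) {t : G} (t2 : t * t = 1)
    (hb : ∀ x y, b (t • x) (t • y) = b x y) {x : W} (hx : x ≠ 0) (e : t • x = x) (y : W) :
    t • y = y := by
  let A := AddSubgroup.zmultiples x
  have h1 : A ≤ h.perp A := by
    rintro _ ⟨m, rfl⟩ _ ⟨n, rfl⟩
    simp only [h.zsmul_left, h.zsmul_right, h.self, one_zpow]
  have h2 := h.card_mul A
  have h3 := AddSubgroup.card_le_of_le h1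
  have h4 : Nat.card A ≠ 1 := fun e => hx (by
    rw [AddSubgroup.card_eq_one] at e
    exact AddSubgroup.mem_bot.1 (e ▸ AddSubgroup.mem_zmultiples x))
  have h5 : Nat.card (h.perp A) ≤ Nat.card A := by
    rw [hW] at h2
    have h6 : Nat.card A ≤ 3 := by nlinarith
    generalize Nat.card A = m, Nat.card (h.perp A) = n at *
    interval_cases m <;> omega
  have h6 : t • y - y ∈ A := by
    rw [AddSubgroup.eq_of_le_of_card_ge h1 h5]
    rintro _ ⟨m, rfl⟩
    have := hb x y
    rw [e] at this
    simp only [h.zsmul_left, h.sub_right, this, div_self', one_zpow]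
  obtain ⟨m, hm⟩ := h6
  have h7 : t • (t • y - y) = t • y - y := by
    rw [← hm]
    change t • m • x = m • x
    rw [smul_comm, e]
  rw [smul_sub, ← mul_smul, t2, one_smul] at h7
  have h8 : 2 • (t • y - y) = 0 := by
    rw [two_nsmul]
    nth_rw 1 [← h7]
    abel
  have h9 := Nat.dvd_gcd (addOrderOf_dvd_of_nsmul_eq_zero h8) (hW ▸ addOrderOf_dvd_natCard (t • y - y))
  exact sub_eq_zero.1 (AddMonoid.addOrderOf_eq_one_iff.1 (Nat.dvd_one.1 h9))

theorem t23_le {n : ℕ} (h : T23 n) (h63 : n ∣ 63) : n ∣ 9 := by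
  have h7 : ¬ 7 ∣ n := fun e => by have := h 7 (by norm_num) e; omega
  have : n ≤ 63 := Nat.le_of_dvd (by norm_num) h63
  interval_cases n <;> omega

/-- **O64-P** -/
theorem o64p : O64PStmt.{u} := by
  intro G V _ _ _ _ _ _ hf hpr h hsm
  have : Nontrivial V := Finite.one_lt_card_iff_nontrivial.1 (by omega)
  obtain ⟨K, _, _, _, W, _, _, _, σ, U, To, E, M, π, b, e, P⟩ := pk G V hf hpr
  obtain ⟨c1, c2, c3, c4, -, -⟩ := ordKit.pk G V K W σ U To E M π b e P
  have hT := hsm.t23_of_faith hf
  have hi : Nat.card (img G V) ≤ Nat.card G :=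
    Nat.card_le_card_of_surjective _ (toPermHom G V).rangeRestrict_surjective
  obtain ⟨p, hp⟩ := CharP.exists K
  have pp : p.Prime := CharP.char_is_prime K p
  have pV : ∀ v : V, p • v = 0 := fun v => by
    rw [← Nat.cast_smul_eq_nsmul K, CharP.cast_eq_zero, zero_smul]
  obtain ⟨f, f1, f2, f3⟩ := c4 p pp pV
  rw [f1, ← pow_mul, h, show 64 = 2 ^ 6 from rfl] at c1
  obtain rfl : p = 2 := (Nat.prime_dvd_prime_iff_eq pp Nat.prime_two).1 (pp.dvd_of_dvd_pow
    (c1 ▸ dvd_pow_self p fun e => by rw [e, pow_zero] at c1; omega))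
  have a1 : 6 = f * Module.finrank K V := Nat.pow_right_injective le_rfl c1
  have a2 : f ≤ 6 := a1 ▸ Nat.le_mul_of_pos_right f (Nat.pos_of_ne_zero fun e => by
    rw [e] at a1; omega)
  have u1 := f1 ▸ P.U_dvd
  have u2 : Nat.card U ∣ 9 := t23_le (hT.of_dvd U.card_subgroup_dvd_card) (u1.trans (by
    interval_cases f <;> omega))
  have hG := σ.ker.card_mul_index
  have i1 := Nat.le_of_dvd f3 f2
  by_cases he : e = 1
  · subst he
    have : Subsingleton W := (Nat.card_eq_one_iff_unique.1 P.card).1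
    have a4 : Nat.card (img σ.ker W) = 1 := Nat.card_unique
    rw [c3, a4, one_pow, mul_one, mul_one] at hG
    have := Nat.mul_le_mul (Nat.le_of_dvd (by norm_num) u2) (i1.trans a2)
    exact ⟨by omega, fun _ => by omega⟩
  obtain ⟨r, r1, r2⟩ := Nat.exists_prime_and_dvd he
  have r3 := P.dvd r r1 r2
  obtain rfl : r = 3 := (Nat.prime_dvd_prime_iff_eq r1 Nat.prime_three).1
    (r1.dvd_of_dvd_pow (n := 2) (r3.trans u2))
  have e1 := P.le
  have e2 := Nat.le_of_dvd P.pos r2
  have r4 := r3.trans u1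
  obtain rfl : f = 2 := by interval_cases f <;> omega
  obtain rfl : e = 3 := by omega
  have u3 : Nat.card U = 3 := Nat.dvd_antisymm u1 r3
  have alt : Alt b := ⟨P.b_add_left, P.b_add_right, P.b_self, P.b_nd⟩
  have inv : ∀ g : G, σ g = 1 → ∀ x y, b (g • x) (g • y) = b x y := fun g hg x y =>
    Units.ext (by rw [P.b_smul, hg]; rfl)
  have m1 := H28.MwS.sqf σ.ker W Kˣ b 3 (by norm_num) Nat.prime_three.squarefree P.card
    P.b_add_left P.b_add_right P.b_self P.b_nd fun g => inv g g.2
  rw [c3, u3] at hG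
  have m2 := Nat.mul_le_mul m1 i1
  refine ⟨by rw [mul_assoc] at hG; omega, fun h1 => ?_⟩
  have m3 : T23 (Nat.card (img σ.ker W)) := hT.of_dvd (hG ▸ (dvd_mul_left _ _).mul_right _)
  have m4 : Nat.card G = 1296 := by
    generalize Nat.card (img σ.ker W) = m, σ.ker.index = i at *
    have h5 := mt (m3 5 (by norm_num)) (by omega)
    have h7 := mt (m3 7 (by norm_num)) (by omega)
    have h11 := mt (m3 11 (by norm_num)) (by omega)
    have h19 := mt (m3 19 (by norm_num)) (by omega)
    have h23 := mt (m3 23 (by norm_num)) (by omega)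
    interval_cases i <;> omega
  have hW : Nat.card W = 9 := P.card
  have : Nontrivial W := Finite.one_lt_card_iff_nontrivial.1 (by omega)
  obtain ⟨x, hx⟩ := exists_ne (0 : W)
  have o1 : (orbit G x).ncard ≤ 8 := by
    have : orbit G x ⊆ {0}ᶜ := by
      rintro _ ⟨g, rfl⟩ h
      exact hx ((smul_eq_zero_iff_eq g).1 h)
    refine (Set.ncard_le_ncard this).trans ?_
    rw [Set.ncard_compl, Set.ncard_singleton, hW]
  have o2 := (stabilizer G x).card_mul_index
  rw [index_stabilizer, m4] at o2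
  have o3 : 2 ∣ Nat.card (stabilizer G x) := by
    generalize (orbit G x).ncard = n at *
    interval_cases n <;> omega
  obtain ⟨⟨t, ht⟩, t1⟩ := exists_prime_orderOf_dvd_card' 2 o3
  rw [Subgroup.orderOf_mk] at t1
  have t2 : t * t = 1 := by rw [← pow_two, ← t1, pow_orderOf_eq_one]
  have t3 : σ t ≠ 1 := fun e => by
    have := M.orderOf_dvd_natCard (P.kerW t e (triv_of_fix alt hW t2 (inv t e) hx ht))
    rw [t1, c2, u3] at this
    omega
  obtain ⟨c, hc⟩ : ∃ c, σ t c ≠ c := not_forall.1 fun h => t3 (RingEquiv.ext h)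
  have := fix_sq t2 hc (P.semi t c) fun v => (two_nsmul v).symm.trans (pV v)
  refine ⟨t, Nat.mul_self_inj.1 (this.trans h)⟩

end Cfsg.Agent.H29.AhO64P
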