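import Cfsg.Agent.H45.IvDefs

/-! Project CY, chapter IV, piece LB: the group `R / Z` is elementary abelian and regular on the
line. -/

set_option autoImplicit false

namespace Cfsg.Agent.H29.CyLb

open Subgroup MulAction Cfsg.Agent.H11.Cy Cfsg.Agent.H45.Iv
open scoped commutatorElement

section Abs
variable {G : Type} [Group G] {Ω : Type} [MulAction G Ω]

/-- an invariant set containing an element moving a point is transitive -/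
lemma trn {N : Subgroup G} {L : Set Ω} (hT : Tr2 N L) (P : G → Prop) (h1 : P 1)
    (hP : ∀ g ∈ N, ∀ w, P w → P (g * w * g⁻¹)) {w0 : G} (hw : P w0) {c0 : Ω} (hc : c0 ∈ L)
    (hc' : w0 • c0 ∈ L) (hne : w0 • c0 ≠ c0) :
    ∀ c ∈ L, ∀ d ∈ L, ∃ w, P w ∧ w • c = d := by
  intro c hcL d hdL
  by_cases hcd : c = d
  · exact ⟨1, h1, by rw [one_smul, hcd]⟩
  obtain ⟨g, hg, e1, e2⟩ := hT c0 hc (w0 • c0) hc' c hcL d hdL hne.symm hcd
  refine ⟨g * w0 * g⁻¹, hP g hg w0 hw, ?_⟩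
  rw [← e1, mul_smul, mul_smul, inv_smul_smul, e2]

lemma sq_ex {R Z : Subgroup G} : ∀ (k : ℕ) (r : G), r ∈ R → r ∉ Z → r ^ (2 ^ k) ∈ Z →
    ∃ w ∈ R, w ∉ Z ∧ w * w ∈ Z := by
  intro k
  induction k with
  | zero => intro r _ h1 h2; exact absurd (by simpa using h2) h1
  | succ k ih =>
    intro r hr h1 h2
    by_cases h : r * r ∈ Z
    · exact ⟨r, hr, h1, h⟩
    · refine ih (r * r) (R.mul_mem hr hr) h ?_
      rw [← sq, ← pow_mul, ← pow_succ']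
      exact h2

lemma cen_ex [Finite G] {R Z : Subgroup G} (h2 : IsPGroup 2 R)
    (nZ : ∀ g ∈ R, ∀ z ∈ Z, g * z * g⁻¹ ∈ Z) {r : G} (hr : r ∈ R) (hz : r ∉ Z) :
    ∃ w ∈ R, w ∉ Z ∧ ∀ s ∈ R, ⁅w, s⁆ ∈ Z := by
  haveI : Fact (Nat.Prime 2) := ⟨Nat.prime_two⟩
  haveI hn : (Z.subgroupOf R).Normal := ⟨fun z hz g => nZ g g.2 z hz⟩
  have hq := h2.to_quotient (Z.subgroupOf R)
  haveI : Nontrivial (R ⧸ Z.subgroupOf R) := by
    refine ⟨⟨QuotientGroup.mk ⟨r, hr⟩, 1, fun h => hz ?_⟩⟩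
    exact (QuotientGroup.eq_one_iff (⟨r, hr⟩ : R)).1 h
  haveI := hq.center_nontrivial
  obtain ⟨⟨q, hc⟩, hne⟩ := exists_ne (1 : Subgroup.center (R ⧸ Z.subgroupOf R))
  obtain ⟨w, rfl⟩ := QuotientGroup.mk_surjective q
  refine ⟨w, w.2, fun h => hne (Subtype.ext ((QuotientGroup.eq_one_iff w).2 h)), fun s hs => ?_⟩
  have h := Subgroup.mem_center_iff.1 hc (QuotientGroup.mk ⟨s, hs⟩)
  have h' : (QuotientGroup.mk (w * ⟨s, hs⟩ * w⁻¹ * (⟨s, hs⟩ : R)⁻¹) : R ⧸ Z.subgroupOf R) = 1 := by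
    simp only [QuotientGroup.mk_mul, QuotientGroup.mk_inv]
    rw [← h]
    group
  have h'' : (w * ⟨s, hs⟩ * w⁻¹ * (⟨s, hs⟩ : R)⁻¹ : R) ∈ Z.subgroupOf R :=
    (QuotientGroup.eq_one_iff _).1 h'
  exact h''

lemma core [Finite G] {N R Z : Subgroup G} {L : Set Ω} (hT : Tr2 N L) (hRN : R ≤ N)
    (hL : ∀ g ∈ N, ∀ c ∈ L, g • c ∈ L) (nR : ∀ g ∈ N, ∀ r ∈ R, g * r * g⁻¹ ∈ R)
    (nZ : ∀ g ∈ N, ∀ z ∈ Z, g * z * g⁻¹ ∈ Z)
    (hfix : ∀ r ∈ R, (∀ c ∈ L, r • c = c) → r ∈ Z) (hZ : ∀ z ∈ Z, ∀ c ∈ L, z • c = c)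
    (h2 : IsPGroup 2 R) {x : Ω} (hx : x ∈ L) {r0 : G} (hr0 : r0 ∈ R) (hne : r0 • x ≠ x) :
    (∀ r ∈ R, ∀ c ∈ L, r • c = c → r ∈ Z) ∧ (∀ r ∈ R, ∀ s ∈ R, ⁅r, s⁆ ∈ Z) ∧
      ∀ r ∈ R, r * r ∈ Z := by
  have hz0 : r0 ∉ Z := fun h => hne (hZ r0 h x hx)
  have mv : ∀ w ∈ R, w ∉ Z → ∃ c ∈ L, w • c ≠ c := by
    intro w hw hwz
    by_contra h
    push Not at h
    exact hwz (hfix w hw h)
  obtain ⟨w1, hw1, hz1, hc1⟩ := cen_ex h2 (fun g hg => nZ g (hRN hg)) hr0 hz0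
  obtain ⟨c1, hc1L, hm1⟩ := mv w1 hw1 hz1
  have t1 := trn hT (fun w => w ∈ R ∧ ∀ s ∈ R, ⁅w, s⁆ ∈ Z)
    ⟨R.one_mem, fun s _ => by rw [commutatorElement_one_left]; exact Z.one_mem⟩
    (by
      rintro g hg w ⟨hw, hw'⟩
      refine ⟨nR g hg w hw, fun s hs => ?_⟩
      have hs' := nR g⁻¹ (N.inv_mem hg) s hs
      have := nZ g hg _ (hw' _ hs')
      convert this using 1
      simp only [commutatorElement_def]
      group)
    ⟨hw1, hc1⟩ hc1L (hL w1 (hRN hw1) c1 hc1L) hm1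
  have stab : ∀ r ∈ R, ∀ c ∈ L, r • c = c → r ∈ Z := by
    intro r hr c hc e
    refine hfix r hr fun d hd => ?_
    obtain ⟨w, ⟨_, hw⟩, rfl⟩ := t1 c hc d hd
    have h := hZ _ (hw r hr) _ (hL r (hRN hr) _ hd)
    rw [← h, commutatorElement_def]
    simp only [mul_smul, inv_smul_smul, e]
  have dec : ∀ r ∈ R, ∀ w ∈ R, w • x = r • x → w⁻¹ * r ∈ Z := by
    intro r hr w hw e
    refine stab _ (R.mul_mem (R.inv_mem hw) hr) x hx ?_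
    rw [mul_smul, ← e, inv_smul_smul]
  refine ⟨stab, fun r hr s hs => ?_, fun r hr => ?_⟩
  · obtain ⟨w, ⟨hw, hw'⟩, e⟩ := t1 x hx (r • x) (hL r (hRN hr) x hx)
    have hz := dec r hr w hw e
    have := Z.mul_mem (nZ w (hRN hw) _ (Z.mul_mem hz (nZ s (hRN hs) _ (Z.inv_mem hz)))) (hw' s hs)
    convert this using 1
    simp only [commutatorElement_def]
    group
  · obtain ⟨k, hk⟩ := h2 ⟨r0, hr0⟩
    have hk' : r0 ^ (2 ^ k) ∈ Z := by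
      have : r0 ^ (2 ^ k) = 1 := congrArg Subtype.val hk
      rw [this]; exact Z.one_mem
    obtain ⟨w2, hw2, hz2, hs2⟩ := sq_ex k r0 hr0 hz0 hk'
    obtain ⟨c2, hc2L, hm2⟩ := mv w2 hw2 hz2
    have t2 := trn hT (fun w => w ∈ R ∧ w * w ∈ Z)
      ⟨R.one_mem, by rw [one_mul]; exact Z.one_mem⟩
      (by
        rintro g hg w ⟨hw, hw'⟩
        refine ⟨nR g hg w hw, ?_⟩
        have := nZ g hg _ hw'
        convert this using 1
        group)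
      ⟨hw2, hs2⟩ hc2L (hL w2 (hRN hw2) c2 hc2L) hm2
    obtain ⟨w, ⟨hw, hw'⟩, e⟩ := t2 x hx (r • x) (hL r (hRN hr) x hx)
    have hz := dec r hr w hw e
    have := Z.mul_mem (Z.mul_mem hw' (nZ w⁻¹ (hRN (R.inv_mem hw)) _ hz)) hz
    convert this using 1
    group

end Abs

theorem lb : LbStmt := by
  intro G _ _ Ω _ _ p A h ep sk x y hxy la
  have hRF : Rl A x y ≤ Fl A x y := commutator_le_self _
  obtain ⟨hx, hy⟩ := sk.ln x y
  have hL : ∀ g ∈ normalizer (Fl A x y : Set G), ∀ c ∈ Ln A x y, g • c ∈ Ln A x y :=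
    fun g hg => (ep.nrm x y hxy g).1 hg
  have hsp : ∀ g ∈ normalizer (Fl A x y : Set G),
      Rl A (g • x) (g • y) = Rl A x y ∧ Zl A (g • x) (g • y) = Zl A x y := by
    intro g hg
    have := sk.sp x y hxy _ (hL g hg x hx) _ (hL g hg y hy)
      (fun e => hxy (MulAction.injective g e))
    exact ⟨this.1, this.2.1⟩
  obtain ⟨r0, hr0, e0⟩ := la.tr y hy
  obtain ⟨a, b, c⟩ := core (N := normalizer (Fl A x y : Set G)) (R := Rl A x y) (Z := Zl A x y)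
    (L := Ln A x y) (ep.tr x y hxy) (hRF.trans le_normalizer) hL
    (fun g hg r hr => (hsp g hg).1 ▸ (sk.cj g x y r).2.1 hr)
    (fun g hg r hr => (hsp g hg).2 ▸ (sk.cj g x y r).2.2 hr)
    (fun r hr hf => ⟨hRF hr, (ep.kfix x y hxy r).2 hf⟩)
    (fun z hz => (ep.kfix x y hxy z).1 hz.2) la.r2 hx hr0 (by rw [e0]; exact hxy.symm)
  exact ⟨a, b, c⟩

end Cfsg.Agent.H29.CyLb
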