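import Cfsg.Agent.H53.DgDefs
import Cfsg.Agent.H75.ModCl
import Cfsg.Agent.H30.OrthIndex

/-!
# Project DG: the symplectic and orthogonal models
-/

set_option autoImplicit false

namespace Cfsg.Agent.H29.DgBr

open Module QuadraticMap Cfsg.Agent.H26 Cfsg.Agent.H78 Cfsg.Agent.H30 Cfsg.Agent.H75
  Cfsg.Agent.H53.Dg

variable {F : Type} [Field F] [Fintype F]

theorem sp (m : ℕ) : Mod F (PSp m F) true m 1 True := by
  have hV : finrank F (Fin m ⊕ Fin m → F) = 2 * m := by simp [two_mul]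
  obtain ⟨Fr, hN⟩ := Frame.exists_norm (sympP (H27.isSymplecticForm_sympForm (F := F) m)) m
    (by rw [hV]; exact Nat.add_le_add_left (show 1 ≤ 2 by decide) _)
  have h : (gl.toMonoidHom.comp (H27.spToGL m F)).range =
      (sympP (H27.isSymplecticForm_sympForm (F := F) m)).E := by
    ext g
    obtain ⟨g, rfl⟩ := gl.surjective g
    rw [← mem_spGL_iff, ← H27.range_spToGL]
    exact ⟨fun ⟨x, h⟩ => ⟨x, gl.injective h⟩, fun ⟨x, h⟩ => ⟨x, congrArg gl h⟩⟩
  exact ⟨_, _, _, inferInstance, sympP (H27.isSymplecticForm_sympForm (F := F) m),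
    ⟨fun _ => rfl, fun _ => ⟨rfl, rfl, rfl, hV⟩, fun e => by simp at e,
      Fr, hN, Fr.aniso_of_finrank (by omega)⟩,
    ⟨H28.centerQuotEquiv ((MonoidHom.ofInjective (f := gl.toMonoidHom.comp (H27.spToGL m F))
      (gl.injective.comp H27.spToGL_injective)).trans (MulEquiv.subgroupCongr h))⟩, fun _ => trivial⟩

theorem orth {ι : Type} [Fintype ι] [DecidableEq ι] {Q : QuadraticForm F (ι → F)}
    (hQ : (polarBilin Q).Nondegenerate) (hexc : ¬ IsExc Q) (h3 : 3 ≤ Fintype.card ι) {w e : ℕ}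
    (he : e ≤ 2) (hV : finrank F (ι → F) = 2 * w + e)
    (hF : ∃ Fr : Frame (PForm.ofQuad Q hQ) w, Fr.Norm ∧ Fr.Aniso) {c : Prop}
    (hc : negOne Q ∈ kerDS hQ → c) : Mod F (POmega F ⇑Q) false w e c := by
  refine ⟨_, _, _, inferInstance, PForm.ofQuad Q hQ,
    ⟨fun _ => rfl, fun e => by simp at e, fun _ => ⟨rfl, rfl, he, hV⟩, hF⟩,
    ⟨(pomegaEquivEich hQ hexc h3).trans (H28.centerQuotEquiv
      ((MonoidHom.ofInjective (eichIncl_injective (Q := Q))).trans
        (MulEquiv.subgroupCongr (range_eichIncl hQ))))⟩, fun h => hc ?_⟩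
  rw [← range_eichIncl hQ] at h
  obtain ⟨g, hg⟩ := h
  exact (show g.1 = negOne Q from Subtype.ext hg) ▸ eichGroup_le_kerDS hQ g.2

/-- **DG-BR** -/
theorem br : BrStmt := by
  intro F _ _ m
  refine ⟨sp m, fun hm hodd => ?_, fun hm => ?_, fun hm a b hab => ?_⟩
  · have h2 := two_ne_zero_iff_odd_card.2 hodd
    have hV : finrank F (Unit ⊕ (Fin m ⊕ Fin m) → F) = 2 * m + 1 := by simp; omega
    obtain ⟨Fr, hN⟩ := Frame.exists_norm (PForm.ofQuad _ (qOdd_nondegenerate h2 m)) m
      (by rw [hV]; rfl)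
    exact orth (qOdd_nondegenerate h2 m) (not_isExc_of_two h2) (by simp; omega) (by omega) hV
      ⟨Fr, hN, Fr.aniso_of_finrank hV.le⟩ fun _ => trivial
  · have hV : finrank F (Fin m ⊕ Fin m → F) = 2 * m := by simp; omega
    refine orth (qPlus_nondegenerate m) (not_isExc_of_finrank (by omega)) (by simp; omega)
      (by omega) hV ⟨framePlus F m, fun i => ?_, Frame.aniso_of_finrank _ (by omega)⟩ fun h => ?_
    · change polar (qPlus F m) _ _ = 1
      simp [framePlus, polar_qPlus, Pi.single_apply]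
    · exact (Nat.even_or_odd _).imp_right fun ho => (negOne_mem_kerDS_qPlus_iff ho m).1 h
  · have hV : finrank F ((Fin m ⊕ Fin m) ⊕ Fin 2 → F) = 2 * m + 2 := by simp; omega
    refine orth (qMinus_nondegenerate m hab) (H79.not_isExc_minus hab) (by simp; omega) le_rfl hV
      ⟨frameMinus m _, fun i => ?_, frameMinus_aniso m _ hab⟩ fun h => ?_
    · change polar (qMinus F m a b) _ _ = 1
      simp [frameMinus, polar_qMinus, Pi.single_apply]
    · exact (Nat.even_or_odd _).imp_right fun ho => (negOne_mem_kerDS_qMinus_iff ho m hab).1 h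

end Cfsg.Agent.H29.DgBr
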