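import Cfsg.Agent.H50.E72Defs

/-! The fixed spaces of the row and column groups of transvections have dimension four. -/

set_option autoImplicit false

namespace Cfsg.Agent.H50.E72

open Module Multiplicative
open scoped Matrix MatrixGroups

namespace L43a

theorem key (h3 : C3Stmt) (hc : CntStmt) (hk : KitStmt) {π : G0 →* M56 (ZMod 2)} (hπ : Good π)
    (x : Multiplicative E3 →* G0) {g : G0} (g3 : g ^ 3 = 1) (g1 : g ≠ 1)
    (hx : ∀ e, e ≠ 1 → IsConj g (x e)) : finrank K (Fix π (Set.range x)) = 4 := by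
  obtain ⟨k1, -, k3, -⟩ := hk _ π
  have h := hc _ π 2 x ⊤ fun _ _ _ => trivial
  rw [top_inf_eq, Finset.sum_congr rfl fun e _ => congrArg (fun W : Submodule K (Fin 56 → K) =>
    finrank K W) (top_inf_eq (eig π (x e) 1))] at h
  rw [← Finset.add_sum_erase _ _ (Finset.mem_univ 1), map_one, finrank_top,
    Finset.sum_congr rfl (f := fun e => finrank K (eig π (x e) 1)) (g := fun _ => fx π g) fun e he =>
      (k1 _ _ 1 (hx e (Finset.ne_of_mem_erase he))).symm, Finset.sum_const,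
    Finset.card_erase_of_mem (Finset.mem_univ _)] at h
  have e1 : finrank K (eig π 1 1) = 56 := k3.trans (Fintype.card_fin _)
  have e2 : (Finset.univ : Finset (Multiplicative (Fin (2 + 1) → ZMod 3))).card = 27 := by
    rw [Finset.card_univ, Fintype.card_multiplicative, Fintype.card_fun, ZMod.card]; rfl
  rw [e1, e2, finrank_fin_fun, smul_eq_mul] at h
  have := h3 π hπ g g3 g1
  simp only [List.mem_cons, Prod.mk.injEq, List.not_mem_nil, or_false] at this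
  omega

theorem fix_eq {π : G0 →* M56 (ZMod 2)} (x : Multiplicative E3 →* G0) :
    Fix π (Set.range x) = Fix π {x (ofAdd ![1, 0, 0]), x (ofAdd ![0, 1, 0]), x (ofAdd ![0, 0, 1])} := by
  ext v
  rw [mem_Fix, mem_Fix]
  constructor
  · rintro h g (rfl | rfl | rfl) <;> exact h _ ⟨_, rfl⟩
  · rintro h _ ⟨e, rfl⟩
    have p : ∀ (g : G0) (n : ℕ), act π g v = v → act π (g ^ n) v = v := fun g n hg => by
      induction n with
      | zero => rw [pow_zero, map_one]; rfl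
      | succ n ih => rw [pow_succ, map_mul, Module.End.mul_apply, hg, ih]
    have d : ∀ e : E3, ofAdd e = ofAdd ![1, 0, 0] ^ (e 0).val * ofAdd ![0, 1, 0] ^ (e 1).val *
        ofAdd ![0, 0, 1] ^ (e 2).val := by decide
    rw [show e = ofAdd e.toAdd from rfl, d, map_mul x, map_mul x, map_pow x, map_pow x, map_pow x,
      map_mul, map_mul, Module.End.mul_apply, Module.End.mul_apply, p _ _ (h _ (by simp)),
      p _ _ (h _ (by simp)), p _ _ (h _ (by simp))]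

def rM (e : E3) : Matrix (Fin 4) (Fin 4) (ZMod 3) :=
  !![1, e 0, e 1, e 2; 0, 1, 0, 0; 0, 0, 1, 0; 0, 0, 0, 1]

def cM (e : E3) : Matrix (Fin 4) (Fin 4) (ZMod 3) :=
  !![1, 0, 0, e 0; 0, 1, 0, e 1; 0, 0, 1, e 2; 0, 0, 0, 1]

def bM (e : E3) : Matrix (Fin 4) (Fin 4) (ZMod 3) :=
  if e 0 ≠ 0 then !![1, 0, 0, 0; 0, e 0, e 1, e 2; 0, 0, e 0, 0; 0, 0, 0, 1]
  else if e 1 ≠ 0 then !![1, 0, 0, 0; 0, 0, e 1, e 2; 0, -e 1, 0, 0; 0, 0, 0, 1]
  else !![1, 0, 0, 0; 0, 0, 0, e 2; 0, 0, 1, 0; 0, -e 2, 0, 0]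

def aM (e : E3) : Matrix (Fin 4) (Fin 4) (ZMod 3) :=
  if e 0 ≠ 0 then !![e 0, 0, 0, 0; e 1, e 0, 0, 0; e 2, 0, 1, 0; 0, 0, 0, 1]
  else if e 1 ≠ 0 then !![0, -e 1, 0, 0; e 1, 0, 0, 0; e 2, 0, 1, 0; 0, 0, 0, 1]
  else !![0, 0, -e 2, 0; 0, 1, 0, 0; e 2, 0, 0, 0; 0, 0, 0, 1]

def d4 (A : Matrix (Fin 4) (Fin 4) (ZMod 3)) : ZMod 3 :=
  ∑ j : Fin 4, (-1) ^ (j : ℕ) * A 0 j *
    (let B := A.submatrix Fin.succ j.succAbove
    B 0 0 * B 1 1 * B 2 2 - B 0 0 * B 1 2 * B 2 1 - B 0 1 * B 1 0 * B 2 2 + B 0 1 * B 1 2 * B 2 0 +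
      B 0 2 * B 1 0 * B 2 1 - B 0 2 * B 1 1 * B 2 0)

theorem det_eq (A : Matrix (Fin 4) (Fin 4) (ZMod 3)) : A.det = d4 A := by
  rw [Matrix.det_succ_row_zero]
  exact Finset.sum_congr rfl fun j _ => by rw [Matrix.det_fin_three]

theorem rM_det : ∀ e, d4 (rM e) = 1 := by decide +kernel
theorem cM_det : ∀ e, d4 (cM e) = 1 := by decide +kernel
theorem bM_ok : ∀ e, e ≠ 0 → d4 (bM e) = 1 ∧ bM e * rM e = rM ![1, 0, 0] * bM e := by decide +kernel
theorem aM_ok : ∀ e, e ≠ 0 → d4 (aM e) = 1 ∧ aM e * rM ![0, 0, 1] = cM e * aM e := by decide +kernel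
theorem rM_add : ∀ e e', rM (e + e') = rM e * rM e' := by decide +kernel
theorem cM_add : ∀ e e', cM (e + e') = cM e * cM e' := by decide +kernel

def xr : Multiplicative E3 →* SL(4, ZMod 3) :=
  MonoidHom.mk' (fun e => ⟨rM e.toAdd, (det_eq _).trans (rM_det _)⟩)
    fun _ _ => Subtype.ext (rM_add _ _)

def xc : Multiplicative E3 →* SL(4, ZMod 3) :=
  MonoidHom.mk' (fun e => ⟨cM e.toAdd, (det_eq _).trans (cM_det _)⟩)
    fun _ _ => Subtype.ext (cM_add _ _)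

theorem conj_r (e : Multiplicative E3) (he : e ≠ 1) : IsConj (xr (ofAdd ![1, 0, 0])) (xr e) := by
  obtain ⟨h1, h2⟩ := bM_ok e.toAdd he
  exact IsConj.symm (isConj_iff.2 ⟨⟨bM e.toAdd, (det_eq _).trans h1⟩,
    mul_inv_eq_iff_eq_mul.2 (Subtype.ext h2)⟩)

theorem conj_c (e : Multiplicative E3) (he : e ≠ 1) : IsConj (xr (ofAdd ![1, 0, 0])) (xc e) := by
  obtain ⟨h1, h2⟩ := aM_ok e.toAdd he
  exact (conj_r (ofAdd ![0, 0, 1]) (by decide)).trans
    (isConj_iff.2 ⟨⟨aM e.toAdd, (det_eq _).trans h1⟩, mul_inv_eq_iff_eq_mul.2 (Subtype.ext h2)⟩)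

theorem tv_val (i j : Fin 4) (h : i ≠ j) : (Tv i j).1 = 1 + Matrix.single i j 1 :=
  congrArg Subtype.val (dif_pos h)

theorem r1 : xr (ofAdd ![1, 0, 0]) = Tv 0 1 :=
  Subtype.ext ((by decide +kernel : rM _ = _).trans (tv_val _ _ (by decide)).symm)
theorem r2 : xr (ofAdd ![0, 1, 0]) = Tv 0 2 :=
  Subtype.ext ((by decide +kernel : rM _ = _).trans (tv_val _ _ (by decide)).symm)
theorem r3 : xr (ofAdd ![0, 0, 1]) = Tv 0 3 :=
  Subtype.ext ((by decide +kernel : rM _ = _).trans (tv_val _ _ (by decide)).symm)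
theorem c1 : xc (ofAdd ![1, 0, 0]) = Tv 0 3 :=
  Subtype.ext ((by decide +kernel : cM _ = _).trans (tv_val _ _ (by decide)).symm)
theorem c2 : xc (ofAdd ![0, 1, 0]) = Tv 1 3 :=
  Subtype.ext ((by decide +kernel : cM _ = _).trans (tv_val _ _ (by decide)).symm)
theorem c3 : xc (ofAdd ![0, 0, 1]) = Tv 2 3 :=
  Subtype.ext ((by decide +kernel : cM _ = _).trans (tv_val _ _ (by decide)).symm)

end L43a

open L43a in
theorem l43a (h3 : C3Stmt) (hc : CntStmt) (hk : KitStmt) : L43aStmt := by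
  intro π hπ φ h1
  have g3 : φ (Tv 0 1) ^ 3 = 1 := by
    rw [← r1, ← map_pow, ← map_pow, show (ofAdd ![1, 0, 0] : Multiplicative E3) ^ 3 = 1 by decide,
      map_one, map_one]
  constructor
  · have := key h3 hc hk hπ (φ.comp xr) g3 h1 fun e he => φ.map_isConj (r1 ▸ conj_r e he)
    rwa [fix_eq, φ.comp_apply, φ.comp_apply, φ.comp_apply, r1, r2, r3] at this
  · have := key h3 hc hk hπ (φ.comp xc) g3 h1 fun e he => φ.map_isConj (r1 ▸ conj_c e he)
    rwa [fix_eq, φ.comp_apply, φ.comp_apply, φ.comp_apply, c1, c2, c3] at this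

end Cfsg.Agent.H50.E72
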