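import Cfsg.Agent.H11.ElDefs
import Mathlib.GroupTheory.Perm.Cycle.Type

/-! The centraliser of a point has odd order in the case with `J₁`. -/

set_option autoImplicit false
open Subgroup

namespace Cfsg.Agent.H11.EL

universe u

namespace J5

theorem two_fix {α : Type u} [Finite α] (f : α → α) (hf : Function.Involutive f)
    (he : Even (Nat.card α)) {a : α} (ha : f a = a) : ∃ b, f b = b ∧ b ≠ a := by
  classical
  have := Fintype.ofFinite α
  refine Equiv.Perm.exists_fixed_point_of_prime' (p := 2) (n := 1) (σ := hf.toPerm) ?_ ?_ ha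
  · rw [← Nat.card_eq_fintype_card]; exact he.two_dvd
  · ext x; exact hf x

theorem even_fix {α : Type u} [Finite α] (f : α → α) (hf : Function.Involutive f)
    (he : Even (Nat.card α)) : 2 ∣ Nat.card {a // f a = a} := by
  classical
  have := Fintype.ofFinite α
  have h := Equiv.Perm.card_fixedPoints_modEq (p := 2) (n := 1) (f := f) (funext fun x => hf x)
  rw [← Nat.card_eq_fintype_card, ← Nat.card_eq_fintype_card] at h
  exact (h.dvd_iff dvd_rfl).1 he.two_dvd

variable {G : Type u} [Group G] [Finite G]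

theorem exists_inv {C : Subgroup G} {y : G} (yy : y * y = 1) (hy : ∀ c ∈ C, y * c * y⁻¹ ∈ C)
    (he : Even (Nat.card C)) : ∃ z ∈ C, orderOf z = 2 ∧ Commute z y := by
  have h := even_fix (α := C) (fun c => ⟨y * c * y⁻¹, hy _ c.2⟩) (fun c => Subtype.ext (by
    show y * (y * c * y⁻¹) * y⁻¹ = c
    rw [show y * (y * c * y⁻¹) * y⁻¹ = (y * y) * c * (y * y)⁻¹ by group, yy]; simp)) he
  have e : Nat.card {a : C // (⟨y * a * y⁻¹, hy _ a.2⟩ : C) = a} = Nat.card (C ⊓ C1 y : Subgroup G) :=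
    Nat.card_congr
      { toFun := fun a => ⟨a.1.1, a.1.2, mem_centralizer_singleton_iff.2
          (mul_inv_eq_iff_eq_mul.1 (congrArg Subtype.val a.2)).symm⟩
        invFun := fun a => ⟨⟨a.1, a.2.1⟩, Subtype.ext
          (mul_inv_eq_iff_eq_mul.2 (mem_centralizer_singleton_iff.1 a.2.2).symm)⟩
        left_inv := fun _ => rfl
        right_inv := fun _ => rfl }
  rw [e] at h
  obtain ⟨z, hz⟩ := exists_prime_orderOf_dvd_card' 2 h
  exact ⟨z.1, z.2.1, by rw [← hz, orderOf_coe], mem_centralizer_singleton_iff.1 z.2.2⟩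

end J5

open J5 in
theorem j5 (b : Base.{u}) (h1 : J1Stmt.{u}) (h3 : J3Stmt.{u}) (h4 : J4Stmt.{u}) : J5Stmt.{u} := by
  intro G _ _ D y A hD hy
  by_contra ho
  have yy := hy.2.1
  have yi : y⁻¹ = y := inv_eq_of_mul_eq_one_right yy
  have ex : ∀ a ∈ A, y * a * y⁻¹ ∈ A := fun a ha => by rw [hy.2.2.1 a ha]; exact A.zpow_mem ha _
  have yN : y ∈ Nm A := by
    rw [mem_normalizer_iff]
    refine fun a => ⟨ex a, fun h => ?_⟩
    have := ex _ h
    rwa [show y * (y * a * y⁻¹) * y⁻¹ = (y * y) * a * (y * y)⁻¹ by group, yy, one_mul, inv_one,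
      mul_one] at this
  obtain ⟨z, zC, z2, zy⟩ := exists_inv (C := Ct A) yy (fun c hc a ha => by
    have := hc _ (ex a ha)
    rw [yi] at this ⊢
    calc a * (y * c * y) = y * (y * a * y * c) * y := by
          rw [show y * (y * a * y * c) * y = (y * y) * a * (y * c * y) by group, yy, one_mul]
      _ = y * c * y * a := by
          rw [this, show y * (c * (y * a * y)) * y = y * c * y * a * (y * y) by group, yy, mul_one])
    (Nat.not_odd_iff_even.1 ho)
  have zz : z * z = 1 := by rw [← pow_two, ← z2, pow_orderOf_eq_one]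
  have he : Even (Nat.card (Fx D y)) := h1 D y A hD.toCls hy
  obtain ⟨B, hB, BA⟩ := two_fix (α := Fx D y) (fun E => ⟨cj z E.1, hD.conj _ E.2.1 z, by
      rw [← cj_eq_iff, ← cj_mul, ← zy.eq, cj_mul, cj_eq_iff.2 E.2.2]⟩)
    (fun E => Subtype.ext (by
      show cj z (cj z E.1) = E.1
      rw [← cj_mul, zz, cj_one])) he (a := ⟨A, hy.1, yN⟩)
    (Subtype.ext (cj_eq_iff.2 (centralizer_le_normalizer _ zC)))
  have zB : z ∈ Nm B.1 := cj_eq_iff.1 (congrArg Subtype.val hB)
  have hJ := h4 D y A hD.toCls hy B.1 B.2.1 (fun e => BA (Subtype.ext e)) B.2.2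
  have hz := (b.mb D hD.toCls).cen A hy.1 B.1 B.2.1 z zC zB
  have hd := orderOf_dvd_natCard _ hz
  rw [z2] at hd
  exact Nat.not_even_iff_odd.2 (h3 D hD A hy.1 B.1 B.2.1 hJ) (even_iff_two_dvd.2 hd)

end Cfsg.Agent.H11.EL
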