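import Cfsg.Agent.H98.GbL

/-! Project GB (S4536), piece RK1: the Gram matrix of the regular parts of twisted power sums. -/

set_option autoImplicit false
open Cfsg Finset
open scoped ComplexConjugate MatrixGroups

namespace Cfsg.Agent.H29.GbRk1

open Cfsg.Agent.H98.GB

universe u

section
variable {F : Type u} [Field F] [Fintype F] [DecidableEq F] {η : Fˣ →* ℂˣ} (H : Hall η)

lemma ip_add (n : ℕ) (x y z : H.A) : H.ip n (x + y) z = H.ip n x z + H.ip n y z := by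
  simp [Hall.ip, classInner, add_mul, sum_add_distrib, mul_add]

lemma ip_smul (n : ℕ) (c : ℂ) (x z : H.A) : H.ip n (c • x) z = c * H.ip n x z := by
  simp only [Hall.ip, classInner, map_smul, Pi.smul_apply, smul_eq_mul, mul_sum]
  exact sum_congr rfl fun g _ => by ring

lemma ip_smul' (n : ℕ) (c : ℂ) (x z : H.A) : H.ip n x (c • z) = conj c * H.ip n x z := by
  simp only [Hall.ip, classInner, map_smul, Pi.smul_apply, smul_eq_mul, mul_sum, map_mul]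
  exact sum_congr rfl fun g _ => by ring

lemma ip_zero (n : ℕ) (z : H.A) : H.ip n 0 z = 0 := by
  simp [Hall.ip, classInner]

lemma ip_hg {n m : ℕ} (x : H.A) {z : H.A} (hz : H.Hg m z) (h : n ≠ m) : H.ip n x z = 0 := by
  simp [Hall.ip, classInner, hz n h]

end

section
variable {A : Type*} [CommRing A] [Algebra ℂ A] {Φ : Type} [Fintype Φ] [DecidableEq Φ]

lemma mon_single (P : Φ → ℕ → A) (φ : Φ) (k : ℕ) :
    mon P (Pi.single φ ({k} : Multiset ℕ) : Φ → Multiset ℕ) = P φ k := by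
  unfold mon
  rw [prod_eq_single φ]
  · simp
  · intro b _ hb
    simp [Pi.single_eq_of_ne hb]
  · simp

lemma wm_single (dg : Φ → ℕ) (φ : Φ) (k : ℕ) :
    wm dg (Pi.single φ ({k} : Multiset ℕ) : Φ → Multiset ℕ) = dg φ * k := by
  unfold wm
  rw [sum_eq_single φ]
  · simp
  · intro b _ hb
    simp [Pi.single_eq_of_ne hb]
  · simp

omit [Fintype Φ] in
lemma monOn_single {In : Φ → Prop} {φ : Φ} (h : In φ) {k : ℕ} (hk : 0 < k) :
    MonOn In (Pi.single φ ({k} : Multiset ℕ) : Φ → Multiset ℕ) := by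
  intro ψ
  by_cases e : ψ = φ
  · subst e
    simp [h, hk]
  · simp [Pi.single_eq_of_ne e]

end

theorem rk1 (hD : DECStmt.{u}) (h3 : CL3Stmt.{u}) (hP : PIMStmt.{u}) (hC : DELCStmt.{u})
    (hK : BLKStmt.{u}) (hI : IRRStmt.{u}) (ha : RK1aStmt.{u}) (hb : RK1bStmt.{u})
    (hL : LABStmt.{u}) : RK1Stmt.{u} := by
  intro F _ _ _ C c HH In P T hIn j φ k φ' k' hφ hφ' hk hk' hn hn'
  classical
  have L := hL F C
  have hpi := fun j => hP F _ (HH j) C.p C.hp C.hpF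
  -- reduction to independence of `j`
  suffices key : ∃ v : ℂ, ∀ j, (HH j).ip (C.dg φ * k) ((HH j).pi C.p (P φ k j))
      ((HH j).pi C.p (P φ' k' j)) = v by
    obtain ⟨v, hv⟩ := key
    rw [hv j, ← hv 0]
    obtain ⟨-, -, e0, -⟩ := hpi 0
    obtain ⟨-, -, e1, -⟩ := hP F _ C.H C.p C.hp C.hpF
    simp only [Hall.ip, e0, e1, T.zero φ k hφ hk, T.zero φ' k' hφ' hk']
  clear j
  by_cases hm : C.dg φ' * k' = C.dg φ * k
  swap
  · refine ⟨0, fun j => ?_⟩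
    obtain ⟨-, -, -, e2, -⟩ := hpi j
    exact ip_hg _ _ (e2 _ _ (T.pr φ' k' j hφ' hk').1) (Ne.symm hm)
  generalize hmm : C.dg φ * k = m at hm hn
  have hm0 : 0 < m := hmm ▸ Nat.mul_pos (L.dg_pos φ) hk
  -- membership in the series
  have hE : ∀ (j : ℕ) (ψ : C.Φ) (i : ℕ), In ψ → 0 < i → C.dg ψ * i = m →
      InE (C.XC m (C.Sup (C.lp ψ))) ((HH j).ev (P ψ i j) m) := by
    intro j ψ i hψ hi e
    have := (ha F C c HH In P T (C.lp ψ) (fun χ hχ => hIn ψ χ hψ hχ) j m hn).1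
      (Pi.single ψ ({i} : Multiset ℕ)) (monOn_single (In := fun φ => C.lp φ = C.lp ψ) rfl hi)
      (by rw [wm_single, e])
    rwa [mon_single (fun φ k => P φ k j)] at this
  have hEp : ∀ (j : ℕ) (Γ : C.Φ) (x : (HH j).A), InE (C.XC m (C.Sup Γ)) ((HH j).ev x m) →
      InE (C.XC m (C.Sup Γ)) ((HH j).ev ((HH j).pi C.p x) m) := by
    intro j Γ x hx
    obtain ⟨-, -, e0, -⟩ := hpi j
    rw [e0]
    exact (h3 _ C.p C.M C.hM _ _ ((hK F C m hn).2.2 Γ) _ ⟨(HH j).tw x m, hx⟩).2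
  by_cases hlp : C.lp φ = C.lp φ'
  swap
  · refine ⟨0, fun j => ?_⟩
    refine (hD _).2.1 _ _ _ _ (hEp j _ _ (hE j φ k hφ hk hmm)) (hEp j _ _ (hE j φ' k' hφ' hk' hm)) ?_
    rw [Set.disjoint_left]
    rintro χ ⟨Λ, h1, h2, h3⟩ ⟨Λ', h1', h2', h3'⟩
    obtain rfl : Λ = Λ' := (hI F C m hn Λ h2).2.2 Λ' h2' (h3.symm.trans h3')
    have s1 := (L.sup_iff Λ _ h2.1).1 h1
    have s2 := (L.sup_iff Λ _ h2.1).1 h1'
    have s3 := L.sum_sm Λ
    rw [h2.2, sum_eq_zero] at s3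
    · omega
    · intro Γ _
      by_cases e : Γ = C.lp φ
      · exact s2 Γ (e ▸ hlp)
      · exact s1 Γ e
  -- the same semisimple part
  obtain ⟨Γ, hΓ⟩ : ∃ Γ, Γ = C.lp φ := ⟨_, rfl⟩
  have hreg : C.Reg Γ := hΓ ▸ L.reg_lp φ
  have hΓΓ : C.lp Γ = Γ := hreg
  have hall : ∀ ψ, C.lp ψ = Γ → In ψ := fun ψ h => hIn φ ψ hφ (h.trans hΓ)
  obtain ⟨k0, hk0⟩ : C.dg Γ ∣ m := by
    rw [← hmm, hΓ]
    exact (L.dg_lp φ).mul_right k
  have hk00 : 0 < k0 := by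
    rcases Nat.eq_zero_or_pos k0 with h | h
    · rw [h, mul_zero] at hk0; omega
    · exact h
  obtain ⟨-, -, -, d4, -, -, d7⟩ := hC F C.ψ C.hψ
  have hdel : ∀ (j : ℕ) (ψ : C.Φ) (i : ℕ), In ψ → 0 < i → C.dg ψ * i = m →
      dlt C.ψ ((HH j).ev (P ψ i j) m) = (-1) ^ (i + 1) := by
    intro j ψ i hψ hi e
    rw [← e]
    exact T.del ψ i j hψ hi
  have hdpi : ∀ (j : ℕ) (x : (HH j).A), dlt C.ψ ((HH j).ev ((HH j).pi C.p x) m) =
      dlt C.ψ ((HH j).ev x m) := by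
    intro j x
    obtain ⟨-, -, e0, -⟩ := hpi j
    rw [e0, d4 m C.p C.hp C.hpF]
  have hsq : ∀ i : ℕ, ((-1 : ℂ) ^ i) * (-1) ^ i = 1 := fun i => by
    rw [← mul_pow]; simp
  have hcj : ∀ i : ℕ, conj ((-1 : ℂ) ^ i) = (-1) ^ i := fun i => by simp
  have hrk : ∀ (j : ℕ) (ψ : C.Φ) (i : ℕ), C.lp ψ = Γ → 0 < i → C.dg ψ * i = m →
      (HH j).pi C.p (P ψ i j) = (-1 : ℂ) ^ (i + k0) • (HH j).pi C.p (P Γ k0 j) := by
    intro j ψ i hψ hi e
    have h1 := T.pr ψ i j (hall ψ hψ) hi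
    have h2 := hE j ψ i (hall ψ hψ) hi e
    rw [hψ] at h2
    rw [e] at h1
    obtain ⟨a, h⟩ := hb F C c HH In P T Γ hreg hall j k0 (hk0 ▸ hn) (P ψ i j) (hk0 ▸ h1) (hk0 ▸ h2)
    have h4 := congrArg (fun x => dlt C.ψ ((HH j).ev x m)) h
    simp only [map_smul, Pi.smul_apply] at h4
    rw [(d7 m _ 0 a).2, hdpi, hdpi, hdel j ψ i (hall ψ hψ) hi e,
      hdel j Γ k0 (hall Γ hΓΓ) hk00 hk0.symm] at h4
    rw [h]
    congr 1
    calc a = a * ((-1) ^ (k0 + 1) * (-1) ^ (k0 + 1)) := by rw [hsq, mul_one]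
      _ = (-1) ^ (i + 1) * (-1) ^ (k0 + 1) := by rw [← mul_assoc, ← h4]
      _ = (-1) ^ (i + k0) := by ring
  let I : Finset C.Φ := univ.filter fun ψ => C.lp ψ = Γ ∧ C.dg ψ ∣ m
  have hI1 : ∀ ψ ∈ I, C.lp ψ = Γ ∧ 0 < m / C.dg ψ ∧ C.dg ψ * (m / C.dg ψ) = m := by
    intro ψ hψ
    obtain ⟨h1, h2⟩ := (mem_filter.1 hψ).2
    exact ⟨h1, Nat.div_pos (Nat.le_of_dvd hm0 h2) (L.dg_pos ψ), Nat.mul_div_cancel' h2⟩
  have hN : ∀ j, (HH j).ip m ((HH j).pi C.p (P Γ k0 j)) ((HH j).pi C.p (P Γ k0 j)) =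
      (∑ ψ ∈ I, ((m / C.dg ψ : ℕ) : ℂ)⁻¹)⁻¹ := by
    intro j
    obtain ⟨-, -, -, -, e3, e4, e5⟩ := hpi j
    have hsp : ∀ x ∈ Submodule.span ℂ {y | ∃ φ k, C.lp φ = Γ ∧ C.dg φ * k = m ∧ y = P φ k j},
        dlt C.ψ ((HH j).ev x m) = ∑ ψ ∈ I, (HH j).ip m x (P ψ (m / C.dg ψ) j) *
          (((m / C.dg ψ : ℕ) : ℂ)⁻¹ * (-1) ^ (m / C.dg ψ + 1)) := by
      intro x hx
      induction hx using Submodule.span_induction with
      | mem x hx =>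
        obtain ⟨χ, i, h1, h2, rfl⟩ := hx
        have hi : 0 < i := by
          rcases Nat.eq_zero_or_pos i with h | h
          · rw [h, mul_zero] at h2; omega
          · exact h
        have hdiv : m / C.dg χ = i := by rw [← h2, Nat.mul_div_cancel_left _ (L.dg_pos χ)]
        have hg : ∀ ψ ∈ I, (HH j).ip m (P χ i j) (P ψ (m / C.dg ψ) j) =
            if χ = ψ ∧ i = m / C.dg ψ then (i : ℂ) else 0 := by
          intro ψ hψ
          obtain ⟨q1, q2, q3⟩ := hI1 ψ hψ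
          have := T.gram j C.n0 χ i ψ (m / C.dg ψ) (hall χ h1) (hall ψ q1) hi q2 (h2 ▸ hn)
            (q3.symm ▸ hn)
          rwa [h2] at this
        have hχ : χ ∈ I := mem_filter.2 ⟨mem_univ _, h1, ⟨i, h2.symm⟩⟩
        rw [hdel j χ i (hall χ h1) hi h2, sum_eq_single χ]
        · rw [hg χ hχ, if_pos ⟨rfl, hdiv.symm⟩, hdiv, ← mul_assoc,
            mul_inv_cancel₀ (by exact_mod_cast hi.ne'), one_mul]
        · intro ψ hψ hne
          rw [hg ψ hψ, if_neg fun h => hne h.1.symm, zero_mul]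
        · intro h
          exact absurd hχ h
      | zero =>
        have := (d7 m (0 : GL (Fin m) F → ℂ) 0 0).2
        rw [zero_smul, zero_mul] at this
        simp [ip_zero, this]
      | add x y _ _ hx hy =>
        rw [map_add, Pi.add_apply, (d7 m _ _ 0).1, hx, hy, ← sum_add_distrib]
        exact sum_congr rfl fun ψ _ => by rw [ip_add, add_mul]
      | smul a x _ hx =>
        rw [map_smul, Pi.smul_apply, (d7 m _ 0 a).2, hx, mul_sum]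
        exact sum_congr rfl fun ψ _ => by rw [ip_smul, mul_assoc]
    have hpr : (HH j).Pr m (P Γ k0 j) := hk0 ▸ T.pr Γ k0 j (hall Γ hΓΓ) hk00
    have hE0 := hE j Γ k0 (hall Γ hΓΓ) hk00 hk0.symm
    rw [hΓΓ] at hE0
    have h1 := hsp _ ((ha F C c HH In P T Γ hall j m hn).2 _ (e3 _ _ hpr) (hEp j _ _ hE0))
    rw [hdpi, hdel j Γ k0 (hall Γ hΓΓ) hk00 hk0.symm] at h1
    set N := (HH j).ip m ((HH j).pi C.p (P Γ k0 j)) ((HH j).pi C.p (P Γ k0 j)) with hNdef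
    have h2 : ∀ ψ ∈ I, (HH j).ip m ((HH j).pi C.p (P Γ k0 j)) (P ψ (m / C.dg ψ) j) *
        (((m / C.dg ψ : ℕ) : ℂ)⁻¹ * (-1) ^ (m / C.dg ψ + 1)) =
        (-1) ^ (k0 + 1) * (N * ((m / C.dg ψ : ℕ) : ℂ)⁻¹) := by
      intro ψ hψ
      obtain ⟨q1, q2, q3⟩ := hI1 ψ hψ
      rw [← e4, e5, hrk j ψ _ q1 q2 q3, ip_smul', hcj, ← hNdef]
      have := hsq (m / C.dg ψ)
      rw [pow_add, pow_succ, pow_succ]
      linear_combination (-(-1) ^ k0 * N * ((m / C.dg ψ : ℕ) : ℂ)⁻¹) * this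
    rw [sum_congr rfl h2, ← mul_sum, ← mul_sum] at h1
    have h3 : N * ∑ ψ ∈ I, ((m / C.dg ψ : ℕ) : ℂ)⁻¹ = 1 := by
      have h4 := hsq (k0 + 1)
      linear_combination (-(-1) ^ (k0 + 1)) * h1 +
        (1 - N * ∑ ψ ∈ I, ((m / C.dg ψ : ℕ) : ℂ)⁻¹) * h4
    exact eq_inv_of_mul_eq_one_left h3
  refine ⟨(-1) ^ (k + k0) * ((-1) ^ (k' + k0) * (∑ ψ ∈ I, ((m / C.dg ψ : ℕ) : ℂ)⁻¹)⁻¹),
    fun j => ?_⟩
  rw [hrk j φ k hΓ.symm hk hmm, hrk j φ' k' (hlp.symm.trans hΓ.symm) hk' hm, ip_smul, ip_smul', hcj,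
    hN]

/-- The same with the argument list of the assembly. -/
theorem rk1' (_hF : FOCKStmt.{u}) (hD : DECStmt.{u}) (h3 : CL3Stmt.{u}) (hP : PIMStmt.{u})
    (hC : DELCStmt.{u}) (_hH : HISOStmt.{u}) (hK : BLKStmt.{u}) (hI : IRRStmt.{u})
    (ha : RK1aStmt.{u}) (hb : RK1bStmt.{u}) (hL : LABStmt.{u}) : RK1Stmt.{u} :=
  rk1 hD h3 hP hC hK hI ha hb hL

end Cfsg.Agent.H29.GbRk1
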