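import Cfsg.Agent.H97.JmDefs
import Cfsg.Agent.H33.J4Odd5
import Cfsg.Agent.S5563
import Cfsg.Agent.S5564
import Cfsg.Agent.S5629

/-! The Sylow subgroups for the prime eleven intersect trivially. -/

set_option autoImplicit false

namespace Cfsg.Agent.H97.JM

open Subgroup Cfsg.Agent.H33.J4O Cfsg.Agent.H33.J4O.L11

universe u

theorem X4.key {G : Type u} [Group G] [Finite G] {L : L11 G} {O : Subgroup G}
    (h : ZS L.x L.z O) (Γ : L.Glob) {g w : G} (hw : w ∈ O) (w1 : w ≠ 1) (hg : g * w * g⁻¹ ∈ O) :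
    g ∈ normalizer (O : Set G) := by
  have c : g * L.x * g⁻¹ * (g * w * g⁻¹) = g * w * g⁻¹ * (g * L.x * g⁻¹) := by
    rw [conj_mul, conj_mul, h.le w hw]
  have p : (g * L.x * g⁻¹) ^ 11 = 1 := by rw [conj_pow, L.xp]; simp
  have m : g * L.x * g⁻¹ ∈ O := by
    by_cases hx : g * w * g⁻¹ ∈ zpowers L.x
    · exact memO h Γ (k := 1) p (h.norm _ (zp_comm (zp_symm (by norm_num) L.x11 hx
        fun e => w1 (conj_eq_one_iff.1 e)) c))
    · have h1 := ((O ⊓ centralizer {g * w * g⁻¹}).subgroupOf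
        (centralizer {g * w * g⁻¹})).card_mul_index
      rw [Nat.card_congr (subgroupOfEquivOfLe inf_le_right).toEquiv, (centw h Γ hg hx).1,
        centw' h Γ hg hx] at h1
      have h2 := sq_mem_of_index_two (H := (O ⊓ centralizer {g * w * g⁻¹}).subgroupOf
        (centralizer {g * w * g⁻¹})) (by omega) ⟨_, mcs.2 c⟩
      exact mem_of_pow (m := 2) (n := 11) (by norm_num) (mem_subgroupOf.1 h2).1 (p ▸ one_mem _)
  rw [norm_eq h Γ]
  refine mem_norm_zp (by_contra fun hx => ?_)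
  have := centw' h Γ m hx
  rw [conj_cent, cardC h Γ] at this
  omega

theorem pX4 : X4.{u} := by
  intro G _ _ _ hG ⟨z, hz⟩ U U' hne
  obtain ⟨h1, h2⟩ := card_hna hG ⟨z, hz⟩ (S5629.result hG z hz)
  obtain ⟨L, Γ, -⟩ := exists_glob hG ⟨z, hz⟩
    (fun z P h => (S5563.result hG z P h).2.2.2.2) (S5564.result hG ⟨z, hz⟩) h1 h2
  haveI := Fact.mk (show Nat.Prime 11 by norm_num)
  obtain ⟨O, h⟩ := L.exO
  obtain ⟨U0, rfl⟩ := exU h Γ
  obtain ⟨k, rfl⟩ := MulAction.exists_smul_eq G U0 U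
  obtain ⟨k', rfl⟩ := MulAction.exists_smul_eq G U0 U'
  obtain ⟨⟨w, hw⟩, w1⟩ := ne_bot_iff_exists_ne_one.1 hne
  have a := (mem_inf.1 hw).1
  have b := (mem_inf.1 hw).2
  rw [Sylow.coe_subgroup_smul, mem_pointwise_smul_iff_inv_smul_mem] at a b
  have := X4.key h Γ (g := k'⁻¹ * k) (w := k⁻¹ * w * k) (by simpa using a)
    (fun e => w1 (Subtype.ext (by simpa [mul_assoc] using congrArg (fun y => k * y * k⁻¹) e)))
    (by simpa [mul_assoc] using b)
  have e : (k'⁻¹ * k) • U0 = U0 := Sylow.smul_eq_iff_mem_normalizer.2 this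
  rwa [mul_smul, inv_smul_eq_iff] at e

end Cfsg.Agent.H97.JM
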