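import Cfsg.Agent.H76.K0Defs
import Cfsg.Agent.H21.TildeInt

/-! Project K0, piece R0: the height zero part of the block sum. -/

set_option autoImplicit false

namespace Cfsg.Agent.H29.K0R0

open Cfsg Cfsg.Agent.H76.K0

universe u

theorem split {G : Type u} [Group G] [Finite G] (p : ℕ) (M : Ideal AlgInt) :
    ∃ S : Finset (IrrCharacter G), (∀ χ ∈ S, p ∣ charDegree (χ : G → ℂ)) ∧
      ∀ (R : Type) [AddCommMonoid R] (f : IrrCharacter G → R),
        ∑ᶠ χ ∈ principalBlock M G, f χ = ∑ᶠ χ : Ht0 p M G, f χ.1 + ∑ χ ∈ S, f χ := by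
  classical
  haveI := H13.finite_irrCharacter (G := G)
  letI := Fintype.ofFinite (IrrCharacter G)
  refine ⟨Finset.univ.filter fun χ => χ ∈ principalBlock M G ∧ p ∣ charDegree (χ : G → ℂ),
    fun χ hχ => (Finset.mem_filter.1 hχ).2.2, fun R _ f => ?_⟩
  have e0 : ∑ᶠ χ : Ht0 p M G, f χ.1 = ∑ᶠ χ ∈
      {χ : IrrCharacter G | χ ∈ principalBlock M G ∧ ¬ p ∣ charDegree (χ : G → ℂ)}, f χ :=
    finsum_subtype_eq_finsum_cond _
  rw [e0, ← finsum_mem_coe_finset]
  have e : principalBlock M G =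
      {χ : IrrCharacter G | χ ∈ principalBlock M G ∧ ¬ p ∣ charDegree (χ : G → ℂ)} ∪
      ↑(Finset.univ.filter fun χ : IrrCharacter G =>
        χ ∈ principalBlock M G ∧ p ∣ charDegree (χ : G → ℂ)) := by
    ext χ
    simp only [Set.mem_union, Set.mem_setOf_eq, Finset.coe_filter, Finset.mem_univ, true_and]
    tauto
  conv_lhs => rw [e]
  refine finsum_mem_union ?_ (Set.toFinite _) (Set.toFinite _)
  rw [Set.disjoint_left]
  intro χ h1 h2
  simp only [Finset.coe_filter, Finset.mem_univ, true_and, Set.mem_setOf_eq] at h1 h2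
  exact h1.2 h2.2

theorem dvd_of {T n : ℕ} (hn : n ≠ 0) {α : ℂ} (hα : IsIntegral ℤ α) (h : (T : ℂ) = n * α) :
    n ∣ T := by
  have hn' : (n : ℂ) ≠ 0 := Nat.cast_ne_zero.2 hn
  have e : α = algebraMap ℚ ℂ ((T : ℚ) / n) := by
    simp only [map_div₀, map_natCast]
    rw [h]
    field_simp
  rw [e, isIntegral_algebraMap_iff (algebraMap ℚ ℂ).injective] at hα
  obtain ⟨y, hy⟩ := IsIntegrallyClosed.isIntegral_iff.1 hα
  have hq : (n : ℚ) ≠ 0 := Nat.cast_ne_zero.2 hn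
  rw [eq_div_iff hq] at hy
  have : (T : ℤ) = n * y := by
    have h2 : ((T : ℤ) : ℚ) = ((n * y : ℤ) : ℚ) := by
      push_cast
      rw [← hy, mul_comm]
      rfl
    exact_mod_cast h2
  exact Int.natCast_dvd_natCast.1 ⟨y, this⟩

theorem r0 (r : RStmt.{u}) : R0Stmt.{u} := by
  intro G _ _ p hp M hM P
  haveI := H13.finite_irrCharacter (G := G)
  obtain ⟨S, hS, hsp⟩ := split (G := G) p M
  have key : Nat.card P ∣ ∑ᶠ χ : Ht0 p M G, charDegree (χ.1 : G → ℂ) ^ 2 +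
      ∑ χ ∈ S, charDegree (χ : G → ℂ) ^ 2 := by
    obtain ⟨α, hα, e⟩ := r G p M hM P 1
    refine dvd_of Nat.card_pos.ne' hα ?_
    rw [← e, hsp]
    letI := Fintype.ofFinite (Ht0 p M G)
    rw [finsum_eq_sum_of_fintype, finsum_eq_sum_of_fintype]
    push_cast
    simp only [sq, H21.cast_deg]
  have k2 : p ^ 2 ∣ ∑ χ ∈ S, charDegree (χ : G → ℂ) ^ 2 :=
    Finset.dvd_sum fun χ hχ => pow_dvd_pow_of_dvd (hS χ hχ) 2
  refine ⟨fun hd g => ?_, fun hd => ?_, fun hd => ?_, fun hd => ?_⟩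
  · obtain ⟨α, hα, e⟩ := r G p M hM P g
    obtain ⟨m, hm⟩ := hd
    rw [hsp, hm] at e
    refine ⟨m * α - ∑ χ ∈ S, ((charDegree (χ : G → ℂ) / p : ℕ) : ℂ) * (χ : G → ℂ) g, ?_, ?_⟩
    · refine ((isIntegral_natCast m).mul hα).sub (IsIntegral.sum _ fun χ _ => ?_)
      exact (isIntegral_natCast _).mul (H12.IsCharacter_isIntegral (H11.irr_isCharacter χ) g)
    · have e2 : ∑ χ ∈ S, (charDegree (χ : G → ℂ) : ℂ) * (χ : G → ℂ) g =
          p * ∑ χ ∈ S, ((charDegree (χ : G → ℂ) / p : ℕ) : ℂ) * (χ : G → ℂ) g := by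
        rw [Finset.mul_sum]
        refine Finset.sum_congr rfl fun χ hχ => ?_
        rw [← mul_assoc, ← Nat.cast_mul, Nat.mul_div_cancel' (hS χ hχ)]
      rw [e2] at e
      push_cast at e
      linear_combination e
  · exact (Nat.dvd_add_left ((dvd_pow_self p two_ne_zero).trans k2)).1 (hd.trans key)
  · exact (Nat.dvd_add_left k2).1 (hd.trans key)
  · have h0 : (Nat.card G).factorization p = 0 := by
      by_contra h
      exact hd (P.card_eq_multiplicity ▸ dvd_pow_self p h)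
    have h1 := H21.card_eq_one_of_defect_zero hM (H21.isPBlock_principal (G := G))
      ((H21.defect_principal hM).trans h0)
    obtain ⟨hs, -⟩ := Nat.card_eq_one_iff_unique.1 h1
    refine Nat.card_eq_one_iff_unique.2 ⟨⟨fun a b => Subtype.ext ?_⟩,
      ⟨⟨H21.triv G, H21.triv_mem_principal hM.2.1, ?_⟩⟩⟩
    · have := congrArg Subtype.val (hs.elim ⟨a.1, a.2.1⟩ ⟨b.1, b.2.1⟩)
      exact this
    · rw [H21.triv_coe, H21.charDegree_one, Nat.dvd_one]
      exact hp.out.ne_one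

end Cfsg.Agent.H29.K0R0
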