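import Cfsg.Agent.Lead.KRDefs
import Cfsg.Agent.H29.CpK
import Cfsg.Agent.H53.MWOrd

/-!
Project KR, piece AB: abelian completely reducible groups; the `5/8` bound.
-/

set_option autoImplicit false

namespace Cfsg.Agent.H29.Kr

open MulAction Cfsg.Agent.H12.RO Cfsg.Agent.H53.MW Cfsg.Agent.Lead.KR

universe u

/-- `k(G) |G| = ∑ |C(g)|` -/
theorem k_mul_card (G : Type*) [Group G] [Fintype G] : Nat.card (ConjClasses G) * Nat.card G =
    ∑ g : G, Nat.card (Subgroup.centralizer ({g} : Set G)) := by
  rw [← card_comm_eq_card_conjClasses_mul_card, ← Nat.card_sigma]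
  exact Nat.card_congr
    { toFun := fun p => ⟨p.1.1, p.1.2, Subgroup.mem_centralizer_singleton_iff.2 p.2.symm⟩
      invFun := fun p => ⟨(p.1, p.2), (Subgroup.mem_centralizer_singleton_iff.1 p.2.2).symm⟩
      left_inv := fun _ => rfl
      right_inv := fun _ => rfl }

theorem two_mul_card_le {G : Type*} [Group G] [Finite G] {H : Subgroup G} (h : H ≠ ⊤) :
    2 * Nat.card H ≤ Nat.card G := by
  rw [← H.index_mul_card]
  exact Nat.mul_le_mul_right _ (Subgroup.one_lt_index_of_ne_top h)

theorem four_mul_center_le {G : Type*} [Group G] [Finite G] (h : ¬ IsMulCommutative G) :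
    4 * Nat.card (Subgroup.center G) ≤ Nat.card G := by
  rw [← (Subgroup.center G).index_mul_card]
  refine Nat.mul_le_mul_right _ ?_
  by_contra hlt
  have h0 : 0 < (Subgroup.center G).index := Nat.pos_of_ne_zero Subgroup.index_ne_zero_of_finite
  have hc : IsCyclic (G ⧸ Subgroup.center G) := by
    have h1 : (Subgroup.center G).index ∣ 2 ∨ (Subgroup.center G).index ∣ 3 := by
      generalize (Subgroup.center G).index = n at hlt h0
      have : n < 4 := by omega
      interval_cases n <;> norm_num
    haveI := Fact.mk Nat.prime_three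
    exact h1.elim isCyclic_of_card_dvd_prime isCyclic_of_card_dvd_prime
  exact h ((QuotientGroup.mk' (Subgroup.center G)).isMulCommutative_of_isCyclic_of_ker_le_center
    (QuotientGroup.ker_mk' _).le)

/-- `2 k(G) ≤ |G| + |Z(G)|` -/
theorem two_k_le (G : Type*) [Group G] [Finite G] :
    2 * Nat.card (ConjClasses G) ≤ Nat.card G + Nat.card (Subgroup.center G) := by
  classical
  have := Fintype.ofFinite G
  refine Nat.le_of_mul_le_mul_right ?_ (Nat.card_pos (α := G))
  rw [mul_assoc, k_mul_card, Finset.mul_sum]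
  have h1 : ∀ g : G, 2 * Nat.card (Subgroup.centralizer ({g} : Set G)) ≤
      Nat.card G + if g ∈ Subgroup.center G then Nat.card G else 0 := by
    intro g
    split_ifs with hg
    · have := Subgroup.card_le_card_group (Subgroup.centralizer ({g} : Set G))
      omega
    · refine two_mul_card_le fun h => hg (Subgroup.mem_center_iff.2 fun x => ?_)
      exact Subgroup.mem_centralizer_singleton_iff.1 (h ▸ Subgroup.mem_top x)
  refine (Finset.sum_le_sum fun g _ => h1 g).trans_eq ?_
  rw [Finset.sum_add_distrib, Finset.sum_const, ← Finset.sum_filter, Finset.sum_const,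
    Finset.card_univ, ← Nat.card_eq_fintype_card, smul_eq_mul, smul_eq_mul, add_mul,
    ← Fintype.card_subtype, ← Nat.card_eq_fintype_card]

/-- the `5/8` bound -/
theorem five_eight {G : Type*} [Group G] [Finite G] (h : ¬ IsMulCommutative G) :
    8 * Nat.card (ConjClasses G) ≤ 5 * Nat.card G := by
  have h1 := two_k_le G
  have h2 := four_mul_center_le h
  omega

section AB

variable {G W : Type*} [Group G] [Finite G] [AddCommGroup W] [DistribMulAction G W]

/-- an abelian completely reducible group has a regular orbit -/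
theorem exists_regular (hcr : CR G W) (hc : ∀ (g h : G) (w : W), g • h • w = h • g • w) :
    ∃ v : W, ∀ g : G, g • v = v → ∀ w : W, g • w = w := by
  obtain ⟨_, ⟨v, rfl⟩, hmin⟩ := (wellFounded_lt (α := Subgroup G)).has_min
    (Set.range fun v : W => stabilizer G v) ⟨_, 0, rfl⟩
  refine ⟨v, fun g hg w => ?_⟩
  let F : AddSubgroup W :=
    { carrier := {x | g • x = x}
      zero_mem' := smul_zero g
      add_mem' := fun {a b} ha hb => by
        change g • (a + b) = a + b
        rw [smul_add, ha, hb]
      neg_mem' := fun {a} ha => by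
        change g • (-a) = -a
        rw [smul_neg, ha] }
  have hF : Inv G F := fun h x hx => by
    change g • h • x = h • x
    rw [hc, hx]
  obtain ⟨U, hU, h1, h2⟩ := hcr F hF
  obtain ⟨a, ha, b, hb, rfl⟩ := AddSubgroup.mem_sup.1 (h2 ▸ AddSubgroup.mem_top w : w ∈ F ⊔ U)
  have h3 : stabilizer G (v + b) ≤ stabilizer G v := fun h hh =>
    (fix_of_fix_add hF hU h1 hg hb hh).1
  have h4 : g ∈ stabilizer G (v + b) :=
    (h3.lt_or_eq.resolve_left (hmin _ ⟨v + b, rfl⟩)).ge hg
  rw [smul_add, ha, (fix_of_fix_add hF hU h1 hg hb h4).2]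

theorem ab' [Finite W] [Nontrivial W] (hcr : CR G W) (hc : IsMulCommutative (img G W)) :
    Nat.card (img G W) < Nat.card W := by
  obtain ⟨v, hv⟩ := exists_regular hcr fun g h w => Equiv.ext_iff.1 (congrArg Subtype.val
    (hc.is_comm.comm ((toPermHom G W).rangeRestrict g) ((toPermHom G W).rangeRestrict h))) w
  have hi : Function.Injective fun φ : img G W => (φ : Equiv.Perm W) v := by
    rintro ⟨_, g, rfl⟩ ⟨_, h, rfl⟩ e
    refine Subtype.ext (Equiv.ext fun w => ?_)
    have h1 := hv (h⁻¹ * g) (by rw [mul_smul, inv_smul_eq_iff]; exact e) w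
    rw [mul_smul, inv_smul_eq_iff] at h1
    exact h1
  refine lt_of_not_ge fun hle => ?_
  have hs := (hi.bijective_of_nat_card_le hle).2
  obtain ⟨w, hw⟩ := exists_ne (0 : W)
  obtain ⟨⟨_, g, rfl⟩, e⟩ := hs 0
  obtain ⟨⟨_, h, rfl⟩, e'⟩ := hs w
  have h1 : v = 0 := (smul_eq_zero_iff_eq g).1 e
  exact hw (e'.symm.trans (by rw [h1]; exact smul_zero h))

/-- a normal subgroup of the induced group is induced by a normal subgroup -/
theorem img_comap (Y : Subgroup (img G W)) :
    img (Y.comap (toPermHom G W).rangeRestrict) W = Y.map (img G W).subtype := by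
  ext φ
  constructor
  · rintro ⟨g, rfl⟩
    exact ⟨_, g.2, rfl⟩
  · rintro ⟨⟨_, g, rfl⟩, hg, rfl⟩
    exact ⟨⟨g, hg⟩, rfl⟩

/-- normal abelian subgroups of the induced group are smaller than the module -/
theorem ab_normal [Finite W] [Nontrivial W] (hcr : CR G W) (Y : Subgroup (img G W)) [Y.Normal]
    (hc : IsMulCommutative Y) : Nat.card Y < Nat.card W := by
  have h := ab' (clifford hcr (Y.comap (toPermHom G W).rangeRestrict)) (by
    rw [img_comap]
    exact Subgroup.map_isMulCommutative _ _)
  rwa [img_comap, Subgroup.card_map_of_injective Subtype.val_injective] at h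

/-- an abelian subgroup of index at most two is smaller than the module -/
theorem ab_index [Finite W] [Nontrivial W] (hcr : CR G W) (Y : Subgroup (img G W))
    (hY : Nat.card (img G W) < 3 * Nat.card Y) (hc : IsMulCommutative Y) :
    Nat.card Y < Nat.card W := by
  have h1 : Y.index < 3 := by
    rw [← Y.index_mul_card] at hY
    exact Nat.lt_of_mul_lt_mul_right hY
  have h0 : Y.index ≠ 0 := Subgroup.index_ne_zero_of_finite
  have : Y.Normal := by
    have h2 : Y.index = 1 ∨ Y.index = 2 := by omega
    rcases h2 with h | h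
    · rw [Subgroup.index_eq_one.1 h]; infer_instance
    · exact Subgroup.normal_of_index_eq_two h
  exact ab_normal hcr Y hc

end AB

/-- **AB.** -/
theorem ab : AbStmt.{u} := fun _ _ _ _ _ _ _ _ hcr hc => ab' hcr hc

end Cfsg.Agent.H29.Kr
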