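import Cfsg.Agent.H29.KrA
import Cfsg.Agent.H28.MwS

/-!
Project KR, piece SYMP-A.
-/

set_option autoImplicit false

namespace Cfsg.Agent.H29.Kr

open MulAction Cfsg.Agent.H12.RO Cfsg.Agent.H53.MW Cfsg.Agent.Lead.KR Matrix

universe u

theorem card_sl23 : Fintype.card (SpecialLinearGroup (Fin 2) (ZMod 3)) = 24 := by decide +kernel

theorem comm_sl23 : (Finset.univ.filter fun p : SpecialLinearGroup (Fin 2) (ZMod 3) ×
    SpecialLinearGroup (Fin 2) (ZMod 3) => p.1 * p.2 = p.2 * p.1).card = 168 := by decide +kernel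

theorem k_sl23 : Nat.card (ConjClasses (SpecialLinearGroup (Fin 2) (ZMod 3))) = 7 := by
  have h := card_comm_eq_card_conjClasses_mul_card (SpecialLinearGroup (Fin 2) (ZMod 3))
  rw [Nat.card_eq_fintype_card (α := SpecialLinearGroup (Fin 2) (ZMod 3)), card_sl23] at h
  have h1 : Nat.card {p : SpecialLinearGroup (Fin 2) (ZMod 3) ×
      SpecialLinearGroup (Fin 2) (ZMod 3) // p.1 * p.2 = p.2 * p.1} = 168 := by
    rw [Nat.card_eq_fintype_card, Fintype.card_subtype, comm_sl23]
  have h2 : 168 = Nat.card (ConjClasses (SpecialLinearGroup (Fin 2) (ZMod 3))) * 24 :=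
    h1.symm.trans h
  omega

/-- a symplectic group on nine vectors embeds in `SL₂(3)` -/
theorem exists_hom_sl23 {G W A : Type*} [Group G] [AddCommGroup W] [Finite W]
    [DistribMulAction G W] [CommGroup A] (b : W → W → A) (hc : Nat.card W = 3 ^ 2)
    (hl : ∀ x y z, b (x + y) z = b x z * b y z) (hr : ∀ x y z, b x (y + z) = b x y * b x z)
    (h0 : ∀ x, b x x = 1) (hn : ∀ x, (∀ y, b x y = 1) → x = 0)
    (hg : ∀ (g : G) x y, b (g • x) (g • y) = b x y) :
    ∃ f : G →* SpecialLinearGroup (Fin 2) (ZMod 3), ∀ g, f g = 1 ↔ ∀ w : W, g • w = w := by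
  have pl : ∀ (n : ℕ) (a c : W), b (n • a) c = b a c ^ n := fun n a c =>
    map_pow (MonoidHom.mk' (fun y : Multiplicative W => b y.toAdd c) fun y y' => hl _ _ c)
      (Multiplicative.ofAdd a) n
  have pr : ∀ (n : ℕ) (a c : W), b a (n • c) = b a c ^ n := fun n a c =>
    map_pow (MonoidHom.mk' (fun y : Multiplicative W => b a y.toAdd) fun y y' => hr a _ _)
      (Multiplicative.ofAdd c) n
  have h3 : ∀ w : W, 3 • w = 0 := by
    intro w
    obtain ⟨k, hk, e⟩ := (Nat.dvd_prime_pow Nat.prime_three).1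
      (hc ▸ addOrderOf_dvd_natCard w)
    rcases hk.lt_or_eq with hk | rfl
    · exact addOrderOf_dvd_iff_nsmul_eq_zero.1 (e ▸ pow_dvd_pow 3 (show k ≤ 1 by omega))
    · have h1 : AddSubgroup.zmultiples w = ⊤ :=
        AddSubgroup.eq_top_of_card_eq _ (by rw [Nat.card_zmultiples, e, hc])
      have h2 : w = 0 := hn w fun y => by
        obtain ⟨n, rfl⟩ := (mem_multiples_iff_mem_zmultiples.2 (h1 ▸ AddSubgroup.mem_top y) :
          y ∈ AddSubmonoid.multiples w)
        change b w (n • w) = 1
        rw [pr, h0, one_pow]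
      rw [h2, smul_zero]
  haveI := Fact.mk Nat.prime_three
  letI : Module (ZMod 3) W := AddCommGroup.zmodModule h3
  have hd : Module.finrank (ZMod 3) W = 2 := by
    have := Module.natCard_eq_pow_finrank (K := ZMod 3) (V := W)
    rw [hc, Nat.card_zmod] at this
    exact (Nat.pow_right_injective (by norm_num) this).symm
  let B := Module.finBasisOfFinrankEq (ZMod 3) W hd
  let ρ : G →* Module.End (ZMod 3) W :=
    { toFun := fun g => (DistribSMul.toAddMonoidHom W g).toZModLinearMap 3
      map_one' := LinearMap.ext fun w => one_smul G w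
      map_mul' := fun g h => LinearMap.ext fun w => mul_smul g h w }
  have hs : ∀ (c : ZMod 3) (w : W), c • w = c.val • w := fun c w => by
    rw [← Nat.cast_smul_eq_nsmul (ZMod 3), ZMod.natCast_zmod_val]
  have hsw : b (B 1) (B 0) = (b (B 0) (B 1))⁻¹ := by
    have := h0 (B 0 + B 1)
    rw [hl, hr, hr, h0, h0, one_mul, mul_one] at this
    exact eq_inv_of_mul_eq_one_right this
  have hb : ∀ a a' c c' : ZMod 3, b (a • B 0 + a' • B 1) (c • B 0 + c' • B 1) =
      b (B 0) (B 1) ^ (a.val * c'.val) * (b (B 0) (B 1) ^ (a'.val * c.val))⁻¹ := by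
    intro a a' c c'
    simp only [hs, hl, hr, pl, pr, h0, hsw, one_pow, one_mul, mul_one, inv_pow, ← pow_mul]
    rw [mul_comm c'.val, mul_comm c.val]
  have hrep : ∀ w : W, w = B.repr w 0 • B 0 + B.repr w 1 • B 1 := fun w => by
    conv_lhs => rw [← B.sum_repr w, Fin.sum_univ_two]
  have hord : orderOf (b (B 0) (B 1)) = 3 := by
    refine orderOf_eq_prime (by rw [← pl, h3, ← zero_nsmul (B 0), pl, pow_zero]) fun h => ?_
    refine B.ne_zero 0 (hn _ fun y => ?_)
    rw [hrep y, hr, hs, hs, pr, pr, h0, h, one_pow, one_pow, one_mul]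
  have hdet : ∀ g : G, (LinearMap.toMatrix B B (ρ g)).det = 1 := by
    intro g
    have h1 := hg g (B 0) (B 1)
    rw [hrep (g • B 0), hrep (g • B 1), hb, mul_inv_eq_iff_eq_mul, ← pow_succ',
      pow_eq_pow_iff_modEq, hord, ← ZMod.natCast_eq_natCast_iff] at h1
    push_cast at h1
    simp only [ZMod.natCast_zmod_val] at h1
    rw [det_fin_two]
    simp only [LinearMap.toMatrix_apply]
    change B.repr (g • B 0) 0 * B.repr (g • B 1) 1 - B.repr (g • B 1) 0 * B.repr (g • B 0) 1 = 1
    rw [h1]
    ring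
  refine ⟨MonoidHom.mk' (fun g => ⟨LinearMap.toMatrix B B (ρ g), hdet g⟩) fun g h =>
    Subtype.ext ?_, fun g => ?_⟩
  · change LinearMap.toMatrix B B (ρ (g * h)) = _ * _
    rw [map_mul, LinearMap.toMatrix_mul]
  · refine Subtype.ext_iff.trans ?_
    change LinearMap.toMatrix B B (ρ g) = 1 ↔ _
    rw [← LinearMap.toMatrix_one B, (LinearMap.toMatrix B B).injective.eq_iff, LinearMap.ext_iff]
    rfl

theorem num14 : ∀ e : ℕ, (e + 14) ^ 6 ≤ 5 * 3 ^ (e + 13)
  | 0 => by norm_num
  | e + 1 => by
    have h := num14 e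
    have h1 : (14 * (e + 1 + 14)) ^ 6 ≤ (15 * (e + 14)) ^ 6 := Nat.pow_le_pow_left (by omega) 6
    rw [mul_pow, mul_pow] at h1
    rw [show e + 1 + 13 = e + 13 + 1 by ring, pow_succ 3]
    generalize (e + 1 + 14) ^ 6 = a at h1 ⊢
    generalize (e + 14) ^ 6 = c at h h1
    generalize 3 ^ (e + 13) = d at h ⊢
    omega

/-- **SYMP-A.** -/
theorem sympA :
    SympP.{u} fun e => e ≤ 3 ∨ e = 5 ∨ (6 ≤ e ∧ e ≠ 8 ∧ e ≠ 9 ∧ e ≠ 12) := by
  intro G W A _ _ _ _ _ _ _ b e he hcr hc hl hr h0 hn hg Y
  have hW : 0 < Nat.card W := Nat.card_pos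
  have hk := k_le_card Y
  have hY := Subgroup.card_le_card_group Y
  rcases Nat.lt_or_ge e 2 with h2 | h2
  · have h1 : e = 1 := by
      rcases e with _ | e
      · rw [hc] at hW
        exact absurd hW (by norm_num)
      · omega
    subst h1
    have : Subsingleton W := (Nat.card_eq_one_iff_unique.1 hc).1
    rw [Nat.card_unique (α := img G W)] at hY
    exact hk.trans hY
  have : Nontrivial W := Finite.one_lt_card_iff_nontrivial.1 (by rw [hc]; nlinarith)
  rcases Nat.lt_or_ge e 14 with h14 | h14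
  swap
  · obtain ⟨m, rfl⟩ := Nat.exists_eq_add_of_le' h14
    have h1 := ord_base (G := G) (W := W) hcr
    rw [hc, ← pow_mul] at h1
    change _ ≤ (m + 14) ^ 6 at h1
    have h3 := num14 m
    change _ ≤ 3 ^ (m + 13)
    omega
  have hs : Squarefree e := by
    have h6 : ∀ a c : ℕ, a.Prime → c.Prime → a ≠ c → Squarefree (a * c) := fun a c ha hc hac =>
      (Nat.squarefree_mul ((Nat.coprime_primes ha hc).2 hac)).2
        ⟨ha.prime.squarefree, hc.prime.squarefree⟩
    interval_cases e <;> first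
      | omega
      | exact h6 2 3 (by norm_num) (by norm_num) (by norm_num)
      | exact h6 2 5 (by norm_num) (by norm_num) (by norm_num)
      | exact (Nat.Prime.prime (by norm_num)).squarefree
  have hh := H28.MwS.sqf G W A b e h2 hs hc hl hr h0 hn hg
  have hab := fun h => hc ▸ ab_index hcr Y h
  have h58 := five_eight (G := Y)
  by_cases h3 : e = 3
  · subst h3
    by_cases hcomm : IsMulCommutative Y
    · have := fun h => hab h hcomm
      omega
    have h4 := h58 hcomm
    rcases Nat.lt_or_ge (Nat.card Y) 16 with h5 | h5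
    · omega
    obtain ⟨f, hf⟩ := exists_hom_sl23 b hc hl hr h0 hn hg
    have h6 : (toPermHom G W).rangeRestrict.ker = f.ker := by
      ext g
      rw [MonoidHom.mem_ker, MonoidHom.mem_ker, hf, CpK.rr_eq_one]
    let φ : img G W ≃* f.range := (QuotientGroup.quotientKerEquivOfSurjective _
      (toPermHom G W).rangeRestrict_surjective).symm.trans
      ((QuotientGroup.quotientMulEquivOfEq h6).trans (QuotientGroup.quotientKerEquivRange f))
    let ψ : Y →* SpecialLinearGroup (Fin 2) (ZMod 3) :=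
      f.range.subtype.comp (φ.toMonoidHom.comp Y.subtype)
    have hi : Function.Injective ψ :=
      Subtype.val_injective.comp (φ.injective.comp Subtype.val_injective)
    have h7 := Subgroup.card_dvd_of_injective ψ hi
    have h8 : Nat.card (SpecialLinearGroup (Fin 2) (ZMod 3)) = 24 := by
      rw [Nat.card_eq_fintype_card, card_sl23]
    have h9 : Nat.card Y = 24 := by
      rw [h8] at h7
      generalize Nat.card Y = n at h5 h7 hY
      have : n ≤ 24 := by omega
      interval_cases n <;> omega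
    rw [CpK.cls_congr (MulEquiv.ofBijective ψ (hi.bijective_of_nat_card_le (by omega))), k_sl23]
    norm_num
  by_cases hcomm : IsMulCommutative Y
  · have := fun h => hab h hcomm
    interval_cases e <;> omega
  · have := h58 hcomm
    interval_cases e <;> omega

end Cfsg.Agent.H29.Kr
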