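import Cfsg.Agent.H93.L8Defs

/-! Project CY, chapter L8, piece GD: the global `2`-structure. -/

set_option autoImplicit false

namespace Cfsg.Agent.H29.L8Gd

open Subgroup MulAction Cfsg.Agent.H11.Cy Cfsg.Agent.H93.L8

section
variable {G : Type} [Group G]

lemma tri {B : Subgroup G} (hB : Nat.card B = 3) {a b : G} (ha : a ∈ B) (h1 : a ≠ 1)
    (hb : b ∈ B) : b = 1 ∨ b = a ∨ b = a⁻¹ := by
  haveI : Fact (Nat.Prime 3) := ⟨Nat.prime_three⟩
  have h3 : a ^ 3 = 1 := by
    have := pow_card_eq_one' (x := (⟨a, ha⟩ : B))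
    rw [hB] at this
    exact congrArg Subtype.val this
  obtain ⟨n, hn⟩ := mem_powers_of_prime_card hB (g := ⟨a, ha⟩) (g' := ⟨b, hb⟩)
    (fun e => h1 (congrArg Subtype.val e))
  have hn' : a ^ n = b := congrArg Subtype.val hn
  rw [pow_eq_pow_mod n h3] at hn'
  have : n % 3 < 3 := Nat.mod_lt _ (by norm_num)
  generalize n % 3 = m at *
  interval_cases m
  · left; rw [← hn', pow_zero]
  · right; left; rw [← hn', pow_one]
  · right; right
    rw [← hn', eq_inv_iff_mul_eq_one, ← pow_succ, h3]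

lemma invt {B : Subgroup G} (hB : Nat.card B = 3) {u : G} (hu : ∀ a ∈ B, u * a * u⁻¹ ∈ B)
    (hc : u ∉ centralizer (B : Set G)) : ∀ b ∈ B, u * b * u⁻¹ = b⁻¹ := by
  rw [mem_centralizer_iff] at hc
  push Not at hc
  obtain ⟨a, ha, hne⟩ := hc
  have h1 : a ≠ 1 := by
    rintro rfl
    exact hne (by simp)
  have hi : u * a * u⁻¹ = a⁻¹ := by
    rcases tri hB ha h1 (hu a ha) with e | e | e
    · exfalso
      apply h1
      have : a = u⁻¹ * (u * a * u⁻¹) * u := by group
      rw [this, e]; group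
    · exfalso
      apply hne
      rw [mul_inv_eq_iff_eq_mul] at e
      exact e.symm
    · exact e
  intro b hb
  rcases tri hB ha h1 hb with rfl | rfl | rfl
  · simp
  · exact hi
  · rw [← hi]
    have : u * a⁻¹ * u⁻¹ = (u * a * u⁻¹)⁻¹ := by group
    rw [hi, this, hi]

lemma prod {B : Subgroup G} (hB : Nat.card B = 3) {u v : G} (hu : ∀ a ∈ B, u * a * u⁻¹ ∈ B)
    (hv : ∀ a ∈ B, v * a * v⁻¹ ∈ B) (hc : u ∉ centralizer (B : Set G))
    (hd : v ∉ centralizer (B : Set G)) : u * v ∈ centralizer (B : Set G) := by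
  rw [mem_centralizer_iff]
  intro b hb
  have e1 := invt hB hv hd b hb
  have e2 := invt hB hu hc b⁻¹ (B.inv_mem hb)
  have : u * v * b = u * (v * b * v⁻¹) * u⁻¹ * (u * v) := by group
  rw [this, e1, e2, inv_inv]

lemma ord_conj (g s : G) : orderOf (g * s * g⁻¹) = orderOf s :=
  (MulAut.conj g).orderOf_eq s

lemma sq1 {s : G} (h : orderOf s = 2) : s * s = 1 := by
  rw [← sq, ← h, pow_orderOf_eq_one]

lemma ord2 {s : G} (h : s * s = 1) (h1 : s ≠ 1) : orderOf s = 2 := by
  haveI : Fact (Nat.Prime 2) := ⟨Nat.prime_two⟩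
  exact orderOf_eq_prime (by rw [sq, h]) h1

lemma ord_mul {s t : G} (hs : orderOf s = 2) (ht : orderOf t = 2) (hne : s ≠ t)
    (hc : s * t = t * s) : orderOf (s * t) = 2 := by
  refine ord2 ?_ fun e => hne ?_
  · have : s * t * (s * t) = s * (t * s) * t := by group
    rw [this, ← hc]
    have : s * (s * t) * t = (s * s) * (t * t) := by group
    rw [this, sq1 hs, sq1 ht, one_mul]
  · have : s = s * t * t := by rw [mul_assoc, sq1 ht, mul_one]
    rw [this, e, one_mul]

variable {Ω : Type} [MulAction G Ω] {p : ℕ} {A : Ω → Subgroup G}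

lemma cjF (h : St p A) (g : G) (x y : Ω) {f : G} (hf : f ∈ Fl A x y) :
    g * f * g⁻¹ ∈ Fl A (g • x) (g • y) := by
  have : Fl A x y ≤ (Fl A (g • x) (g • y)).comap (MulAut.conj g).toMonoidHom := by
    refine sup_le (fun a ha => ?_) (fun a ha => ?_)
    · exact (le_sup_left : A (g • x) ≤ _) (h.eqv g x a ha)
    · exact (le_sup_right : A (g • y) ≤ _) (h.eqv g y a ha)
  exact this hf

lemma nfix [Finite G] (h : St p A) {g : G} {x y : Ω} (hx : g • x = x) (hy : g • y = y) :
    g ∈ normalizer (Fl A x y : Set G) := by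
  refine mem_normalizer_fintype fun f hf => ?_
  have := cjF h g x y hf
  rwa [hx, hy] at this

lemma nswap [Finite G] (h : St p A) {g : G} {x y : Ω} (hx : g • x = y) (hy : g • y = x) :
    g ∈ normalizer (Fl A x y : Set G) := by
  refine mem_normalizer_fintype fun f hf => ?_
  have := cjF h g x y hf
  rw [hx, hy] at this
  show g * f * g⁻¹ ∈ A x ⊔ A y
  rw [sup_comm]
  exact this

end

theorem gd : GdStmt := by
  intro G _ _ Ω _ _ p A h hp ep ty idx fx sw
  subst hp
  have pw : ∀ s : G, orderOf s = 2 → ∃ k : ℕ, s ^ 2 ^ k = 1 := fun s hs =>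
    ⟨1, by rw [pow_one, sq, sq1 hs]⟩
  have two : ∀ s : G, orderOf s = 2 → ∃ x y : Ω, x ≠ y ∧ s • x = x ∧ s • y = y := by
    intro s hs
    have : ∃ x : Ω, s • x ≠ x := by
      by_contra hh
      push Not at hh
      rw [h.faith s hh, orderOf_one] at hs
      omega
    obtain ⟨x, hx⟩ := this
    have hxy : x ≠ s • x := hx.symm
    have hsF : s ∈ Fl A x (s • x) := (idx _ _ hxy).2 s
      (nswap h rfl (by rw [← mul_smul, sq1 hs, one_smul])) (pw s hs)
    obtain ⟨t, ht, e1, e2, -, -⟩ := fx _ _ hxy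
    have htF : t ∈ Fl A x (s • x) := (idx _ _ hxy).2 t (nfix h e1 e2) (pw t ht)
    have hc := (ty _ _ hxy).1.conj ⟨t, htF⟩ ⟨s, hsF⟩ (by rw [orderOf_mk]; exact ht)
      (by rw [orderOf_mk]; exact hs)
    obtain ⟨g, hg⟩ := isConj_iff.1 hc
    have hg' : (g : G) * t * (g : G)⁻¹ = s := congrArg Subtype.val hg
    generalize s • x = y at *
    refine ⟨(g : G) • x, (g : G) • y, fun e => hxy (MulAction.injective (g : G) e), ?_, ?_⟩
    · rw [← hg', mul_smul, mul_smul, inv_smul_smul, e1]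
    · rw [← hg', mul_smul, mul_smul, inv_smul_smul, e2]
  have uq : ∀ x y : Ω, x ≠ y → ∀ u v : G, orderOf u = 2 → orderOf v = 2 → u • x = x → u • y = y →
      v • x = x → v • y = y → u = v := by
    intro x y hxy u v hu hv a b c d
    obtain ⟨t, -, -, -, -, ht⟩ := fx x y hxy
    rw [ht u hu a b, ht v hv c d]
  have star : ∀ u : G, orderOf u = 2 → ∀ c : Ω, u • c = c → u ∉ centralizer (A c : Set G) := by
    intro u hu c hc
    obtain ⟨x, y, hxy, hx, hy⟩ := two u hu
    have : ∃ d, c ≠ d ∧ u • d = d := by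
      by_cases e : c = x
      · exact ⟨y, e ▸ hxy, hy⟩
      · exact ⟨x, e, hx⟩
    obtain ⟨d, hcd, hd⟩ := this
    obtain ⟨t, -, -, -, hn, ht⟩ := fx c d hcd
    rw [ht u hu hc hd]
    exact hn
  have nA : ∀ (u : G) (c : Ω), u • c = c → ∀ a ∈ A c, u * a * u⁻¹ ∈ A c := by
    intro u c hc a ha
    have := h.eqv u c a ha
    rwa [hc] at this
  refine ⟨fun a b ha hb => ?_, fun u hu => ?_, fun t s s' ht hs hs' hst hst' c c' => ?_⟩
  · obtain ⟨x, y, hxy, hx, hy⟩ := two a ha
    obtain ⟨x', y', hxy', hx', hy'⟩ := two b hb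
    obtain ⟨g, -, e1, e2⟩ := h.two x trivial y trivial x' trivial y' trivial hxy hxy'
    refine isConj_iff.2 ⟨g, uq x' y' hxy' _ _ (by rw [ord_conj, ha]) hb ?_ ?_ hx' hy'⟩
    · rw [← e1, mul_smul, mul_smul, inv_smul_smul, hx]
    · rw [← e2, mul_smul, mul_smul, inv_smul_smul, hy]
  · by_contra hne
    rw [sq] at hne
    have hw : orderOf (u * u) = 2 := by
      refine ord2 ?_ hne
      rw [← hu]; simp only [pow_succ, pow_zero, one_mul, mul_assoc]
    obtain ⟨a, -, -, ha, -⟩ := two _ hw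
    by_cases e : u • a = a
    · apply star _ hw a ha
      by_cases hc : u ∈ centralizer (A a : Set G)
      · exact mul_mem hc hc
      · exact prod (h.card a) (nA u a e) (nA u a e) hc hc
    · have hxy : a ≠ u • a := fun e' => e e'.symm
      have huF : u ∈ Fl A a (u • a) := (idx _ _ hxy).2 u
        (nswap h rfl (by rw [← mul_smul, ha])) ⟨2, hu⟩
      have := (ty _ _ hxy).1.four ⟨u, huF⟩ (Subtype.ext hu)
      apply hne
      rw [← sq]
      exact congrArg Subtype.val this
  · obtain ⟨a, -, -, ha, -⟩ := two t ht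
    have mv : ∀ s : G, orderOf s = 2 → s ≠ t → s * t = t * s →
        a ≠ s • a ∧ t • s • a = s • a := by
      intro s hs hst c
      refine ⟨fun e => ?_, by rw [← mul_smul, ← c, mul_smul, ha]⟩
      refine star _ (ord_mul hs ht hst c) a (by rw [mul_smul, ha, ← e]) ?_
      exact prod (h.card a) (nA s a e.symm) (nA t a ha) (star s hs a e.symm) (star t ht a ha)
    obtain ⟨n1, f1⟩ := mv s hs hst c
    obtain ⟨n2, f2⟩ := mv s' hs' hst' c'
    obtain ⟨g, -, e1, e2⟩ := h.two a trivial (s • a) trivial a trivial (s' • a) trivial n1 n2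
    have e1' : g⁻¹ • a = a := by rw [inv_smul_eq_iff, e1]
    have hg : g * t * g⁻¹ = t := by
      refine uq a (s' • a) n2 _ _ (by rw [ord_conj, ht]) ht ?_ ?_ ha f2
      · rw [mul_smul, mul_smul, e1', ha, e1]
      · rw [← e2, mul_smul, mul_smul, inv_smul_smul, f1]
    refine ⟨g, by rw [← mul_inv_eq_iff_eq_mul, hg], ?_⟩
    obtain ⟨q, r, -, hS⟩ := Set.ncard_eq_two.1 (sw a (s' • a) n2)
    have m1 : g * s * g⁻¹ ∈ ({q, r} : Set G) := by
      rw [← hS]
      exact ⟨by rw [ord_conj, hs], by rw [mul_smul, mul_smul, e1', e2]⟩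
    have m2 : s' ∈ ({q, r} : Set G) := by
      rw [← hS]
      exact ⟨hs', rfl⟩
    have m3 : s' * t ∈ ({q, r} : Set G) := by
      rw [← hS]
      exact ⟨ord_mul hs' ht hst' c', by rw [mul_smul, ha]⟩
    have hn : s' ≠ s' * t := by
      intro e
      have : t = 1 := by simpa using e
      rw [this, orderOf_one] at ht
      omega
    simp only [Set.mem_insert_iff, Set.mem_singleton_iff] at m1 m2 m3
    rcases m1 with m1 | m1 <;> rcases m2 with m2 | m2 <;> rcases m3 with m3 | m3 <;>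
      first
      | exact Or.inl (m1.trans m2.symm)
      | exact Or.inr (m1.trans m3.symm)
      | exact absurd (m2.trans m3.symm) hn

end Cfsg.Agent.H29.L8Gd
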