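import Cfsg.Agent.H11.CyLp
import Cfsg.Agent.H56.TGMain

/-! Project CY, chapter LP, piece N7. -/

set_option autoImplicit false

namespace Cfsg.Agent.H29.LpN7

open Subgroup MulAction Cfsg.Agent.H11.Cy Cfsg.Agent.H11.Cy.Lp
open Cfsg.Agent.H11.EL (Nm Ct C1 cj Ex R1 SC OS WS CL2)

section
variable {G : Type} [Group G]

lemma sq1 {s : G} (h : orderOf s = 2) : s * s = 1 := by
  rw [← sq, ← h, pow_orderOf_eq_one]

lemma zp2 {t k : G} (ht : orderOf t = 2) (hk : k ∈ zpowers t) : k = 1 ∨ k = t := by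
  obtain ⟨n, rfl⟩ := mem_zpowers_iff.1 hk
  have h2 : t ^ (2 : ℤ) = 1 := by rw [zpow_two, sq1 ht]
  rcases Int.even_or_odd' n with ⟨m, rfl | rfl⟩
  · left; rw [zpow_mul, h2, one_zpow]
  · right; rw [zpow_add, zpow_mul, h2, one_zpow, one_mul, zpow_one]

lemma gen {B : Subgroup G} {p : ℕ} (hp : p.Prime) (hB : Nat.card B = p) :
    ∃ a ∈ B, orderOf a = p := by
  haveI : Fact p.Prime := ⟨hp⟩
  haveI : Finite B := Nat.finite_of_card_ne_zero (hB ▸ hp.ne_zero)
  obtain ⟨a, ha⟩ := exists_prime_orderOf_dvd_card' (G := B) p (hB ▸ dvd_rfl)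
  exact ⟨a, a.2, by rw [orderOf_coe, ha]⟩

lemma two_fix [Finite G] {Ω : Type} [Finite Ω] [MulAction G Ω] (he : Even (Nat.card Ω)) {s : G}
    (hs : orderOf s = 2) {c : Ω} (hc : s • c = c) : ∃ d, c ≠ d ∧ s • d = d := by
  haveI : Fact (Nat.Prime 2) := ⟨Nat.prime_two⟩
  have hP : IsPGroup 2 (zpowers s) := IsPGroup.of_card (n := 1) (by rw [Nat.card_zpowers, hs]; rfl)
  have hc' : c ∈ fixedPoints (zpowers s) Ω := by
    intro k
    rcases zp2 hs k.2 with e | e
    · show (k : G) • c = c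
      rw [e, one_smul]
    · show (k : G) • c = c
      rw [e, hc]
  obtain ⟨d, hd, hne⟩ := hP.exists_fixed_point_of_prime_dvd_card_of_fixed_point Ω
    (even_iff_two_dvd.1 he) hc'
  exact ⟨d, hne, hd ⟨s, mem_zpowers s⟩⟩

end

theorem n7 (n2a : N2aStmt) : N7Stmt := by
  classical
  intro G _ _ Ω _ _ p A h x y l3 t ht hK O hO v hv hi hvv
  have hxy := l3.xy
  have la := l3.la x y hxy
  obtain ⟨f, s, lc⟩ := l3.lc x y hxy
  have lt := l3.lt x y hxy f s lc
  have lv := l3.lv x y hxy
  have lw := l3.lw x y hxy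
  have p3 := l3.p3
  have p7 := l3.p7
  obtain ⟨a, ha, hao⟩ := gen h.pp (h.card x)
  have hvN := la.hN hv
  have par : ∀ u ∈ Nm (Fl A x y), u * u = 1 → u ∉ Kl A x y →
      ¬ (u ∈ Kl A x y ⊔ Fl A x y ↔ ∃ z ∈ Ln A x y, u • z = z) := by
    intro u hu h1 h2 h3
    have := (lv.par u hu (h1 ▸ one_mem _) h2).1 h3
    omega
  have hvK : v ∉ Kl A x y := by
    intro hk
    have e1 := hi a ha
    have e2 : a * v = v * a := mem_centralizer_iff.1 hk a (le_sup_left (a := A x) (b := A y) ha)
    rw [← e2, mul_inv_cancel_right] at e1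
    have e3 : a ^ 2 = 1 := by
      rw [sq]
      nth_rewrite 1 [e1]
      simp
    have := Nat.le_of_dvd (by norm_num) (orderOf_dvd_of_pow_eq_one e3)
    omega
  have hvM : v ∉ Kl A x y ⊔ Fl A x y := fun hm =>
    par v hvN hvv hvK ⟨fun _ => ⟨x, la.mx, hv.1⟩, fun _ => hm⟩
  have t1 : t ≠ 1 := by
    rintro rfl
    rw [orderOf_one] at ht
    omega
  have htK : t ∈ Kl A x y := hK ▸ mem_zpowers t
  have htL : t ∉ Fl A x y := fun hl => t1 (la.ctr t hl htK)
  have hk2 : ∀ k ∈ Kl A x y, k * k = 1 := by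
    intro k hk
    rcases zp2 ht (hK ▸ hk) with e | e
    · rw [e, one_mul]
    · rw [e, sq1 ht]
  have hkl : ∀ k ∈ Kl A x y, ∀ l ∈ Fl A x y, l * k = k * l := fun k hk l hl =>
    mem_centralizer_iff.1 hk l hl
  have hvt : v * t = t * v := by
    have : v * t * v⁻¹ ∈ Kl A x y := by
      refine mem_centralizer_iff.2 fun l hl => ?_
      have hl' : v⁻¹ * l * v⁻¹⁻¹ ∈ Fl A x y := (mem_normalizer_iff.1 (inv_mem hvN) l).1 hl
      have e := hkl t htK _ hl'
      calc l * (v * t * v⁻¹) = v * (v⁻¹ * l * v⁻¹⁻¹ * t) * v⁻¹ := by group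
        _ = v * t * v⁻¹ * l := by rw [e]; group
    rcases zp2 ht (hK ▸ this) with e | e
    · exfalso
      apply t1
      have : t = v⁻¹ * (v * t * v⁻¹) * v := by group
      rw [this, e]; group
    · rw [mul_inv_eq_iff_eq_mul] at e
      exact e
  have hvk : ∀ k ∈ Kl A x y, v * k = k * v := by
    intro k hk
    rcases zp2 ht (hK ▸ hk) with e | e
    · rw [e, one_mul, mul_one]
    · rw [e, hvt]
  have tns : ∀ g : G, g * g ≠ t := by
    intro g hg
    have hgN : g ∈ Nm (Fl A x y) := by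
      refine l3.tiN x y hxy t htK t1 g ?_
      have : g * t * g⁻¹ = t := by rw [← hg]; group
      rw [this]; exact htK
    apply htL
    rw [← hg]
    by_cases hm : g ∈ Kl A x y ⊔ Fl A x y
    · obtain ⟨k, hk, l, hl, rfl⟩ := la.dec g hm
      have : k * l * (k * l) = (k * k) * (l * l) := by
        calc k * l * (k * l) = k * (l * k) * l := by group
          _ = _ := by rw [hkl k hk l hl]; group
      rw [this, hk2 k hk, one_mul]
      exact mul_mem hl hl
    · obtain ⟨k, hk, l, hl, e⟩ := la.dec _ (lt.idx g hgN v hvN hm hvM)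
      have hvi : v⁻¹ = v := inv_eq_of_mul_eq_one_right hvv
      have e' : g = k * l * v := by rw [← e, mul_assoc, hvv, mul_one]
      have : g * g = (k * k) * (l * (v * l * v⁻¹)) := by
        rw [e', hvi]
        calc k * l * v * (k * l * v) = k * (l * (v * k)) * l * v := by group
          _ = k * (l * k) * v * l * v := by rw [hvk k hk]; group
          _ = _ := by rw [hkl k hk l hl]; group
      rw [this, hk2 k hk, one_mul]
      exact mul_mem hl ((mem_normalizer_iff.1 hvN l).1 hl)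
  have hss := sq1 lc.so
  have hsf : ∀ c : Ω, s • c ≠ c := by
    intro c hc
    obtain ⟨d, hcd, hd⟩ := two_fix l3.even lc.so hc
    obtain ⟨g, -, e1, e2⟩ := h.two c trivial d trivial x trivial y trivial hcd hxy
    obtain ⟨u, -, hu⟩ := lw.sqs p3 v hv hvv hi s lc.sL lc.so
    have hH : g * s * g⁻¹ ∈ Hs G x y := by
      constructor
      · show (g * s * g⁻¹) • x = x
        rw [← e1, mul_smul, mul_smul, inv_smul_smul, hc]
      · show (g * s * g⁻¹) • y = y
        rw [← e2, mul_smul, mul_smul, inv_smul_smul, hd]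
    have hsq : (g * u * g⁻¹) * (g * u * g⁻¹) = g * s * g⁻¹ := by rw [← hu]; group
    have h11 : (g * s * g⁻¹) * (g * s * g⁻¹) = 1 := by
      calc (g * s * g⁻¹) * (g * s * g⁻¹) = g * (s * s) * g⁻¹ := by group
        _ = 1 := by rw [hss]; group
    have hne : g * s * g⁻¹ ≠ 1 := by
      intro e
      have e' : s = 1 := by
        have : s = g⁻¹ * (g * s * g⁻¹) * g := by group
        rw [this, e]; group
      have := lc.so
      rw [e', orderOf_one] at this
      omega
    generalize g * s * g⁻¹ = w at hH hsq h11 hne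
    rcases lt.small w hH with e | e | ⟨i, e, hn⟩
    · rcases zp2 ht (hK ▸ e) with e | e
      · exact hne e
      · exact tns _ (hsq.trans e)
    · exact (n2a G Ω p A h x y l3 w hH h11 e).1 _ hsq
    · apply hn
      rw [← hao, orderOf_dvd_iff_zpow_eq_one, zpow_sub, zpow_one, mul_inv_eq_one, sq, zpow_mul]
      have e1 := e a ha
      have e2 := e (a ^ i) (zpow_mem ha i)
      rw [← e2, ← e1]
      calc w * (w * a * w⁻¹) * w⁻¹ = (w * w) * a * (w * w)⁻¹ := by group
        _ = a := by rw [h11]; group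
  have hsM : s ∈ Kl A x y ⊔ Fl A x y := (le_sup_right : Fl A x y ≤ _) lc.sL
  let η : H56.TT.DD G x y →* ℂˣ := MonoidHom.mk'
    (fun g => if (g : G) ∈ Kl A x y ⊔ Fl A x y then 1 else -1) (by
      intro g g'
      by_cases h1 : (g : G) ∈ Kl A x y ⊔ Fl A x y <;>
        by_cases h2 : (g' : G) ∈ Kl A x y ⊔ Fl A x y
      · rw [if_pos h1, if_pos h2, if_pos (by exact mul_mem h1 h2), one_mul]
      · rw [if_pos h1, if_neg h2, if_neg, one_mul]
        intro h3
        exact h2 ((mul_mem_cancel_left h1).1 h3)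
      · rw [if_neg h1, if_pos h2, if_neg, mul_one]
        intro h3
        exact h1 ((mul_mem_cancel_right h2).1 h3)
      · rw [if_neg h1, if_neg h2, if_pos (by exact lt.idx g (la.hN g.2) g' (la.hN g'.2) h1 h2)]
        simp)
  have hη : ∀ g : H56.TT.DD G x y,
      η g = if (g : G) ∈ Kl A x y ⊔ Fl A x y then 1 else -1 := fun _ => rfl
  obtain ⟨χ, hχ, -⟩ := H56.TG.tg.{0, 0} G Ω
    (fun a b c d h1 h2 => by
      obtain ⟨g, -, e⟩ := h.two a trivial b trivial c trivial d trivial h1 h2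
      exact ⟨g, e⟩)
    x y hxy O hO.le hO.nm hO.nil (fun c hc => hO.tr y c hxy.symm hc) (hO.reg y hxy.symm)
    s hss lc.sx hsf η
    (by
      intro g g' e
      rw [hη, hη, e]
      simp only [mul_mem_cancel_right hsM, mul_mem_cancel_left hsM])
    (by
      intro g hc
      rw [hη, if_pos]
      by_contra hm
      obtain ⟨c, hc⟩ := isConj_iff.1 hc
      have hm' : (g : G) * s ∉ Kl A x y ⊔ Fl A x y := fun h3 =>
        hm ((mul_mem_cancel_right hsM).1 h3)
      have e : (g : G) * s = c⁻¹ * s * c := by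
        nth_rewrite 2 [← hc]
        group
      apply par ((g : G) * s) (mul_mem (la.hN g.2) (le_normalizer lc.sL))
        (by
          rw [e]
          calc c⁻¹ * s * c * (c⁻¹ * s * c) = c⁻¹ * (s * s) * c := by group
            _ = 1 := by rw [hss]; group)
        (fun h3 => hm' ((le_sup_left : Kl A x y ≤ _) h3))
      refine ⟨fun h3 => absurd h3 hm', ?_⟩
      rintro ⟨z, -, hz⟩
      exfalso
      apply hsf (c • z)
      rw [e, mul_smul, mul_smul, inv_smul_eq_iff] at hz
      exact hz)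
  haveI := l3.simple p7
  have hv1 : χ v = -1 := by
    rw [show χ v = η ⟨v, hv⟩ from hχ ⟨v, hv⟩, hη, if_neg hvM]
  rcases χ.normal_ker.eq_bot_or_eq_top with e | e
  · apply l3.nc
    have hinj : Function.Injective χ := (MonoidHom.ker_eq_bot_iff χ).1 e
    exact ⟨⟨fun a b => hinj (by rw [map_mul, map_mul, mul_comm])⟩⟩
  · have : v ∈ χ.ker := e ▸ mem_top v
    rw [MonoidHom.mem_ker, hv1] at this
    have := congrArg Units.val this
    norm_num at this

end Cfsg.Agent.H29.LpN7
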