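import Cfsg.Agent.H54.O84Defs

/-! The fixed points of a map swapping two commuting factors. -/

set_option autoImplicit false

namespace Cfsg.Agent.H29.O84E2

open Cfsg.Agent.H54.O84 Equiv Cfsg.Lie H37 H40 H34 H29

theorem swap {Γ Γ' : Type*} [Group Γ] [Group Γ'] (σ : Γ →* Γ) (j : Γ' →* Γ)
    (inj : Function.Injective j) (fix : ∀ g, σ g = g ↔ g ∈ j.range) {A B C : Subgroup Γ}
    (hA : ∀ x ∈ A, σ x ∈ B) (hB : ∀ x ∈ B, σ x ∈ A) (AC : A ≤ C) (BC : B ≤ C)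
    (com : ∀ x ∈ A, ∀ y ∈ B, Commute x y) (dec : ∀ g ∈ C, ∃ x ∈ A, ∃ y ∈ B, g = x * y)
    (dis : ∀ z ∈ A, z ∈ B → z = 1) :
    Nonempty (C.comap j ≃* (A ⊓ (σ.comp σ).eqLocus (MonoidHom.id Γ) : Subgroup Γ)) := by
  let θ : (A ⊓ (σ.comp σ).eqLocus (MonoidHom.id Γ) : Subgroup Γ) →* Γ :=
    MonoidHom.mk' (fun d => d.1 * σ d.1) fun d e => by
      show d.1 * e.1 * σ (d.1 * e.1) = d.1 * σ d.1 * (e.1 * σ e.1)
      rw [map_mul, mul_assoc, mul_assoc, ← mul_assoc e.1, (com _ e.2.1 _ (hA _ d.2.1)).eq,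
        mul_assoc]
  have hθ : Function.Injective θ := (injective_iff_map_eq_one θ).2 fun d hd =>
    Subtype.ext (dis _ d.2.1 (by
      rw [eq_inv_of_mul_eq_one_left (show d.1 * σ d.1 = 1 from hd)]
      exact inv_mem (hA _ d.2.1)))
  have e : (C.comap j).map j = θ.range := by
    ext g
    constructor
    · rintro ⟨g, hg, rfl⟩
      obtain ⟨x, hx, y, hy, e⟩ := dec _ hg
      have h := (fix _).2 ⟨g, rfl⟩
      rw [e, map_mul, ← (com _ (hB y hy) _ (hA x hx)).eq] at h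
      have h1 : x⁻¹ * σ y = y * (σ x)⁻¹ := by
        rw [inv_mul_eq_iff_eq_mul, ← mul_assoc, ← h, mul_inv_cancel_right]
      have h2 := dis _ (mul_mem (inv_mem hx) (hB y hy)) (h1 ▸ mul_mem hy (inv_mem (hA x hx)))
      have h3 : σ x = y := (mul_inv_eq_one.1 (h1 ▸ h2)).symm
      refine ⟨⟨x, hx, ?_⟩, ?_⟩
      · show σ (σ x) = x
        rw [h3, ← inv_mul_eq_one.1 h2]
      · show x * σ x = j g
        rw [h3, e]
    · rintro ⟨d, rfl⟩
      obtain ⟨g, hg⟩ := (fix (d.1 * σ d.1)).1 (by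
        rw [map_mul, show σ (σ d.1) = d.1 from d.2.2, (com _ d.2.1 _ (hA _ d.2.1)).eq])
      refine ⟨g, ?_, hg⟩
      show j g ∈ C
      rw [hg]
      exact mul_mem (AC d.2.1) (BC (hA _ d.2.1))
  exact ⟨((C.comap j).equivMapOfInjective j inj).trans
    ((MulEquiv.subgroupCongr e).trans (MonoidHom.ofInjective hθ).symm)⟩

theorem map_U {p : Perm Rt} (F : Frm p) {S S' : Set Rt} (h : ∀ r ∈ S, p r ∈ S') :
    ∀ x ∈ P8.U S, F.σ x ∈ P8.U S' := fun _ hx =>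
  Split.U_le (P := P8) (K := (P8.U S').comap F.σ) (fun r hr y hy => by
    obtain ⟨t, rfl⟩ := Cert.mem_X.1 hy
    show F.σ (C8.xg K r t) ∈ P8.U S'
    rw [F.map]
    exact Split.mem_U (h r hr) (Cert.xg_mem_X _ _)) hx

theorem e2 (hc : CommStmt) (h1 : E1Stmt) : E2Stmt := fun i F =>
  swap F.σ F.j F.inj F.fix (map_U F fun _ hr => (π_mem_Δ1 i).2 hr)
    (map_U F fun _ hr => (π_mem_Δ0 i).2 hr) (Split.U_mono Set.subset_union_left)
    (Split.U_mono Set.subset_union_right) hc.1 hc.2 fun z zA zB => h1 z fun g hg => by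
      obtain ⟨x, hx, y, hy, rfl⟩ := hc.2 g hg
      exact (hc.1 x hx z zB).symm.mul_right (hc.1 z zA y hy)

end Cfsg.Agent.H29.O84E2
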