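import Cfsg.Agent.H95.L3EL1

/-! A central product of four quaternion groups. -/

set_option autoImplicit false

namespace Cfsg.Agent.H29.O8M

open Subgroup Cfsg.Agent.H8 Cfsg.Agent.H95.L3 Cfsg.Agent.H49
open scoped Pointwise

variable {G : Type*} [Group G] {r : G}

/-- the elements commuting with `r` whose commutator with `t` lies in `⟨r⟩` -/
def CZ (r t : G) : Subgroup G where
  carrier := {e | Commute e r ∧ t * e * t⁻¹ * e⁻¹ ∈ zpowers r}
  one_mem' := ⟨Commute.one_left r, by simp⟩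
  mul_mem' := fun {a b} ha hb => ⟨ha.1.mul_left hb.1, by
    have := mul_mem ha.2 ((conj_zp_iff ha.1).2 hb.2)
    convert this using 1; group⟩
  inv_mem' := fun {a} ha => ⟨ha.1.inv_left, by
    have := (conj_zp_iff ha.1.inv_left).2 (inv_mem ha.2)
    convert this using 1; group⟩

theorem CZ_symm {t e : G} (ht : Commute t r) (h : t * e * t⁻¹ * e⁻¹ ∈ zpowers r) : t ∈ CZ r e :=
  ⟨ht, by convert inv_mem h using 1; group⟩

theorem CZ_symm' {t e : G} (h : t ∈ CZ r e) : t * e * t⁻¹ * e⁻¹ ∈ zpowers r := by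
  convert inv_mem h.2 using 1; group

theorem card_CZ [Finite G] {E : Subgroup G} (h : XS E r) {n y : G} (hn : Commute n r)
    (hy : Commute y r) (hyE : y ∈ normalizer (E : Set G)) (h3 : y ^ 3 = 1)
    (hi : n * y * n⁻¹ = y⁻¹) :
    Nat.card ↥(E ⊓ CZ r n) * Nat.card ↥(E ⊓ CZ r n) ≤ Nat.card E * Nat.card ↥(E ⊓ CZ r y) := by
  have h1 : MulAut.conj y • (E ⊓ CZ r n) ≤ E := by
    rintro _ ⟨e, he, rfl⟩
    exact cmem hyE he.1
  have h2 := H67.card_sup_mul_card_inf (H := MulAut.conj y • (E ⊓ CZ r n)) (K := E ⊓ CZ r n)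
    fun x hx => mem_normalizer_fintype fun e he => h.conj_mem_of_z_mem (U := E ⊓ CZ r n) inf_le_left
      ⟨h.mem, Commute.refl r, by rw [hn.eq]; simp⟩ (h1 hx) he
  rw [card_conj_smul] at h2
  rw [← h2]
  refine Nat.mul_le_mul (card_le_of_le (sup_le h1 inf_le_left)) (card_le_of_le ?_)
  rintro e ⟨h4, h5⟩
  have h6 : y * n * y⁻¹ ∈ CZ r e := CZ_symm ((hy.mul_left hn).mul_left hy.inv_left) (by
    have := (conj_zp_iff hy).2 (mem_conj_smul.1 h4).2.2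
    convert this using 1; group)
  have h7 := mul_mem h6 (inv_mem (CZ_symm hn h5.2.2))
  have h8 : y * n * y⁻¹ * n⁻¹ = y * y := by
    rw [mul_assoc y, mul_assoc y, ← inv_inv (n * y⁻¹ * n⁻¹), show (n * y⁻¹ * n⁻¹)⁻¹ = n * y * n⁻¹ by group,
      hi, inv_inv]
  rw [h8] at h7
  have h9 := mul_mem h7 h7
  rw [show y * y * (y * y) = y ^ 3 * y by simp only [pow_succ, pow_zero]; group, h3, one_mul] at h9
  exact ⟨h5.1, h5.2.1, CZ_symm' h9⟩

section Q8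

variable {A : Subgroup G} {f q x y : G}

theorem mem_zp (hf : f * f = r) :
    x ∈ zpowers f ↔ x ∈ zpowers r ∨ x * f⁻¹ ∈ zpowers r := by
  have h1 : zpowers r ≤ zpowers f := zpowers_le.2 (hf ▸ mul_mem (mem_zpowers f) (mem_zpowers f))
  refine ⟨?_, fun h2 => h2.elim (@h1 x) fun h2 => (mul_mem_cancel_right (inv_mem (mem_zpowers f))).1 (h1 h2)⟩
  rintro ⟨n, rfl⟩
  rcases Int.even_or_odd' n with ⟨k, rfl | rfl⟩
  · exact Or.inl ⟨k, by simp [← hf, zpow_mul, pow_two]⟩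
  · exact Or.inr ⟨k, by simp [← hf, zpow_mul, pow_two, zpow_add]⟩

theorem two_cos [Finite G] (h : XS A r) (h8 : Nat.card A = 8) (hf : f ∈ A) (hr : f * f = r)
    (hx : x ∈ A) (hq : q ∈ A) (h1 : x ∉ zpowers f) (h2 : q ∉ zpowers f) : x * q⁻¹ ∈ zpowers f := by
  have h3 : orderOf f = 2 ^ (1 + 1) := orderOf_eq_prime_pow (by rw [pow_one, pow_two, hr]; exact h.ne)
    (h.pow_four hf)
  have h4 := ((zpowers f).subgroupOf A).index_mul_card
  rw [Nat.card_congr (subgroupOfEquivOfLe (zpowers_le.2 hf)).toEquiv, Nat.card_zpowers, h3, h8] at h4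
  have h5 := (mul_mem_iff_of_index_two (H := (zpowers f).subgroupOf A) (by omega)
    (a := ⟨x, hx⟩) (b := ⟨q, hq⟩⁻¹)).2 (iff_of_false h1 fun e => h2 (inv_mem_iff.1 e))
  exact h5

theorem exists_pow [Finite G] (h : XS A r) (h8 : Nat.card A = 8)
    (hs : ∀ q ∈ A, q ∉ zpowers r → q * q = r) (hy : Fpf y A r) (hr : Commute y r) (h3 : y ^ 3 = 1)
    (hf : f ∈ A) (hx : x ∈ A) (h1 : f ∉ zpowers r) (h2 : x ∉ zpowers r) :
    ∃ k : ℕ, ∃ t ∈ zpowers r, y ^ k * f * (y ^ k)⁻¹ = t * x := by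
  suffices ∃ k : ℕ, x * (y ^ k * f * (y ^ k)⁻¹)⁻¹ ∈ zpowers r by
    obtain ⟨k, hk⟩ := this
    exact ⟨k, _, inv_mem hk, by group⟩
  have e := hs f hf h1
  have a1 := cmem hy.1 hf
  have a2 := cmem hy.1 a1
  have b1 := (conj_zp_iff (x := f) hr).not.2 h1
  have b2 := (conj_zp_iff (x := y * f * y⁻¹) hr).not.2 b1
  have c1 : y * f * y⁻¹ ∉ zpowers f := fun h4 =>
    ((mem_zp e).1 h4).elim b1 fun h5 => h1 (hy.2 f hf h5)
  have c2 : y * (y * f * y⁻¹) * y⁻¹ ∉ zpowers f := fun h4 =>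
    ((mem_zp e).1 h4).elim b2 fun h5 => h1 (hy.2 f hf (by
      have h6 := inv_mem ((conj_zp_iff hr).2 h5)
      have h7 : y * (y * (y * f * y⁻¹) * y⁻¹ * f⁻¹) * y⁻¹ = y ^ 3 * f * (y ^ 3)⁻¹ * (y * f * y⁻¹)⁻¹ := by
        simp only [pow_succ, pow_zero]; group
      rw [h7, h3] at h6
      convert h6 using 1; group))
  by_cases d : x ∈ zpowers f
  · exact ⟨0, by simpa using ((mem_zp e).1 d).resolve_left h2⟩
  rcases (mem_zp e).1 (two_cos h h8 hf e hx a1 d c1) with d1 | d1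
  · exact ⟨1, by rwa [pow_one]⟩
  have d2 := ((mem_zp e).1 (two_cos h h8 hf e a2 a1 c2 c1)).resolve_left
    fun h4 => b1 (hy.2 _ a1 h4)
  refine ⟨2, ?_⟩
  convert mul_mem d1 (inv_mem d2) using 1
  rw [pow_two]; group

theorem exists_f [Finite G] (h : XS A r) (h8 : Nat.card A = 8)
    (hs : ∀ q ∈ A, q ∉ zpowers r → q * q = r) (hy : Fpf y A r) (hr : Commute y r) (h3 : y ^ 3 = 1)
    {t : G} (ht : t ∈ normalizer (A : Set G)) (htr : Commute t r) (h2 : t * t = 1)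
    (hi : t * y * t⁻¹ = y⁻¹) : ∃ f ∈ A, f * f = r ∧ t * f * t⁻¹ * f⁻¹ ∈ zpowers r ∧
      ∀ q ∈ A, t * q * t⁻¹ * q⁻¹ ∈ zpowers f := by
  have cr : ∀ a ∈ A, Commute a r := fun a ha => h.cen a ha
  obtain ⟨q, hq, h1⟩ : ∃ q ∈ A, t * q * t⁻¹ * q⁻¹ ∉ zpowers r := by
    by_contra! h1
    obtain ⟨a, ha, b, hb, hab⟩ := h.nonab
    have h4 : A ⊓ CZ r t = A := inf_eq_left.2 fun a ha => ⟨cr a ha, h1 a ha⟩
    have h5 := card_CZ h htr hr hy.1 h3 hi
    have h6 : Nat.card ↥(A ⊓ CZ r y) ≤ 2 :=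
      h.card_Z ▸ card_le_of_le fun a ha => hy.2 a ha.1 ha.2.2
    rw [h4, h8] at h5
    omega
  have hf := mul_mem (cmem ht hq) (inv_mem hq)
  have e := hs _ hf h1
  have i : t⁻¹ = t := inv_eq_of_mul_eq_one_right h2
  have h4 : t * (t * q * t⁻¹ * q⁻¹) * t⁻¹ = (t * q * t⁻¹ * q⁻¹)⁻¹ := by
    rw [show t * (t * q * t⁻¹ * q⁻¹) * t⁻¹ = t * t * q * (t * t)⁻¹ * (t * q⁻¹ * t⁻¹) by group, h2]
    group
  generalize hg : t * q * t⁻¹ * q⁻¹ = f at hf e h1 h4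
  have h5 : t * f * t⁻¹ * f⁻¹ ∈ zpowers r := by
    rw [h4, ← mul_inv_rev, e]; exact inv_mem (mem_zpowers r)
  have h6 : zpowers f ≤ CZ r t := zpowers_le.2 ⟨cr f hf, h5⟩
  have h7 : zpowers r ≤ zpowers f := fun x hx => (mem_zp e).2 (Or.inl hx)
  refine ⟨f, hf, e, h5, fun x hx => ?_⟩
  by_cases d : x ∈ zpowers f
  · exact h7 (h6 d).2
  have h9 := two_cos h h8 hf e hx hq d fun h9 => h1 (hg ▸ (h6 h9).2)
  have : t * x * t⁻¹ * x⁻¹ = t * (x * q⁻¹) * t⁻¹ * (x * q⁻¹)⁻¹ * ((x * q⁻¹) * f * (x * q⁻¹)⁻¹) := by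
    rw [← hg]; group
  rw [this]
  exact mul_mem (h7 (h6 h9).2) (mul_mem (mul_mem h9 (mem_zpowers f)) (inv_mem h9))

end Q8

/-- four commuting extraspecial groups -/
structure Q4 (A : Fin 4 → Subgroup G) (r : G) : Prop where
  xs : ∀ k, XS (A k) r
  comm : ∀ k l, k ≠ l → ∀ a ∈ A k, ∀ b ∈ A l, Commute a b

/-- the product of the components -/
def pr (q : Fin 4 → G) : G := q 0 * q 1 * q 2 * q 3

namespace Q4

variable {A : Fin 4 → Subgroup G} (h : Q4 A r) {q q' : Fin 4 → G}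
include h

theorem c2 : ∀ a ∈ A 0 ⊔ A 1, ∀ b ∈ A 2, Commute a b :=
  comm_sup (h.comm 0 2 (by decide)) (h.comm 1 2 (by decide))

theorem c3 : ∀ a ∈ A 0 ⊔ A 1 ⊔ A 2, ∀ b ∈ A 3, Commute a b :=
  comm_sup (comm_sup (h.comm 0 3 (by decide)) (h.comm 1 3 (by decide))) (h.comm 2 3 (by decide))

theorem exists_pr {e : G} (he : e ∈ A 0 ⊔ A 1 ⊔ A 2 ⊔ A 3) : ∃ q, (∀ k, q k ∈ A k) ∧ e = pr q := by
  obtain ⟨a, ha, e₄, h4, rfl⟩ := (mem_sup_comm h.c3).1 he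
  obtain ⟨a', ha', e₃, h3, rfl⟩ := (mem_sup_comm h.c2).1 ha
  obtain ⟨e₁, h1, e₂, h2, rfl⟩ := (mem_sup_comm (h.comm 0 1 (by decide))).1 ha'
  exact ⟨![e₁, e₂, e₃, e₄], fun k => by fin_cases k <;> assumption, rfl⟩

/-- The commutator with an element of one factor only sees that component. -/
theorem comm_iff (hq : ∀ k, q k ∈ A k) (k : Fin 4) {x : G} (hx : x ∈ A k) :
    Commute x (pr q) ↔ Commute x (q k) := by
  have c : ∀ l, k ≠ l → Commute x (q l) := fun l hl => h.comm k l hl x hx _ (hq l)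
  have a : ∀ {u v : G}, Commute x v → (Commute x (u * v) ↔ Commute x u) := fun {u v} hv =>
    ⟨fun h1 => by simpa using h1.mul_right hv.inv_right, fun h1 => h1.mul_right hv⟩
  have b : ∀ {u v : G}, Commute x u → (Commute x (u * v) ↔ Commute x v) := fun {u v} hu =>
    ⟨fun h1 => by simpa using hu.inv_right.mul_right h1, fun h1 => hu.mul_right h1⟩
  rw [pr]
  fin_cases k
  · rw [a (c 3 (by decide)), a (c 2 (by decide)), a (c 1 (by decide))]; rfl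
  · rw [a (c 3 (by decide)), a (c 2 (by decide)), b (c 0 (by decide))]; rfl
  · rw [a (c 3 (by decide)), b ((c 0 (by decide)).mul_right (c 1 (by decide)))]; rfl
  · rw [b (((c 0 (by decide)).mul_right (c 1 (by decide))).mul_right (c 2 (by decide)))]; rfl

theorem mem_Z_iff (hq : ∀ k, q k ∈ A k) (k : Fin 4) :
    q k ∈ zpowers r ↔ ∀ x ∈ A k, Commute x (pr q) := by
  refine ⟨fun h1 x hx => (h.comm_iff hq k hx).2 ?_,
    fun h1 => xs_cent (h.xs k) (hq k) fun x hx => ((h.comm_iff hq k hx).1 (h1 x hx)).symm⟩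
  obtain ⟨n, hn⟩ := h1
  exact hn ▸ Commute.zpow_right ((h.xs k).cen x hx) n

/-- An element acting trivially on the class of `pr q` acts trivially on the components. -/
theorem fix_comp (hq : ∀ k, q k ∈ A k) {y : G} (hy : ∀ k, y ∈ normalizer (A k : Set G))
    (h1 : y * pr q * y⁻¹ * (pr q)⁻¹ ∈ zpowers r) (k : Fin 4) :
    y * q k * y⁻¹ * (q k)⁻¹ ∈ zpowers r := by
  have h2 : ∀ k, y * q k * y⁻¹ ∈ A k := fun k => cmem (hy k) (hq k)
  refine xs_cent (h.xs k) (mul_mem (h2 k) (inv_mem (hq k))) fun x hx => Commute.symm ?_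
  obtain ⟨n, hn⟩ := h1
  have h3 : pr (fun k => y * q k * y⁻¹) = r ^ n * pr q := by
    rw [show r ^ n = _ from hn]; simp only [pr]; group
  have h4 := h.comm_iff h2 k hx
  have h5 : Commute x (r ^ n) := Commute.zpow_right ((h.xs k).cen x hx) n
  rw [h3, show Commute x (r ^ n * pr q) ↔ Commute x (pr q) from
    ⟨fun h1 => by simpa using h5.inv_right.mul_right h1, fun h1 => h5.mul_right h1⟩,
    h.comm_iff hq k hx] at h4
  by_cases h6 : Commute x (q k)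
  · exact (h4.1 h6).mul_right h6.inv_right
  · exact ((h.xs k).mul_comm_of_ne_of_ne (h2 k) (inv_mem (hq k)) hx
      (fun e => h6 (h4.2 (Eq.symm e))) fun e => h6 (Commute.inv_right_iff.1 (Eq.symm e))).symm

theorem pr_mem (hq : ∀ k, q k ∈ A k) {k l : Fin 4} (h1 : ∀ i, i ≠ k → i ≠ l → q i ∈ zpowers r) :
    pr q ∈ A k ⊔ A l := by
  have : ∀ i, q i ∈ A k ⊔ A l := fun i => by
    by_cases a : i = k
    · exact mem_sup_left (a ▸ hq i)
    by_cases b : i = l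
    · exact mem_sup_right (b ▸ hq i)
    · exact mem_sup_left ((h.xs k).Z_le (h1 i a b))
  exact mul_mem (mul_mem (mul_mem (this 0) (this 1)) (this 2)) (this 3)

theorem CZ_le {y : G} (hy : ∀ k, y ∈ normalizer (A k : Set G)) {k l : Fin 4}
    (h1 : ∀ i, i ≠ k → i ≠ l → Fpf y (A i) r) : (A 0 ⊔ A 1 ⊔ A 2 ⊔ A 3) ⊓ CZ r y ≤ A k ⊔ A l := by
  rintro e ⟨he, h2⟩
  obtain ⟨q, hq, rfl⟩ := h.exists_pr he
  exact h.pr_mem hq fun i a b => (h1 i a b).2 _ (hq i) (h.fix_comp hq hy h2.2 i)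

theorem CZ_le_Z {y : G} (h1 : ∀ i, Fpf y (A i) r) :
    (A 0 ⊔ A 1 ⊔ A 2 ⊔ A 3) ⊓ CZ r y ≤ zpowers r := by
  rintro e ⟨he, h2⟩
  obtain ⟨q, hq, rfl⟩ := h.exists_pr he
  have := fun i => (h1 i).2 _ (hq i) (h.fix_comp hq (fun k => (h1 k).1) h2.2 i)
  exact mul_mem (mul_mem (mul_mem (this 0) (this 1)) (this 2)) (this 3)

end Q4

end Cfsg.Agent.H29.O8M
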