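import Cfsg.Agent.H71.P3Defs
import Cfsg.Agent.S0801

/-!
# Subgroups of `SL₂(q)` with two different transvection groups contain `-1`
-/

set_option autoImplicit false

namespace Cfsg.Agent.H29.P3Neg

open Matrix Cfsg.Agent.H71.P3
open scoped MatrixGroups

variable {F : Type} [Field F]

theorem inv_eq (h2 : (2 : F) ≠ 0) {g : SL(2, F)} (h : g * g = 1) (h1 : g ≠ 1) : g = -1 := by
  have e : g.1 * g.1 = 1 := congrArg Subtype.val h
  have d : g.1 0 0 * g.1 1 1 - g.1 0 1 * g.1 1 0 = 1 := by rw [← det_fin_two]; exact g.2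
  have e00 := congrFun (congrFun e 0) 0
  have e01 := congrFun (congrFun e 0) 1
  have e10 := congrFun (congrFun e 1) 0
  simp only [mul_apply, Fin.sum_univ_two, one_apply_eq, ne_eq, zero_ne_one, one_ne_zero,
    not_false_eq_true, one_apply_ne] at e00 e01 e10
  have t : g.1 0 0 + g.1 1 1 ≠ 0 := fun t => h2 (by linear_combination g.1 0 0 * t - e00 - d)
  have b : g.1 0 1 = 0 := (mul_eq_zero.1 (by linear_combination e01)).resolve_left t
  have c : g.1 1 0 = 0 := (mul_eq_zero.1 (by linear_combination e10)).resolve_left t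
  rw [b] at e00 d
  have k : (g.1 0 0 - 1) * (g.1 0 0 + 1) = 0 := by linear_combination e00
  rcases mul_eq_zero.1 k with a | a
  · refine absurd (Subtype.ext ?_) h1
    have a' : g.1 0 0 = 1 := by linear_combination a
    have a2 : g.1 1 1 = 1 := by linear_combination d - g.1 1 1 * a
    change g.1 = (1 : Matrix (Fin 2) (Fin 2) F)
    ext i j
    fin_cases i <;> fin_cases j <;> simp [a', a2, b, c]
  · refine Subtype.ext ?_
    have a' : g.1 0 0 = -1 := by linear_combination a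
    have a2 : g.1 1 1 = -1 := by linear_combination g.1 1 1 * a - d
    change g.1 = -(1 : Matrix (Fin 2) (Fin 2) F)
    ext i j
    fin_cases i <;> fin_cases j <;> simp [a', a2, b, c]

theorem exists_cj {P Q : Matrix (Fin 2) (Fin 2) F} (h : Q * P = 1) :
    ∃ ψ : SL(2, F) →* SL(2, F), ψ (-1) = -1 ∧ ∀ x, (ψ x).1 = P * x.1 * Q := by
  have h' : P * Q = 1 := mul_eq_one_comm.1 h
  refine ⟨MonoidHom.mk' (fun x => ⟨P * x.1 * Q, by
    rw [det_mul, det_mul, x.2, mul_one, ← det_mul, h', det_one]⟩) fun x y => Subtype.ext ?_,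
    Subtype.ext ?_, fun _ => rfl⟩
  · change P * (x.1 * y.1) * Q = P * x.1 * Q * (P * y.1 * Q)
    calc _ = P * x.1 * (Q * P) * y.1 * Q := by rw [h]; simp only [Matrix.mul_assoc, Matrix.one_mul]
      _ = _ := by simp only [Matrix.mul_assoc]
  · change P * (-1) * Q = -1
    rw [Matrix.mul_neg, Matrix.mul_one, Matrix.neg_mul, h']

theorem stepA [Finite F] (h2 : (2 : F) ≠ 0) {H : Subgroup SL(2, F)} {a : F} (ha : a ≠ 0)
    {x y : SL(2, F)} (hx : x ∈ H) (hy : y ∈ H) (ex : x.1 = !![1, a; 0, 1])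
    (ey : y.1 = !![1, 0; 1, 1]) : -1 ∈ H := by
  let F0 := Subfield.closure ({a} : Set F)
  let a0 : F0 := ⟨a, Subfield.subset_closure rfl⟩
  have := Fintype.ofFinite F0
  have h20 : (2 : F0) ≠ 0 := fun e => h2 (congrArg Subtype.val e)
  have gen : Subfield.closure ({a0} : Set F0) = ⊤ := by
    refine eq_top_iff.2 fun z _ => ?_
    have : F0 ≤ (Subfield.closure ({a0} : Set F0)).map F0.subtype :=
      Subfield.closure_le.2 (by rintro _ rfl; exact ⟨a0, Subfield.subset_closure rfl, rfl⟩)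
    obtain ⟨w, hw, e⟩ := this z.2
    rwa [← show w = z from Subtype.ext e]
  let ψ : SL(2, F0) →* SL(2, F) := SpecialLinearGroup.map F0.subtype
  have le : Subgroup.closure {g : SL(2, F0) | (g : Matrix (Fin 2) (Fin 2) F0) = !![1, 0; 1, 1] ∨
      (g : Matrix (Fin 2) (Fin 2) F0) = !![1, a0; 0, 1]} ≤ H.comap ψ := by
    refine (Subgroup.closure_le _).2 fun g hg => ?_
    have e0 : (ψ g).1 = g.1.map F0.subtype := rfl
    rcases hg with e | e
    · have : ψ g = y := Subtype.ext (by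
        rw [e0, ey, e]; ext i j; fin_cases i <;> fin_cases j <;> rfl)
      exact (this ▸ hy : ψ g ∈ H)
    · have : ψ g = x := Subtype.ext (by
        rw [e0, ex, e]; ext i j; fin_cases i <;> fin_cases j <;> rfl)
      exact (this ▸ hx : ψ g ∈ H)
  have e1 : ψ (-1) = -1 := Subtype.ext (by
    change (-1 : Matrix (Fin 2) (Fin 2) F0).map F0.subtype = -1
    ext i j; fin_cases i <;> fin_cases j <;> simp)
  rw [← e1]
  refine le ?_
  rcases S0801.result h20 a0 (fun e => ha (congrArg Subtype.val e)) gen with ⟨e, -⟩ | ⟨-, -, e⟩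
  · rw [e]; trivial
  · haveI : Fact (Nat.Prime 2) := ⟨Nat.prime_two⟩
    obtain ⟨s, hs⟩ := exists_prime_orderOf_dvd_card' 2 (e ▸ (by norm_num : 2 ∣ 120))
    rw [← Subgroup.orderOf_coe] at hs
    rw [← inv_eq h20 (g := s) (by have := pow_orderOf_eq_one (s : SL(2, F0)); rwa [hs, pow_two] at this)
      (fun e => by simp [e] at hs)]
    exact s.2

theorem stepB [Finite F] (h2 : (2 : F) ≠ 0) {H : Subgroup SL(2, F)} {a b : F} (ha : a ≠ 0)
    (hb : b ≠ 0) {x y : SL(2, F)} (hx : x ∈ H) (hy : y ∈ H) (ex : x.1 = !![1, a; 0, 1])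
    (ey : y.1 = !![1, 0; b, 1]) : -1 ∈ H := by
  obtain ⟨ψ, e1, hψ⟩ := exists_cj (P := !![b⁻¹, 0; 0, 1]) (Q := !![b, 0; 0, 1]) (by
    ext i j; fin_cases i <;> fin_cases j <;> simp [hb])
  rw [← e1]
  refine stepA (H := H.comap ψ) h2 (mul_ne_zero ha hb) (x := ⟨_, by simp [det_fin_two]⟩)
    (y := ⟨_, by simp [det_fin_two]⟩) ?_ ?_ rfl rfl
  · have : ψ ⟨!![1, a * b; 0, 1], by simp [det_fin_two]⟩ = x := Subtype.ext (by
      refine (hψ _).trans ?_
      rw [ex]; ext i j; fin_cases i <;> fin_cases j <;> simp [hb]; field_simp)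
    exact (this ▸ hx : ψ _ ∈ H)
  · have : ψ ⟨!![1, 0; 1, 1], by simp [det_fin_two]⟩ = y := Subtype.ext (by
      refine (hψ _).trans ?_
      rw [ey]; ext i j; fin_cases i <;> fin_cases j <;> simp [hb])
    exact (this ▸ hy : ψ _ ∈ H)

theorem stepC [Finite F] (h2 : (2 : F) ≠ 0) {H : Subgroup SL(2, F)} {g h : SL(2, F)} (hg : g ∈ H)
    (hh : h ∈ H) {u v : Fin 2 → F} (g1 : g ≠ 1) (h1 : h ≠ 1) (u0 : u ≠ 0) (uv : v ∉ F ∙ u)
    (gu : g.1 *ᵥ u = u) (hv : h.1 *ᵥ v = v) : -1 ∈ H := by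
  let P : Matrix (Fin 2) (Fin 2) F := !![u 0, v 0; u 1, v 1]
  have dP : P.det ≠ 0 := fun e => uv (by
    rw [det_fin_two_of] at e
    refine Submodule.mem_span_singleton.2 ?_
    by_cases a : u 0 = 0
    · have b : u 1 ≠ 0 := fun b => u0 (by ext i; fin_cases i <;> simp [a, b])
      refine ⟨v 1 / u 1, funext fun i => ?_⟩
      fin_cases i
      · simp only [a, zero_mul, zero_sub, neg_eq_zero, mul_eq_zero, b, or_false] at e
        simp [a, e]
      · simp [b]
    · refine ⟨v 0 / u 0, funext fun i => ?_⟩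
      fin_cases i
      · simp [a]
      · simp only [Fin.mk_one, Pi.smul_apply, smul_eq_mul]
        field_simp
        linear_combination -e)
  have i1 : P⁻¹ * P = 1 := nonsing_inv_mul P (Ne.isUnit dP)
  have i2 : P * P⁻¹ = 1 := mul_nonsing_inv P (Ne.isUnit dP)
  obtain ⟨ψ, e1, hψ⟩ := exists_cj i1
  obtain ⟨θ, -, hθ⟩ := exists_cj i2
  have ψθ : ∀ x, ψ (θ x) = x := fun x => Subtype.ext (by
    rw [hψ, hθ]
    calc _ = P * P⁻¹ * x.1 * (P * P⁻¹) := by simp only [Matrix.mul_assoc]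
      _ = _ := by rw [i2, Matrix.one_mul, Matrix.mul_one])
  have col : ∀ (x : SL(2, F)) (j : Fin 2), x.1 *ᵥ (P *ᵥ Pi.single j 1) = P *ᵥ Pi.single j 1 →
      ∀ i, (θ x).1 i j = (1 : Matrix (Fin 2) (Fin 2) F) i j := fun x j e i => by
    have : (θ x).1 *ᵥ Pi.single j 1 = (1 : Matrix (Fin 2) (Fin 2) F) *ᵥ Pi.single j 1 := by
      rw [hθ, ← mulVec_mulVec, ← mulVec_mulVec, e, mulVec_mulVec, i1]
    simpa using congrFun this i
  have pu : P *ᵥ Pi.single 0 1 = u := by ext i; fin_cases i <;> simp [P]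
  have pv : P *ᵥ Pi.single 1 1 = v := by ext i; fin_cases i <;> simp [P]
  have c0 := col g 0 (by rw [pu, gu])
  have c1 := col h 1 (by rw [pv, hv])
  have d0 := (θ g).2
  have d1 := (θ h).2
  rw [det_fin_two, c0 0, c0 1] at d0
  rw [det_fin_two, c1 0, c1 1] at d1
  have ex : (θ g).1 = !![1, (θ g).1 0 1; 0, 1] := by
    ext i j; fin_cases i <;> fin_cases j
    · simpa using c0 0
    · rfl
    · simpa using c0 1
    · simpa using d0
  have ey : (θ h).1 = !![1, 0; (θ h).1 1 0, 1] := by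
    ext i j; fin_cases i <;> fin_cases j
    · simpa using d1
    · simpa using c1 0
    · rfl
    · simpa using c1 1
  rw [← e1]
  refine stepB (H := H.comap ψ) h2 (fun e => g1 ?_) (fun e => h1 ?_)
    (show ψ (θ g) ∈ H by rwa [ψθ]) (show ψ (θ h) ∈ H by rwa [ψθ]) ex ey
  · rw [← ψθ g, show θ g = 1 from Subtype.ext (by rw [ex, e]; exact one_fin_two.symm), map_one]
  · rw [← ψθ h, show θ h = 1 from Subtype.ext (by rw [ey, e]; exact one_fin_two.symm), map_one]

theorem neg : NegStmt := by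
  intro F _ _ ho H
  have := Fintype.ofFinite F
  have h2 : (2 : F) ≠ 0 := fun h => by
    have h1 := H27.two_eq_zero_iff_even_card.1 h
    rw [← Nat.card_eq_fintype_card] at h1
    exact (Nat.not_even_iff_odd.2 ho) h1
  refine ⟨fun g hg h hh u v g1 h1 u0 _ uv gu hv => stepC h2 hg hh g1 h1 u0 uv gu hv, ?_⟩
  by_cases hp : ringChar F ∣ Nat.card H
  swap
  · exact Or.inr (Or.inl hp)
  haveI : Fact (ringChar F).Prime := ⟨CharP.char_is_prime F _⟩
  obtain ⟨s, hs⟩ := exists_prime_orderOf_dvd_card' _ hp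
  rw [← Subgroup.orderOf_coe] at hs
  have s1 : (s : SL(2, F)) ≠ 1 := fun e => (CharP.char_is_prime F (ringChar F)).one_lt.ne
    (by rw [← hs, e, orderOf_one])
  have e1 : (s : SL(2, F)).1 ^ ringChar F = 1 := by
    have := congrArg Subtype.val (pow_orderOf_eq_one (s : SL(2, F)))
    rw [hs] at this
    exact (Matrix.SpecialLinearGroup.coe_pow (s : SL(2, F)) (ringChar F)).symm.trans this
  have e2 : ((s : SL(2, F)).1 - 1) ^ ringChar F = 0 := by
    rw [sub_pow_char_of_commute _ (Commute.one_right _), e1, one_pow, sub_self]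
  have e3 : ((s : SL(2, F)).1 - 1).det = 0 := by
    have := congrArg det e2
    rw [det_pow, det_zero] at this
    exact pow_eq_zero_iff (CharP.char_is_prime F (ringChar F)).ne_zero |>.1 this
  obtain ⟨u, u0, hu⟩ := exists_mulVec_eq_zero_iff.2 e3
  rw [sub_mulVec, one_mulVec, sub_eq_zero] at hu
  by_cases k : ∀ h ∈ H, (h : SL(2, F)).1 *ᵥ u ∈ F ∙ u
  · refine Or.inr (Or.inr ⟨u, u0, fun h hh => ?_⟩)
    obtain ⟨c, e⟩ := Submodule.mem_span_singleton.1 (k h hh)
    exact ⟨c, e.symm⟩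
  · push Not at k
    obtain ⟨h, hh, k⟩ := k
    refine Or.inl (stepC h2 s.2 (mul_mem (mul_mem hh s.2) (inv_mem hh)) s1
      (fun e => s1 (by simpa using e)) u0 k hu ?_)
    have e4 : (h * s * h⁻¹).1 * h.1 = h.1 * (s : SL(2, F)).1 :=
      congrArg Subtype.val (inv_mul_cancel_right (h * s) h)
    rw [mulVec_mulVec, e4, ← mulVec_mulVec, hu]

end Cfsg.Agent.H29.P3Neg
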