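import Mathlib
import Cfsg.Agent.H29.A5Conj

/-!
Normalisers of subgroups of `PSL₂(13)` and `SL₂(13)`.
-/

set_option autoImplicit false

namespace Cfsg.Agent.H29

open scoped MatrixGroups LinearAlgebra.Projectivization
open Matrix MulAction

variable {F : Type*} [Field F] [Finite F] {H : Subgroup PGL(2, F)}

omit [Finite F] in
lemma le_split_torus_of_le_stab {x : P1 F} (hx : H ≤ stabilizer PGL(2, F) x) (h1 : H ≠ ⊥)
    (hu : ∀ u ∈ H, u ∈ uni x → u = 1) :
    ∃ T D : Subgroup PGL(2, F), IsSplitTorus T D ∧ H ≤ T := by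
  obtain ⟨⟨t, ht⟩, ht1⟩ := Subgroup.ne_bot_iff_exists_ne_one.1 h1
  have ht1 : t ≠ 1 := fun h' => ht1 (Subtype.ext h')
  obtain ⟨-, y, hy, hty⟩ := exists_fix_of_not_mem_uni (hx ht) fun h => ht1 (hu t ht h)
  obtain ⟨T, D, hT, h2, -⟩ := exists_isSplitTorus hy.symm
  refine ⟨T, D, hT, fun g hg => (h2 g).2 ⟨hx hg, ?_⟩⟩
  have hc := hu _ (mul_mem (mul_mem (mul_mem hg ht) (inv_mem hg)) (inv_mem ht))
    (commutator_mem_uni (hx hg) (hx ht))
  rw [mul_inv_eq_one, mul_inv_eq_iff_eq_mul] at hc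
  refine (fix_eq_or_eq ht1 hy.symm (hx ht) hty (z := g • y) ?_).resolve_left fun h => hy ?_
  · rw [← mul_smul, ← hc, mul_smul, hty]
  · have : g • x = x := hx hg
    rw [← this] at h
    exact smul_left_cancel _ h

omit [Finite F] in
lemma stab_le_normalizer_of_uni_le {x : P1 F} (hx : H ≤ stabilizer PGL(2, F) x) (hU : uni x ≤ H) :
    stabilizer PGL(2, F) x ≤ Subgroup.normalizer (H : Set PGL(2, F)) := by
  have key : ∀ g ∈ stabilizer PGL(2, F) x, ∀ h ∈ H, g * h * g⁻¹ ∈ H := fun g hg h hh => by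
    simpa using mul_mem (hU (commutator_mem_uni hg (hx hh))) hh
  intro g hg
  rw [Subgroup.mem_normalizer_iff]
  exact fun h => ⟨key g hg h, fun hh => by simpa [mul_assoc] using key g⁻¹ (inv_mem hg) _ hh⟩

omit [Finite F] in
lemma normalizer_inf_L_ne (h4 : 4 ≤ Nat.card F) (hL : H ≤ Lsub F) (h1 : H ≠ ⊥) (h2 : H ≠ Lsub F) :
    Subgroup.normalizer (H : Set PGL(2, F)) ⊓ Lsub F ≠ Lsub F := by
  intro h
  have := ProjectiveSpecialLinearGroup.rank_two_simple h4
  have hn : (H.comap pslp).Normal := ⟨fun x hx g => by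
    rw [Subgroup.mem_comap, map_mul, map_mul, map_inv]
    exact (Subgroup.mem_normalizer_iff.1 ((inf_eq_right.1 h) (pslp_mem_L g)) _).1 hx⟩
  rcases hn.eq_bot_or_eq_top with h' | h'
  · exact h1 (by rw [← map_comap_pslp hL, h', Subgroup.map_bot])
  · exact h2 (by rw [← map_comap_pslp hL, h', ← MonoidHom.range_eq_map, range_pslp])

theorem normalizer_covBy_thirteen (hq : Nat.card F = 13) (hL : H ≤ Lsub F) (h1 : H ≠ ⊥)
    (h2 : H ≠ Lsub F) : Subgroup.normalizer (H : Set PGL(2, F)) ⊓ Lsub F ⋖ Lsub F := by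
  have := finite_PGL2 (F := F)
  have : Fact (Nat.Prime 13) := ⟨by norm_num⟩
  have : CharP F 13 := charP_of_dvd_card F 13 (by rw [hq])
  have ho : Odd (Nat.card F) := by rw [hq]; decide
  suffices ∃ M, M ⋖ Lsub F ∧ M ≤ Subgroup.normalizer (H : Set PGL(2, F)) by
    obtain ⟨M, hM, hN⟩ := this
    rwa [← eq_of_covBy hM (le_inf hN hM.le) inf_le_right
      (normalizer_inf_L_ne (by omega) hL h1 h2)]
  have hD : ∀ T D : Subgroup PGL(2, F), IsTorus T D → D ⊓ Lsub F ⋖ Lsub F := by
    rintro T D (h | h)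
    · exact h.covBy (by omega) (by omega) (by omega) (by omega) (by omega)
    · exact h.covBy (by omega) (by omega) (by omega)
  have hT : ∀ T D : Subgroup PGL(2, F), IsTorus T D → H ≤ T →
      ∃ M, M ⋖ Lsub F ∧ M ≤ Subgroup.normalizer (H : Set PGL(2, F)) := fun T D h h' =>
    ⟨_, hD T D h, by rw [h.normalizer_eq h' h1]; exact inf_le_left⟩
  have hA : ∀ M : Subgroup PGL(2, F), Nonempty (M ≃* A4) → M ⋖ Lsub F := fun M ⟨e⟩ =>
    A4_covBy (by rw [hq]; norm_num) (by omega) (by omega) (by omega) e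
  rcases dickson 13 H with ⟨x, hx⟩ | ⟨T, D, h, hT1, hD'⟩ | ⟨-, e | ⟨⟨e⟩⟩ | ⟨⟨e⟩⟩⟩ | ⟨h, -⟩ |
    ⟨c, k, -, hk⟩
  · by_cases hu : ∀ u ∈ H, u ∈ uni x → u = 1
    · obtain ⟨T, D, h, h'⟩ := le_split_torus_of_le_stab hx h1 hu
      exact hT T D (Or.inl h) h'
    · push Not at hu
      obtain ⟨u, hu, hux, hu1⟩ := hu
      refine ⟨_, stab_inf_L_covBy x, inf_le_left.trans (stab_le_normalizer_of_uni_le hx ?_)⟩
      have : Subgroup.zpowers u = uni x := Subgroup.eq_of_le_of_card_ge (Subgroup.zpowers_le.2 hux)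
        (by rw [card_uni, hq, Nat.card_zpowers,
          orderOf_eq_prime (pow_char_eq_one_of_mem_uni 13 hux) hu1])
      rw [← this]
      exact Subgroup.zpowers_le.2 hu
  · by_cases hHT : H ≤ T
    · exact hT T D h hHT
    have c1 := (h.dihedral_of_le hD' hHT).2
    have c2 := h.dihedral_inf_L.2
    have c3 := h.card_inf_L
    have c4 := h.card
    have c5 : Nat.card ↥(H ⊓ T) ∣ Nat.card ↥(T ⊓ Lsub F) :=
      Subgroup.card_dvd_of_le (le_inf inf_le_right (inf_le_left.trans hL))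
    have c6 : Nat.card ↥(H ⊓ T) ≠ 1 := fun h' => hT1 (Subgroup.card_eq_one.1 h')
    rw [gcd_two_of_odd ho] at c3
    have hle : H ≤ D ⊓ Lsub F := le_inf hD' hL
    by_cases c7 : Nat.card ↥(H ⊓ T) = 2
    · obtain ⟨e⟩ := (h.dihedral_of_le hD' hHT).1
      rw [c7] at e
      obtain ⟨a, b, hab, rfl⟩ := exists_kpair_of_isKleinFour H (isKleinFour_congr e.symm
        inferInstance)
      obtain ⟨ha, hb⟩ := klein_le_iff.1 hL
      refine ⟨_, hA _ (hab.A4_of_card ho inf_le_left (hab.card_normalizer_inf_L ho ha hb ?_)),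
        inf_le_left⟩
      rw [hab.normalizer_le_L_iff ho ha hb]; omega
    refine ⟨_, hD T D h, (Subgroup.normal_subgroupOf_iff_le_normalizer hle).1 ?_⟩
    have c8 := (H.subgroupOf (D ⊓ Lsub F)).card_mul_index
    rw [Nat.card_congr (Subgroup.subgroupOfEquivOfLe hle).toEquiv, c1, c2] at c8
    obtain ⟨m, hm⟩ := c5
    have c9 : (H.subgroupOf (D ⊓ Lsub F)).index = m := by
      rw [hm, mul_assoc] at c8
      exact Nat.eq_of_mul_eq_mul_left Nat.card_pos (Nat.eq_of_mul_eq_mul_left two_pos c8)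
    have : m = 1 ∨ m = 2 := by
      generalize Nat.card ↥(H ⊓ T) = a at hm c6 c7
      have h67 : a * m = 6 ∨ a * m = 7 := by omega
      have : a ≤ 7 := Nat.le_of_dvd (by omega) ⟨m, rfl⟩ |>.trans (by omega : a * m ≤ 7)
      interval_cases a <;> omega
    rcases this with rfl | rfl
    · rw [Subgroup.index_eq_one.1 c9]; infer_instance
    · exact Subgroup.normal_of_index_eq_two c9
  · exact ⟨H, hA H e, Subgroup.le_normalizer⟩
  · have := mod_eight_of_S4 ho e hL; omega
  · have := mod_five_of_A5 e; omega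
  · omega
  · rw [subfield_eq_top_of_prime (by rw [hq]; norm_num) k] at hk
    exact absurd (le_antisymm hL (L_le_of_conj_eq_top hk)) h2

lemma isCoatom_comap_of_covBy {G G' : Type*} [Group G] [Group G'] (φ : G →* G') {M : Subgroup G'}
    (h : M ⋖ φ.range) : IsCoatom (M.comap φ) := by
  have := Subgroup.isCoatom_comap_of_surjective φ.rangeRestrict_surjective
    ((isCoatom_subgroupOf_iff h.le).2 h)
  exact this

lemma comap_inf_range {G G' : Type*} [Group G] [Group G'] (φ : G →* G') (M : Subgroup G') :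
    (M ⊓ φ.range).comap φ = M.comap φ := by
  ext; simp

theorem psl_thirteen (hq : Nat.card F = 13) (H : Subgroup PSL(2, F)) (hH : ¬ H.Normal) :
    IsCoatom (Subgroup.normalizer (H : Set PSL(2, F))) := by
  have h := normalizer_covBy_thirteen hq (map_pslp_le_L H)
    (fun h => hH (by rw [(Subgroup.map_eq_bot_iff_of_injective _ pslp_injective).1 h]
                     infer_instance))
    (fun h => hH (by
      rw [← range_pslp, MonoidHom.range_eq_map, map_pslp_inj] at h; rw [h]; infer_instance))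
  rw [← range_pslp] at h
  have := isCoatom_comap_of_covBy _ h
  rwa [comap_inf_range, Subgroup.comap_normalizer_eq_of_le_range
    (Subgroup.map_le_range _ _), Subgroup.comap_map_eq_self_of_injective pslp_injective] at this

lemma normalizer_SL (h2 : (2 : F) ≠ 0) (H : Subgroup SL(2, F)) :
    Subgroup.normalizer (H : Set SL(2, F)) =
      (Subgroup.normalizer (H.map slp : Set PGL(2, F))).comap slp := by
  by_cases h1 : (-1 : SL(2, F)) ∈ H
  · rw [Subgroup.comap_normalizer_eq_of_le_range (Subgroup.map_le_range _ _), comap_map_slp h1]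
  refine le_antisymm (Subgroup.map_le_iff_le_comap.1 (Subgroup.le_normalizer_map _)) ?_
  have key : ∀ g ∈ (Subgroup.normalizer (H.map slp : Set PGL(2, F))).comap slp, ∀ h ∈ H,
      g * h * g⁻¹ ∈ H := fun g hg h hh => by
    obtain ⟨k, hk, e⟩ := (Subgroup.mem_normalizer_iff.1 hg (slp h)).1 ⟨h, hh, rfl⟩
    rw [← map_inv, ← map_mul, ← map_mul, slp_eq_slp_iff] at e
    rcases e with e | e
    · exact e ▸ hk
    exfalso
    have ho : Odd (Nat.card H) := by
      by_contra he
      obtain ⟨t, ht, ht'⟩ := exists_mem_orderOf_eq_prime H Nat.prime_two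
        (Nat.not_odd_iff_even.1 he).two_dvd
      have ht2 : t * t = 1 := by have := pow_orderOf_eq_one t; rwa [ht', sq] at this
      rcases SL2_mul_self_eq_one ht2 h2 with rfl | rfl
      · simp at ht'
      · exact h1 ht
    have a1 : k ^ Nat.card H = 1 := orderOf_dvd_iff_pow_eq_one.1 (H.orderOf_dvd_natCard hk)
    have a2 : h ^ Nat.card H = 1 := orderOf_dvd_iff_pow_eq_one.1 (H.orderOf_dvd_natCard hh)
    rw [e, ho.neg_pow, conj_pow, a2, mul_one, mul_inv_cancel] at a1
    exact h1 (by rw [a1]; exact one_mem H)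
  intro g hg
  rw [Subgroup.mem_normalizer_iff]
  exact fun h => ⟨key g hg h, fun hh => by simpa [mul_assoc] using key g⁻¹ (inv_mem hg) _ hh⟩

theorem sl_thirteen (hq : Nat.card F = 13) (H : Subgroup SL(2, F)) (hH : ¬ H.Normal) :
    IsCoatom (Subgroup.normalizer (H : Set SL(2, F))) := by
  have h2 : (2 : F) ≠ 0 := odd_card_iff.1 (by rw [hq]; decide)
  have h := normalizer_covBy_thirteen hq (Subgroup.map_le_range slp H)
    (fun h => hH (by
      rw [← Subgroup.normalizer_eq_top_iff, normalizer_SL h2, h, Subgroup.normalizer_eq_top,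
        Subgroup.comap_top]))
    (fun h => hH (by rw [eq_top_of_L_le_map h.ge]; infer_instance))
  have := isCoatom_comap_of_covBy _ h
  rwa [comap_inf_range, ← normalizer_SL h2] at this

lemma normalizer_prod_coprime {K S : Type*} [Group K] [CommGroup S] [Finite K] [Finite S]
    (hKS : (Nat.card K).Coprime (Nat.card S)) (H : Subgroup (K × S)) :
    Subgroup.normalizer (H : Set (K × S)) =
      (Subgroup.normalizer (H.comap (MonoidHom.inl K S) : Set K)).comap (MonoidHom.fst K S) := by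
  have h1 : ∀ k s, (k, s) ∈ H → (k, 1) ∈ H := fun k s h => by
    obtain ⟨m, hm⟩ := exists_pow_eq_self_of_coprime (x := k) (n := Nat.card S)
      (hKS.symm.coprime_dvd_right (orderOf_dvd_natCard k))
    have := pow_mem (pow_mem h (Nat.card S)) m
    simpa [hm] using this
  have h2 : ∀ k s, (k, s) ∈ H ↔ (k, 1) ∈ H ∧ (1, s) ∈ H := fun k s =>
    ⟨fun h => ⟨h1 k s h, by simpa using mul_mem (inv_mem (h1 k s h)) h⟩,
      fun h => by simpa using mul_mem h.1 h.2⟩
  ext ⟨g, t⟩
  simp only [Subgroup.mem_comap, Subgroup.mem_normalizer_iff, MonoidHom.coe_fst,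
    MonoidHom.inl_apply, Prod.forall, Prod.inv_mk, Prod.mk_mul_mk, mul_inv_cancel_comm]
  exact ⟨fun h k => h k 1, fun h k s => by rw [h2, h2 (g * k * g⁻¹), h]⟩

end Cfsg.Agent.H29
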