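import Cfsg.Agent.H29.PwT1

/-!
Project PW, pieces R and DICH.
-/

set_option autoImplicit false
open Equiv

namespace Cfsg.Agent.H29.Pw

open Cfsg.Agent.H87.PW

variable {ι α : Type} [Fintype ι] [DecidableEq ι] [Fintype α] [DecidableEq α]

/-- the permutations preserving all lines of direction `i` -/
def lines (α : Type) (i : ι) : Subgroup (Perm (ι → α)) where
  carrier := {g | ∀ x, res i (g x) = res i x}
  one_mem' := fun _ => rfl
  mul_mem' := fun {a b} ha hb x => by rw [Perm.mul_apply, ha, hb]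
  inv_mem' := fun {a} ha x => by rw [← ha, app_inv]

omit [Fintype ι] [Fintype α] [DecidableEq α] in
theorem lines_conj {i : ι} {g : Perm (ι → α)} (hg : g ∈ lines α i) (j : ι) (β : Perm α) :
    co j β * g * (co j β)⁻¹ ∈ lines α i := by
  intro x
  rw [res_eq_iff]
  intro l hl
  have h1 := (res_eq_iff _ _ _).1 (hg ((co j β)⁻¹ x)) l hl
  rw [Perm.mul_apply, Perm.mul_apply]
  by_cases h : l = j
  · subst h
    rw [co_self, h1, ← co_self l, app_inv]
  · rw [co_ne h, h1, ← co_ne h β ((co j β)⁻¹ x), app_inv]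

omit [Fintype ι] [Fintype α] [DecidableEq α] in
theorem lines_fix {i j : ι} {g : Perm (ι → α)} (hg : g ∈ lines α i) (hj : j ≠ i) {β : Perm α}
    {z : ι → α} (hz : β (z j) = z j) : (g⁻¹ * (co j β * g * (co j β)⁻¹)) z = z := by
  rw [Perm.mul_apply, Perm.mul_apply, Perm.mul_apply,
    Perm.inv_eq_iff_eq.2 ((co_fix_iff j β z).2 hz).symm, (co_fix_iff _ _ _).2, inv_app]
  rw [(res_eq_iff _ _ _).1 (hg z) j hj, hz]

omit [Fintype ι] [DecidableEq α] in
/-- a permutation preserving the lines and the hyperplanes of direction `i` -/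
theorem eq_co {i : ι} {g : Perm (ι → α)} (hg : g ∈ lines α i)
    (h : ∀ x y : ι → α, x i = y i → g x i = g y i) : ∃ τ : Perm α, g = co i τ := by
  have hinj : Function.Injective fun a : α => g (fun _ => a) i := by
    intro a b e
    have h1 : g (Function.update (fun _ => a) i b) = g fun _ => a := by
      refine ext_res (i := i) ((h _ (fun _ => b) (Function.update_self _ _ _)).trans e.symm) ?_
      rw [hg, hg, res_eq_iff]
      exact fun j hj => Function.update_of_ne hj _ _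
    have h2 := congrFun (g.injective h1) i
    rw [Function.update_self] at h2
    exact h2.symm
  refine ⟨Equiv.ofBijective _ (Finite.injective_iff_bijective.1 hinj), Perm.ext fun x => ?_⟩
  refine ext_res (i := i) ?_ (by rw [hg, res_co])
  rw [co_self]
  exact h _ _ rfl

/-- **R.** -/
theorem r (h1 : T1Stmt) : RStmt := by
  intro ι α _ _ _ _ H C g hg i hl
  refine eq_co hl fun x₀ y₀ hxy => ?_
  refine (conn (fun y => g y i = g x₀ i) {j | j ≠ i} (fun x hx j hj q => ?_) rfl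
    fun l hl => by rw [show l = i from not_not.1 hl, hxy]).symm
  rw [← hx]
  by_contra hne
  have hj : j ≠ i := hj
  have hpq : x j ≠ q := by
    rintro rfl
    exact hne (by rw [Function.update_eq_self])
  obtain ⟨r, hr1, hr2, -⟩ := exists_new C.hm (x j) q q q
  obtain ⟨s, hs1, hs2, hs3, -⟩ := exists_new C.hm (x j) q r r
  obtain ⟨t, ht1, ht2, ht3, ht4⟩ := exists_new C.hm (x j) q r s
  have hv := C.hyp.co_mem j _ (c3_sign hpq hr1.symm)
  have hv' := C.hyp.co_mem j _ (c3_sign hs2.symm ht2.symm)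
  have hl : g ∈ lines α i := hl
  have a1 := H.mul_mem (H.inv_mem hg) (H.mul_mem (H.mul_mem hv hg) (H.inv_mem hv))
  have a2 := (lines α i).mul_mem ((lines α i).inv_mem hl) (lines_conj hl j (c3 (x j) q r))
  have a3 : ∀ z : ι → α, z j ≠ x j → z j ≠ q → z j ≠ r →
      (g⁻¹ * (co j (c3 (x j) q r) * g * (co j (c3 (x j) q r))⁻¹)) z = z :=
    fun z h1 h2 h3 => lines_fix hl hj (c3_of_ne h1 h2 h3)
  have a4 : (g⁻¹ * (co j (c3 (x j) q r) * g * (co j (c3 (x j) q r))⁻¹)) (Function.update x j q) ≠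
      Function.update x j q := by
    intro e
    have h2 : co j (c3 (x j) q r) x = Function.update x j q := by
      rw [co_apply, c3_1 hpq hr2.symm]
    rw [Perm.mul_apply, Perm.inv_eq_iff_eq, Perm.mul_apply, Perm.mul_apply,
      Perm.inv_eq_iff_eq.2 h2.symm] at e
    exact hne (by rw [← e, co_ne hj.symm])
  generalize g⁻¹ * (co j (c3 (x j) q r) * g * (co j (c3 (x j) q r))⁻¹) = k at a1 a2 a3 a4
  have b1 := H.mul_mem (H.inv_mem a1) (H.mul_mem (H.mul_mem hv' a1) (H.inv_mem hv'))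
  have b2 := (lines α i).mul_mem ((lines α i).inv_mem a2) (lines_conj a2 j (c3 q s t))
  have b0 : ∀ z : ι → α, ∀ c, c3 q s t c = z j → c ≠ x j → c ≠ q → c ≠ r →
      (co j (c3 q s t) * k * (co j (c3 q s t))⁻¹) z = z := by
    intro z c hc h1 h2 h3
    have h4 : (co j (c3 q s t))⁻¹ z j = c := by
      apply (c3 q s t).injective
      rw [← co_self j, app_inv, hc]
    rw [Perm.mul_apply, Perm.mul_apply, a3 _ (h4 ▸ h1) (h4 ▸ h2) (h4 ▸ h3), app_inv]
  have b3 := h1 ι α H C _ b1 j q s (fun z h1 h2 => by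
    by_cases h3 : z j = t
    · rw [Perm.mul_apply, b0 z s (by rw [c3_2, h3]) hs1 hs2 hs3, Perm.inv_eq_iff_eq,
        a3 z (h3 ▸ ht1) h1 (h3 ▸ ht3)]
    · exact lines_fix a2 hj (c3_of_ne h1 h2 h3)) (Function.update x j q)
  have b4 := ext_res ((res_eq_iff _ _ _).1 (b2 (Function.update x j q)) j hj) b3
  rw [Perm.mul_apply, b0 _ t (by rw [c3_3 ht2.symm ht4.symm, Function.update_self]) ht1 ht2 ht3,
    Perm.inv_eq_iff_eq] at b4
  exact a4 b4.symm

/-- an element of `H` mapping a given hyperplane to another given hyperplane -/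
theorem exists_move {H : Subgroup (Perm (ι → α))} (C : Ctx H) (i j : ι) (a b : α) :
    ∃ v ∈ H, InW v ∧ ∃ ρ : Perm α, ρ a = b ∧ ∀ x : ι → α, v x j = ρ (x i) := by
  obtain ⟨τ, hτ⟩ := C.hyp.top (swap i j)
  obtain ⟨σ, hσ, e⟩ := exists_even1 C.hm (τ j a) b
  refine ⟨co j σ * wr (swap i j) τ, H.mul_mem (C.hyp.co_mem j σ hσ) hτ,
    (W ι α).mul_mem (co_mem_W _ _) (wr_mem_W _ _), σ * τ j, e, fun x => ?_⟩
  rw [Perm.mul_apply, co_self, wr_apply, symm_swap, swap_apply_right, Perm.mul_apply]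

/-- **DICH.** -/
theorem dich (hp : PrimStmt) (hr : RStmt) : DichStmt := by
  intro ι α _ _ _ _ H C
  have key : ∀ (i : ι) (a : α), (∀ x y : ι → α, x i ≠ a → y i ≠ a → orb (sup H i {a}ᶜ) x y) ∨
      ∀ g ∈ H, (∀ z : ι → α, z i = a → g z = z) → ∃ τ : Perm α, g = co i τ := by
    intro i a
    obtain ⟨c, hc, -⟩ := exists_new C.hm a a a a
    obtain ⟨d, hd1, hd2, -⟩ := exists_new C.hm a c c c
    obtain ⟨e, he1, he2, he3, -⟩ := exists_new C.hm a c d d
    have mv : ∀ x : ι → α, x i ≠ a →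
        ∃ y : ι → α, y i = c ∧ res i y = res i x ∧ orb (sup H i {a}ᶜ) x y := by
      intro x hx
      obtain ⟨σ, hσ, h1, h2⟩ := exists_even2 C.hm hx hc
      exact ⟨co i σ x, by rw [co_self, h1], res_co _ _ _, co i σ, ⟨C.hyp.co_mem i σ hσ,
        fun z hz => (co_fix_iff _ _ _).2 (by rw [show z i = a from not_not.1 hz, h2])⟩, rfl⟩
    refine (prim_sup (i := i) (T := {a}ᶜ) hp C c he3.symm hd2 he2 fun b hb h => hb ?_).symm.imp
      (fun h x y hx hy => ?_) fun h g hg hfix => ?_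
    · exact (swap d e).injective ((show swap d e b = a from h).trans
        (swap_apply_of_ne_of_ne hd1.symm he1.symm).symm)
    · obtain ⟨x', h1, -, h2⟩ := mv x hx
      obtain ⟨y', h3, -, h4⟩ := mv y hy
      exact (orb_equiv _).trans ((orb_equiv _).trans h2 (h _ _ h1 h3)) ((orb_equiv _).symm h4)
    · refine hr ι α H C g hg i fun x => ?_
      by_cases hx : x i = a
      · rw [hfix x hx]
      have hg' : g ∈ sup H i {a}ᶜ := ⟨hg, fun z hz => hfix z (not_not.1 hz)⟩
      obtain ⟨x', h1, h5, h2⟩ := mv x hx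
      obtain ⟨y', h3, h6, h4⟩ := mv (g x) (sup_mem hg' hx)
      rw [← h5, ← h6, h x' y' h1 h3 ((orb_equiv _).trans ((orb_equiv _).trans
        ((orb_equiv _).symm h2) ⟨g, hg', rfl⟩) h4)]
  by_cases hs : H87.PW.Small H
  · exact Or.inr hs
  left
  unfold H87.PW.Small at hs
  push Not at hs
  obtain ⟨i, a, g, hg, hfix, hne⟩ := hs
  have h1 := (key i a).resolve_right fun h => (h g hg hfix).elim hne
  intro j b x y hx hy
  obtain ⟨v, hv, -, ρ, hρ, e⟩ := exists_move C i j a b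
  have h2 : ∀ z : ι → α, v⁻¹ z i = a ↔ z j = b := fun z => by
    rw [← hρ, ← ρ.injective.eq_iff, ← e, app_inv]
  obtain ⟨k, hk, e'⟩ := h1 (v⁻¹ x) (v⁻¹ y) (mt (h2 x).1 hx) (mt (h2 y).1 hy)
  refine ⟨v * k * v⁻¹, H.mul_mem (H.mul_mem hv hk.1) (H.inv_mem hv), fun z hz => ?_, ?_⟩
  · rw [Perm.mul_apply, Perm.mul_apply, hk.2 _ (not_not.2 ((h2 z).2 hz)), app_inv]
  · rw [Perm.mul_apply, Perm.mul_apply, e', app_inv]

end Cfsg.Agent.H29.Pw
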