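import Cfsg.Agent.H87.PWDefs

/-!
Project PW, piece T1: elements supported in two parallel hyperplanes.
-/

set_option autoImplicit false
open Equiv

namespace Cfsg.Agent.H29.Pw

open Cfsg.Agent.H87.PW

theorem app_inv {β : Type*} (f : Perm β) (x : β) : f (f⁻¹ x) = x := f.apply_symm_apply x

theorem inv_app {β : Type*} (f : Perm β) (x : β) : f⁻¹ (f x) = x := f.symm_apply_apply x

variable {ι α : Type} [Fintype ι] [DecidableEq ι] [Fintype α] [DecidableEq α]

/-- the elements of `H` fixing all points with `i`-th coordinate outside `T` -/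
def sup (H : Subgroup (Perm (ι → α))) (i : ι) (T : Set α) : Subgroup (Perm (ι → α)) where
  carrier := {g | g ∈ H ∧ ∀ x : ι → α, x i ∉ T → g x = x}
  one_mem' := ⟨H.one_mem, fun _ _ => rfl⟩
  mul_mem' := fun {a b} ha hb => ⟨H.mul_mem ha.1 hb.1, fun x hx => by
    rw [Perm.mul_apply, hb.2 x hx, ha.2 x hx]⟩
  inv_mem' := fun {a} ha => ⟨H.inv_mem ha.1, fun x hx => by
    rw [Perm.inv_eq_iff_eq, ha.2 x hx]⟩

variable {H : Subgroup (Perm (ι → α))} {i : ι} {T : Set α}

omit [Fintype ι] [DecidableEq ι] [Fintype α] [DecidableEq α] in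
theorem sup_mem {g : Perm (ι → α)} (hg : g ∈ sup H i T) {x : ι → α} (hx : x i ∈ T) :
    g x i ∈ T := by
  by_contra h
  have h1 := g.injective (hg.2 _ h)
  rw [h1] at h
  exact h hx

omit [Fintype ι] [DecidableEq ι] [Fintype α] [DecidableEq α] in
theorem sup_conj {g v : Perm (ι → α)} {T' : Set α} (hg : g ∈ sup H i T) (hv : v ∈ H)
    (h : ∀ x : ι → α, x i ∈ T → v x i ∈ T') : v * g * v⁻¹ ∈ sup H i T' := by
  refine ⟨H.mul_mem (H.mul_mem hv hg.1) (H.inv_mem hv), fun x hx => ?_⟩
  rw [Perm.mul_apply, Perm.mul_apply, hg.2, app_inv]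
  intro h1
  have h2 := h _ h1
  rw [app_inv] at h2
  exact hx h2

/-- the orbit relation of a group of permutations -/
def orb (G : Subgroup (Perm (ι → α))) (x y : ι → α) : Prop := ∃ g ∈ G, g x = y

omit [Fintype ι] [DecidableEq ι] [Fintype α] [DecidableEq α] in
theorem orb_equiv (G : Subgroup (Perm (ι → α))) : Equivalence (orb G) :=
  ⟨fun _ => ⟨1, G.one_mem, rfl⟩,
    fun ⟨g, hg, e⟩ => ⟨g⁻¹, G.inv_mem hg, by rw [← e, inv_app]⟩,
    fun ⟨g, hg, e⟩ ⟨g', hg', e'⟩ => ⟨g' * g, G.mul_mem hg' hg, by rw [Perm.mul_apply, e, e']⟩⟩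

omit [Fintype ι] [DecidableEq ι] [Fintype α] [DecidableEq α] in
theorem orb_conj {v : Perm (ι → α)} (hv : v ∈ H) (h : ∀ x : ι → α, x i ∈ T → v x i ∈ T)
    {x y : ι → α} (hxy : orb (sup H i T) x y) : orb (sup H i T) (v x) (v y) := by
  obtain ⟨g, hg, rfl⟩ := hxy
  exact ⟨_, sup_conj hg hv h, by simp⟩

/-- primitivity of `sup H i T` on a hyperplane, if some transposition fixing `p` preserves `T` -/
theorem prim_sup (hp : PrimStmt) (C : Ctx H) (p : α) {d e : α} (hde : d ≠ e) (hd : d ≠ p)
    (he : e ≠ p) (hT : ∀ a ∈ T, swap d e a ∈ T) :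
    (∀ x y : ι → α, x i = p → y i = p → orb (sup H i T) x y → x = y) ∨
      ∀ x y : ι → α, x i = p → y i = p → orb (sup H i T) x y := by
  have h := hp ι α C.hm {j | j ≠ i} (fun _ => p) (orb (sup H i T)) (orb_equiv _)
    (fun j hj τ hτ x y hxy => orb_conj (C.hyp.co_mem j τ hτ)
      (fun z hz => by rwa [co_ne (Ne.symm hj)]) hxy)
    (fun j hj j' hj' => by
      obtain ⟨τ, hτ, hτ'⟩ := C.hyp.top' (swap j j') (fun _ => d) (fun _ => e) fun _ => hde
      have h1 : swap j j' i = i := swap_apply_of_ne_of_ne (Ne.symm hj) (Ne.symm hj')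
      refine ⟨swap j j', τ, swap_apply_left _ _, fun l hl => ?_, fun x y hxy =>
        orb_conj hτ (fun z hz => ?_) hxy⟩
      · obtain rfl : l = i := not_not.1 hl
        refine ⟨h1, ?_⟩
        rcases hτ' l with h | h <;> rw [h]
        · rfl
        · exact swap_apply_of_ne_of_ne hd.symm he.symm
      · rw [wr_apply, symm_swap, h1]
        rcases hτ' i with h | h <;> rw [h]
        · exact hz
        · exact hT _ hz)
  have key : ∀ x : ι → α, x i = p → ∀ l, l ∉ {j | j ≠ i} → x l = p := fun x hx l hl => by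
    rw [show l = i from not_not.1 hl, hx]
  exact h.imp (fun h x y hx hy => h x y (key x hx) (key y hy))
    fun h x y hx hy => h x y (key x hx) (key y hy)

/-- if the orbit relation is trivial on the hyperplane through `g x` then `g x` is on the line
through `x` -/
theorem res_of_triv (C : Ctx H) {g : Perm (ι → α)} (hg : g ∈ sup H i T) (x : ι → α)
    (h : ∀ z : ι → α, z i = g x i → orb (sup H i T) (g x) z → g x = z) :
    res i (g x) = res i x := by
  rw [res_eq_iff]
  intro j hj
  by_contra hne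
  obtain ⟨a, ha1, ha2, -⟩ := exists_new C.hm (x j) (g x j) (x j) (x j)
  obtain ⟨b, hb1, hb2, hb3, -⟩ := exists_new C.hm (x j) (g x j) a a
  have hv := C.hyp.co_mem j _ (c3_sign ha2.symm hb2.symm)
  have h1 : co j (c3 (g x j) a b) x = x :=
    (co_fix_iff _ _ _).2 (c3_of_ne (Ne.symm hne) ha1.symm hb1.symm)
  have h2 := orb_conj (i := i) (T := T) hv (fun z hz => by rwa [co_ne (Ne.symm hj)])
    (x := x) ⟨g, hg, rfl⟩
  rw [h1] at h2
  have h3 := h _ (co_ne (Ne.symm hj) _ _)
    ((orb_equiv _).trans ((orb_equiv _).symm ⟨g, hg, rfl⟩) h2)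
  have h4 := congrFun h3 j
  rw [co_self, c3_1 ha2.symm hb3.symm] at h4
  exact ha2 h4.symm

theorem exists_ne_idx (C : Ctx H) (i : ι) : ∃ j, j ≠ i :=
  haveI : Nontrivial ι := Fintype.one_lt_card_iff_nontrivial.1 C.hk
  exists_ne i

/-- a transitive group on a hyperplane which is normalised by the base group is not abelian -/
theorem not_comm (C : Ctx H) {p : α}
    (htot : ∀ x y : ι → α, x i = p → y i = p → orb (sup H i T) x y)
    (hc : ∀ g ∈ sup H i T, ∀ g' ∈ sup H i T, ∀ x : ι → α, x i = p → g (g' x) = g' (g x)) :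
    False := by
  obtain ⟨j, hj⟩ := exists_ne_idx C i
  let x : ι → α := fun _ => p
  have star : ∀ g ∈ sup H i T, ∀ g' ∈ sup H i T, ∀ β : Perm α, Perm.sign β = 1 → β p = p →
      co j β (g x) = g' x → ∀ y : ι → α, y i = p → co j β (g y) = g' (co j β y) := by
    intro g hg g' hg' β hβ hβp e y hy
    have h1 := sup_conj (T' := T) hg (C.hyp.co_mem j β hβ)
      (fun z hz => by rwa [co_ne (Ne.symm hj)])
    have h2 : co j β x = x := (co_fix_iff _ _ _).2 hβp
    obtain ⟨h, hh, e1⟩ := htot x (co j β y) rfl (by rw [co_ne (Ne.symm hj), hy])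
    have h3 : (co j β * g * (co j β)⁻¹) x = g' x := by
      rw [Perm.mul_apply, Perm.mul_apply, Perm.inv_eq_iff_eq.2 h2.symm, e]
    have h4 := hc _ h1 h hh x rfl
    rw [h3, ← hc g' hg' h hh x rfl, e1] at h4
    simpa using h4
  have hup : ∀ a : α, Function.update x j a i = p := fun a => Function.update_of_ne hj.symm _ _
  have out : ∀ g ∈ sup H i T, ∀ a b : α, a ≠ p → b ≠ p → b ≠ a → g x = Function.update x j a →
      g (Function.update x j b) j ≠ p ∧ g (Function.update x j b) j ≠ a := by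
    intro g hg a b ha hb hba e
    obtain ⟨c, hc1, hc2, hc3, -⟩ := exists_new C.hm p a b b
    obtain ⟨d, hd1, hd2, hd3, hd4⟩ := exists_new C.hm p a b c
    have h1 := star g hg g hg (c3 b c d) (c3_sign hc3.symm hd3.symm)
      (c3_of_ne hb.symm hc1.symm hd1.symm) ((co_fix_iff _ _ _).2 (by
        rw [e, Function.update_self]
        exact c3_of_ne hba.symm hc2.symm hd2.symm)) _ (hup b)
    have h2 : c3 b c d (g (Function.update x j b) j) ≠ g (Function.update x j b) j := by
      intro h
      rw [(co_fix_iff _ _ _).2 h] at h1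
      have h3 := congrFun (g.injective h1) j
      rw [co_self, Function.update_self, c3_1 hc3.symm hd4.symm] at h3
      exact hc3 h3.symm
    exact ⟨fun h => h2 (by rw [h]; exact c3_of_ne hb.symm hc1.symm hd1.symm),
      fun h => h2 (by rw [h]; exact c3_of_ne hba.symm hc2.symm hd2.symm)⟩
  obtain ⟨a, ha, -⟩ := exists_new C.hm p p p p
  obtain ⟨b, hb, hba, -⟩ := exists_new C.hm p a a a
  obtain ⟨g, hg, e⟩ := htot x _ rfl (hup a)
  obtain ⟨g', hg', e'⟩ := htot x _ rfl (hup b)
  have hz : g (Function.update x j b) = g' (Function.update x j a) := by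
    rw [← e, ← e', hc g hg g' hg' x rfl]
  obtain ⟨h1, h2⟩ := out g hg a b ha hb hba e
  have h3 := (out g' hg' b a hb ha hba.symm e').2
  rw [← hz] at h3
  generalize hc' : g (Function.update x j b) j = c at h1 h2 h3
  obtain ⟨d, hd1, hd2, hd3, hd4⟩ := exists_new C.hm p a b c
  have h4 := star g hg g' hg' (swap a b * swap c d) (by simp [hba.symm, hd4.symm])
    (by rw [Perm.mul_apply, swap_apply_of_ne_of_ne h1.symm hd1.symm,
      swap_apply_of_ne_of_ne ha.symm hb.symm])
    (by rw [e, e', co_apply, Function.update_self, Function.update_idem, Perm.mul_apply,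
      swap_apply_of_ne_of_ne h2.symm hd2.symm, swap_apply_left]) _ (hup b)
  rw [co_apply j _ (Function.update x j b), Function.update_self, Function.update_idem,
    Perm.mul_apply, swap_apply_of_ne_of_ne h3.symm hd3.symm, swap_apply_right, ← hz] at h4
  have h5 := congrFun h4 j
  rw [co_self, hc', Perm.mul_apply, swap_apply_left, swap_apply_of_ne_of_ne hd2 hd3] at h5
  exact hd4 h5

/-- **T1.** -/
theorem t1 (hp : PrimStmt) (hj : JWStmt) (h0 : T0Stmt) : T1Stmt := by
  intro ι α _ _ _ _ H C g hg i p s hfix x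
  by_cases hps : p = s
  · subst hps
    rw [h0 ι α H C g hg i p fun x hx => hfix x hx hx]
    rfl
  have hgG : g ∈ sup H i {p, s} := ⟨hg, fun x hx => hfix x (fun h => hx (Or.inl h))
    fun h => hx (Or.inr h)⟩
  obtain ⟨d, hd1, hd2, -⟩ := exists_new C.hm p s s s
  obtain ⟨e, he1, he2, he3, -⟩ := exists_new C.hm p s d d
  let v : Perm (ι → α) := co i (swap p s * swap d e)
  have hv : v ∈ H := C.hyp.co_mem i _ (by simp [hps, he3.symm])
  have hvp : ∀ z : ι → α, z i = p → v z i = s := fun z hz => by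
    rw [co_self, hz, Perm.mul_apply, swap_apply_of_ne_of_ne hd1.symm he1.symm, swap_apply_left]
  have hvs : ∀ z : ι → α, z i = s → v z i = p := fun z hz => by
    rw [co_self, hz, Perm.mul_apply, swap_apply_of_ne_of_ne hd2.symm he2.symm, swap_apply_right]
  have hvT : ∀ z : ι → α, z i ∈ ({p, s} : Set α) → v z i ∈ ({p, s} : Set α) := fun z hz =>
    hz.elim (fun h => Or.inr (hvp z h)) fun h => Or.inl (hvs z h)
  rcases prim_sup (i := i) (T := {p, s}) hp C p he3.symm hd1 he1 (by
    rintro a (rfl | rfl)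
    · exact Or.inl (swap_apply_of_ne_of_ne hd1.symm he1.symm)
    · exact Or.inr (swap_apply_of_ne_of_ne hd2.symm he2.symm)) with htr | htot
  · by_cases hx : x i ∈ ({p, s} : Set α)
    swap
    · rw [hgG.2 x hx]
    refine res_of_triv C hgG x fun z hz hr => ?_
    rcases sup_mem hgG hx with h | h
    · exact htr _ _ h (hz.trans h) hr
    · exact v.injective (htr _ _ (hvs _ h) (hvs _ (hz.trans h)) (orb_conj hv hvT hr))
  exfalso
  have htot' : ∀ x y : ι → α, x i = s → y i = s → orb (sup H i {p, s}) x y := by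
    have key : ∀ z : ι → α, z i = s → v⁻¹ z i = p := fun z hz => by
      apply (swap p s * swap d e).injective
      rw [← co_self i, app_inv, hz, Perm.mul_apply,
        swap_apply_of_ne_of_ne hd1.symm he1.symm, swap_apply_left]
    intro x y hx hy
    simpa using orb_conj hv hvT (htot _ _ (key x hx) (key y hy))
  by_cases hmove : ∃ x y : ι → α, x i = p ∧ y i = s ∧ orb (sup H i {p, s}) x y
  · obtain ⟨x₀, y₀, hx₀, hy₀, hr⟩ := hmove
    have hcard : {z : ι → α | z i ∈ ({p, s} : Set α)}.ncard =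
        2 * Fintype.card α ^ (Fintype.card ι - 1) := by
      rw [← Finset.card_pair hps, ← card_slice i, ← Set.ncard_coe_finset]
      congr 1
      ext z
      simp
    have hN : 0 < Fintype.card α ^ (Fintype.card ι - 1) := pow_pos (by have := C.hm; omega) _
    refine hj ι α H C {z | z i ∈ ({p, s} : Set α)} (by omega) ?_ ?_
    · have h1 := C.hk
      have h2 := C.hm
      rw [hcard, Fintype.card_fun, show Fintype.card ι = Fintype.card ι - 1 + 1 by omega, pow_succ,
        Nat.add_sub_cancel]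
      nlinarith
    · have key : ∀ z : ι → α, z i ∈ ({p, s} : Set α) → orb (sup H i {p, s}) x₀ z := by
        rintro z (h | h)
        · exact htot _ _ hx₀ h
        · exact (orb_equiv _).trans hr (htot' _ _ hy₀ h)
      intro x hx y hy
      obtain ⟨g, hg, e⟩ := (orb_equiv _).trans ((orb_equiv _).symm (key x hx)) (key y hy)
      exact ⟨g, hg.1, hg.2, e⟩
  have hkp : ∀ g ∈ sup H i {p, s}, ∀ x : ι → α, x i = p → g x i = p := fun g hg x hx =>
    (sup_mem hg (Or.inl hx)).resolve_right fun h => hmove ⟨x, g x, hx, h, g, hg, rfl⟩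
  have hks : ∀ g ∈ sup H i {p, s}, ∀ x : ι → α, x i = s → g x i = s := fun g hg x hx =>
    (sup_mem hg (Or.inr hx)).resolve_left fun h =>
      hmove ⟨g x, x, h, hx, (orb_equiv _).symm ⟨g, hg, rfl⟩⟩
  refine not_comm C htot fun g hg g' hg' x hx => ?_
  let w : Perm (ι → α) := co i (c3 s d e)
  have hw : w ∈ H := C.hyp.co_mem i _ (c3_sign hd2.symm he2.symm)
  have hwp : ∀ z : ι → α, z i = p → w z = z := fun z hz => (co_fix_iff _ _ _).2 (by
    rw [hz]; exact c3_of_ne hps hd1.symm he1.symm)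
  have hg'' : w * g' * w⁻¹ ∈ sup H i {p, d} := sup_conj hg' hw (by
    rintro z (h | h)
    · exact Or.inl (by rw [hwp z h, h])
    · exact Or.inr (by rw [co_self, show z i = s from h, c3_1 hd2.symm he3.symm]; rfl))
  have hact : ∀ z : ι → α, z i = p → (w * g' * w⁻¹) z = g' z := fun z hz => by
    rw [Perm.mul_apply, Perm.mul_apply, Perm.inv_eq_iff_eq.2 (hwp z hz).symm,
      hwp _ (hkp g' hg' z hz)]
  generalize w * g' * w⁻¹ = k at hg'' hact
  have hkp' : ∀ z : ι → α, z i = d → k z i = d := fun z hz =>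
    (sup_mem hg'' (Or.inr hz)).resolve_left fun h => by
      have h1 : g'⁻¹ (k z) i = p := hkp _ ((sup H i _).inv_mem hg') _ h
      have h2 := hact _ h1
      rw [app_inv] at h2
      rw [k.injective h2, hz] at h1
      exact hd1 h1
  have h1 := h0 ι α H C ((k * g)⁻¹ * (g * k))
    (H.mul_mem (H.inv_mem (H.mul_mem hg''.1 hg.1)) (H.mul_mem hg.1 hg''.1)) i p fun z hz => by
      rw [Perm.mul_apply, Perm.inv_eq_iff_eq, Perm.mul_apply, Perm.mul_apply]
      by_cases h1 : z i = s
      · have h2 : ∀ y : ι → α, y i = s → k y = y := fun y hy => hg''.2 y (by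
          rw [hy]
          rintro (h | h)
          · exact hps h.symm
          · exact hd2 h.symm)
        rw [h2 z h1, h2 _ (hks g hg z h1)]
      have h3 : g z = z := hg.2 z fun h => h.elim hz h1
      rw [h3]
      by_cases h2 : z i = d
      · refine hg.2 _ ?_
        rw [hkp' z h2]
        exact fun h => h.elim hd1 hd2
      · rw [hg''.2 z fun h => h.elim hz h2, h3]
  have h2 := Perm.ext_iff.1 (inv_mul_eq_one.1 h1) x
  rw [Perm.mul_apply, Perm.mul_apply, hact x hx, hact _ (hkp g hg x hx)] at h2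
  exact h2.symm

end Cfsg.Agent.H29.Pw
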