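import Cfsg.Agent.H79.RbDefs

/-! The anticommutation relations of the neutral fermions. -/

set_option autoImplicit false

open Cfsg Finset MvPolynomial

namespace Cfsg.Agent.H29.RbCar

open Cfsg.Agent.H79.RB

/-- The constant in the anticommutation relation. -/
noncomputable def cst (a b : ℤ) : ℂ := if a + b = 0 then 2 * (-1 : ℂ) ^ a.natAbs else 0

theorem sign_odd (a : ℤ) (i : ℕ) :
    (-1 : ℂ) ^ (a + (2 * i + 1 : ℕ)).natAbs = -(-1) ^ a.natAbs := by
  rcases Int.even_or_odd a with h | h
  · rw [(Int.natAbs_even.2 h).neg_one_pow, (Int.natAbs_odd.2 (h.add_odd ⟨i, by simp⟩)).neg_one_pow]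
  · rw [(Int.natAbs_odd.2 h).neg_one_pow, (Int.natAbs_even.2 (h.add_odd ⟨i, by simp⟩)).neg_one_pow,
      neg_neg]

theorem cst_add (a b : ℤ) (i : ℕ) :
    cst (a + (2 * i + 1 : ℕ)) b + cst a (b + (2 * i + 1 : ℕ)) = 0 := by
  rw [cst, cst, add_right_comm, ← add_assoc, sign_odd]
  split_ifs <;> ring

theorem AA_apply (i : ℕ) (P : Fk) : AA i P = (((2 * i + 1 : ℕ) : ℂ) / 2) • pderiv i P := rfl

theorem eq_zero_of_AA {n : ℕ} {P : Fk} (hP : Hom n P) (hn : 0 < n) (h : ∀ i, AA i P = 0) :
    P = 0 := by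
  ext m
  by_contra hm
  obtain ⟨i, hi⟩ : ∃ i, m i ≠ 0 := by
    by_contra hc
    push Not at hc
    have := hP m hm
    rw [show m = 0 from Finsupp.ext hc, wt, Finsupp.sum_zero_index] at this
    omega
  have h1 : pderiv i P = 0 := (smul_eq_zero.1 ((AA_apply i P).symm.trans (h i))).resolve_left
    (div_ne_zero (Nat.cast_ne_zero.2 (by omega)) two_ne_zero)
  have h2 := coeff_pderiv (i := i) P (m - Finsupp.single i 1)
  rw [h1, coeff_zero, tsub_add_cancel_of_le (Finsupp.single_le_iff.2 (by omega))] at h2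
  exact mul_ne_zero hm (Nat.cast_add_one_ne_zero _) h2.symm

theorem euler_mon {n : ℕ} {m : ℕ →₀ ℕ} (h1 : wt m = n) (c : ℂ) : (n : ℂ) • (monomial m c : Fk) =
    ∑ i ∈ range n, (2 : ℂ) • (X i * AA i (monomial m c)) := by
  have h2 : wt m = ∑ i ∈ range n, (2 * i + 1) * m i :=
    Finsupp.sum_of_support_subset _ (fun i hi => mem_range.2 (by
      have := le_wt m i
      have := Nat.pos_of_ne_zero (Finsupp.mem_support_iff.1 hi)
      nlinarith)) _ (by simp)
  have h3 : (n : ℂ) = ∑ i ∈ range n, (((2 * i + 1) * m i : ℕ) : ℂ) := by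
    rw [← Nat.cast_sum, ← h2, h1]
  rw [h3, Finset.sum_smul]
  refine Finset.sum_congr rfl fun i _ => ?_
  rw [AA_apply, mul_smul_comm, X_mul_pderiv_monomial, ← Nat.cast_smul_eq_nsmul ℂ, smul_smul,
    smul_smul]
  congr 1
  push_cast
  ring

theorem euler (n : ℕ) : (n : ℂ) • qq n = ∑ i ∈ range n, (2 : ℂ) • (X i * AA i (qq n)) := by
  rw [qq, Finset.smul_sum, Finset.sum_congr rfl fun m hm => euler_mon (mem_Mon.1 hm) _,
    Finset.sum_comm]
  refine Finset.sum_congr rfl fun i _ => ?_
  rw [map_sum, Finset.mul_sum, Finset.smul_sum]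

/-- The value of `φ_(-z) q_z`. -/
noncomputable def kap (z : ℤ) : ℂ := if z < 0 then 0 else if z = 0 then 1 else 2 * (-1) ^ z.natAbs

theorem sum_kap (n : ℕ) : ∑ i ∈ range n, kap (n - (2 * i + 1 : ℕ)) = -(-1) ^ n * n := by
  induction n using Nat.twoStepInduction with
  | zero => simp
  | one => simp [kap]
  | more n ih _ =>
    have e : ∀ i : ℕ, ((n + 2 : ℕ) : ℤ) - (2 * (i + 1) + 1 : ℕ) = n - (2 * i + 1 : ℕ) :=
      fun i => by push_cast; ring
    have e1 : kap ((n : ℤ) - (2 * n + 1 : ℕ)) = 0 := if_pos (by omega)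
    have e2 : kap (((n + 2 : ℕ) : ℤ) - (2 * 0 + 1 : ℕ)) = 2 * (-1) ^ (n + 1) := by
      rw [kap, if_neg (by omega), if_neg (by omega)]
      congr 2
      omega
    rw [sum_range_succ', Finset.sum_congr rfl fun i _ => by rw [e], sum_range_succ, ih, e1, e2]
    push_cast
    ring

variable (hB : BasicStmt) (hC : CommStmt)
include hB

theorem phi_qz_neg {a b : ℤ} (h : a + b < 0) : phi a (qz b) = 0 := by
  rw [qz]
  split_ifs with hb
  · exact hB.2.2.2.2.2.2.2.2.1 a _ _ (hB.2.1 _) (by omega)
  · exact map_zero _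

theorem hom_phi_qz {a b : ℤ} {n : ℕ} (h : a + b = n) : Hom n (phi a (qz b)) := by
  rw [qz]
  split_ifs with hb
  · exact hB.2.2.2.2.2.2.2.1 a _ _ _ (hB.2.1 _) (by omega)
  · intro m hm
    simp at hm

include hC

theorem phi_kap (n : ℕ) : ∀ z : ℤ, z < n → phi (-z) (qz z) = kap z • 1 := by
  induction n with
  | zero =>
    intro z hz
    rw [qz, kap, if_neg (by omega), if_pos (by omega), map_zero, zero_smul]
  | succ n ih =>
    intro z hz
    rcases (by omega : z < n ∨ z = n) with h | rfl
    · exact ih z h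
    have e : qz n = qq n := by rw [qz, if_pos (by omega), Int.toNat_natCast]
    rcases n.eq_zero_or_pos with rfl | h0
    · rw [e, hB.2.2.1, hB.2.2.2.2.2.2.2.2.2.1, Nat.cast_zero, neg_zero, ← Nat.cast_zero, e,
        hB.2.2.1]
      simp [kap]
    have k : ∀ i : ℕ, phi (-n) ((2 : ℂ) • (X i * AA i (qq n))) =
        (-2 * kap (n - (2 * i + 1 : ℕ))) • 1 := fun i => by
      have h1 := hC.2.2.2 i (-n) (qz (n - (2 * i + 1 : ℕ)))
      have h2 := ih (n - (2 * i + 1 : ℕ)) (by omega)
      rw [neg_sub, sub_eq_neg_add] at h2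
      rw [phi_qz_neg hB (by omega), mul_zero, h2] at h1
      rw [← e, hC.2.1, map_smul]
      linear_combination (norm := module) (-2 : ℂ) • h1
    refine smul_right_injective Fk (Nat.cast_ne_zero.2 h0.ne' : (n : ℂ) ≠ 0) ?_
    simp only
    rw [← map_smul, e, euler, map_sum, Finset.sum_congr rfl fun i _ => k i, ← Finset.sum_smul,
      ← Finset.mul_sum, sum_kap, smul_smul, kap, if_neg (by omega), if_neg (by omega),
      Int.natAbs_natCast]
    congr 1
    ring

theorem car_one (n : ℕ) : ∀ a b : ℤ, a + b < n →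
    phi a (qz b) + phi b (qz a) = cst a b • 1 := by
  induction n with
  | zero =>
    intro a b h
    rw [phi_qz_neg hB (by omega), phi_qz_neg hB (by omega), cst, if_neg (by omega), zero_smul,
      add_zero]
  | succ n ih =>
    intro a b h
    rcases (by omega : a + b < n ∨ a + b = n) with h | h
    · exact ih a b h
    rcases n.eq_zero_or_pos with rfl | h0
    · obtain rfl : b = -a := by omega
      have h1 := phi_kap hB hC (a.natAbs + 1) (-a) (by omega)
      rw [neg_neg] at h1
      rw [h1, phi_kap hB hC (a.natAbs + 1) a (by omega), ← add_smul, cst, if_pos (by omega)]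
      congr 1
      rcases lt_trichotomy a 0 with h2 | rfl | h2
      · rw [kap, kap, if_neg (by omega), if_neg (by omega), if_pos h2, add_zero, Int.natAbs_neg]
      · simp [kap, one_add_one_eq_two]
      · rw [kap, kap, if_pos (by omega), if_neg (by omega), if_neg (by omega), zero_add]
    rw [cst, if_neg (by omega), zero_smul]
    refine eq_zero_of_AA (n := n) (fun m hm => ?_) h0 fun i => ?_
    · rw [coeff_add] at hm
      by_cases h1 : coeff m (phi a (qz b)) = 0
      · rw [h1, zero_add] at hm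
        exact hom_phi_qz hB (a := b) (b := a) (by omega) m hm
      · exact hom_phi_qz hB h m h1
    · have h1 := ih a (b - (2 * i + 1 : ℕ)) (by omega)
      have h2 := ih (a - (2 * i + 1 : ℕ)) b (by omega)
      have h3 := cst_add (a - (2 * i + 1 : ℕ)) (b - (2 * i + 1 : ℕ)) i
      rw [sub_add_cancel, sub_add_cancel] at h3
      rw [map_add, hC.2.2.1, hC.2.2.1, hC.2.1, hC.2.1]
      linear_combination (norm := module) h1 + h2 + h3 • (1 : Fk)

/-- **Car** -/
theorem carStmt : CarStmt := by
  suffices h : ∀ (P : Fk) (a b : ℤ), phi a (phi b P) + phi b (phi a P) = cst a b • P by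
    intro a b P
    rw [h, cst]
    split_ifs
    · rfl
    · exact zero_smul _ _
  intro P
  induction P using MvPolynomial.induction_on with
  | C c =>
    intro a b
    have h1 := car_one hB hC ((a + b).natAbs + 1) a b (by omega)
    rw [← hB.2.2.2.2.2.2.2.2.2.1, ← hB.2.2.2.2.2.2.2.2.2.1] at h1
    rw [← mul_one (C c), C_mul']
    simp only [map_smul]
    linear_combination (norm := module) c • h1
  | add p q hp hq =>
    intro a b
    simp only [map_add]
    linear_combination (norm := module) hp a b + hq a b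
  | mul_X p i hp =>
    intro a b
    have k : ∀ (a : ℤ) (P : Fk), phi a (X i * P) = X i * phi a P - phi (a + (2 * i + 1 : ℕ)) P :=
      fun a P => eq_sub_of_add_eq (hC.2.2.2 i a P).symm
    have h1 := congrArg (X i * ·) (hp a b)
    simp only [mul_add, mul_smul_comm] at h1
    simp only [mul_comm p, k, map_sub]
    linear_combination (norm := module) h1 - hp (a + (2 * i + 1 : ℕ)) b -
      hp a (b + (2 * i + 1 : ℕ)) - cst_add a b i • p

end Cfsg.Agent.H29.RbCar
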