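import Cfsg.Agent.H74.RuDefs

/-!
# Project RU, piece CT: a maximal subgroup is not transitive on chambers
-/

set_option autoImplicit false

namespace Cfsg.Agent.H29.RuCt

open Cfsg Subgroup Cfsg.Agent.H31 Cfsg.Agent.H74.Ru

theorem coatom_map {G H : Type*} [Group G] [Group H] {f : G →* H} (hf : Function.Surjective f)
    {K : Subgroup G} (hK : IsCoatom K) (hk : f.ker ≤ K) : IsCoatom (K.map f) := by
  have e : (K.map f).comap f = K := comap_map_eq_self hk
  refine ⟨fun h => hK.1 (by rw [← e, h, comap_top]), fun L hL => ?_⟩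
  have : L.comap f = ⊤ := hK.2 _ (lt_of_le_of_ne (map_le_iff_le_comap.1 hL.le) fun h =>
    hL.ne (by rw [h, map_comap_eq_self_of_surjective hf]))
  rw [← map_comap_eq_self_of_surjective hf L, this, map_top_of_surjective f hf]

/-- **CT** -/
theorem ct (sy : SylbStmt) (nf : NftStmt) : CtStmt := by
  intro F V _ _ _ _ _ S K hK co ce v hv ct
  haveI := finite_linearEquiv (F := F) (V := V)
  obtain ⟨_, -, hp, -⟩ := exists_pow_char S.hF
  haveI := Fact.mk hp
  obtain ⟨e⟩ := S.herm.nonempty_sisom_equiv_SU S.hF S.hσ S.dim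
  let f : S.G →* PSU S.n F S.q := (QuotientGroup.mk' _).comp e.toMonoidHom
  have hf : Function.Surjective f := (QuotientGroup.mk'_surjective _).comp e.surjective
  have hk : f.ker ≤ K.subgroupOf S.G := fun g hg => ce (mem_center_iff.2 fun h => e.injective (by
    rw [map_mul, map_mul]
    exact mem_center_iff.1 ((QuotientGroup.eq_one_iff (e g)).1 hg) _))
  obtain ⟨P, hP⟩ := sy S v hv
  refine nf F S.n S.q S.hF S.hn S.hq _ (coatom_map hf co hk) (P.mapSurjective hf) fun g => ?_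
  obtain ⟨g, rfl⟩ := hf g
  obtain ⟨h, hh, ht, k, hk, e1⟩ := ct _ g⁻¹.2
  refine ⟨f ⟨k, hK hk⟩⁻¹, mem_map_of_mem f (inv_mem hk), f ⟨h, hh⟩⁻¹,
    le_normalizer_map f (mem_map_of_mem f (inv_mem (hP ⟨h, hh⟩ ht))), ?_⟩
  rw [← map_mul, ← mul_inv_rev, ← show g⁻¹ = ⟨h, hh⟩ * ⟨k, hK hk⟩ from Subtype.ext e1, inv_inv]

end Cfsg.Agent.H29.RuCt
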