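import Cfsg.Agent.H35.S4Defs
import Cfsg.Agent.H86.U3G
import Cfsg.Agent.H27.EndKit

/-!
# Standard subgroups of type `Sp₄(q)`: the group `R` of order `q ^ 8`
-/

set_option autoImplicit false

namespace Cfsg.Agent.H29.S4Lv2a

open Cfsg Cfsg.Agent.H63 Cfsg.Agent.H63.SL Cfsg.Agent.H35.S4 Subgroup
open Cfsg.Agent.H27.End (mem_C comm_of_C conj_mem mem_N_of_conj is2_of_mem eq_one_of_is2)
open scoped commutatorElement

universe u v

variable {G : Type u} [Group G]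

/-- The displacement of `t`. -/
def lam (t g : G) : G := t⁻¹ * (g * t * g⁻¹)

theorem lam_mul (t g g' : G) : lam t (g * g') = lam t g * (g * lam t g' * g⁻¹) := by
  unfold lam; group

theorem lam_inv (t g : G) : lam t g⁻¹ = g⁻¹ * (lam t g)⁻¹ * g⁻¹⁻¹ := by
  unfold lam; group

theorem lam_conj {t n : G} (h : Commute n t) (g : G) :
    lam t (n * g * n⁻¹) = n * lam t g * n⁻¹ := by
  have e : n * t * n⁻¹ = t := by rw [h.eq, mul_inv_cancel_right]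
  unfold lam
  conv_lhs => rw [← e]
  group

theorem lam_iff {t g : G} {S : Subgroup G} (ht : t ∈ N[S]) : ⁅g, t⁆ ∈ S ↔ lam t g ∈ S := by
  rw [mem_normalizer_iff.1 ht (lam t g), commutatorElement_def, lam]
  congr! 1
  group

theorem conj_C {S : Subgroup G} {n g : G} (hn : n ∈ N[S]) (hg : g ∈ C[S]) :
    n * g * n⁻¹ ∈ C[S] := mem_C fun s hs => by
  have := (comm_of_C hg (conj_mem (inv_mem hn) hs)).conj n
  rwa [show n * (n⁻¹ * s * n⁻¹⁻¹) * n⁻¹ = s by group] at this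

/-- The elements of `C(S)` with displacement in `Q`. -/
def GG (t : G) (S Q : Subgroup G) (h : ∀ g ∈ C[S], lam t g ∈ Q → g ∈ N[Q]) : Subgroup G where
  carrier := {g | g ∈ C[S] ∧ lam t g ∈ Q}
  one_mem' := ⟨one_mem _, by rw [lam]; simp⟩
  mul_mem' {a b} ha hb := ⟨mul_mem ha.1 hb.1, by
    rw [lam_mul]; exact mul_mem ha.2 (conj_mem (h a ha.1 ha.2) hb.2)⟩
  inv_mem' {a} ha := ⟨inv_mem ha.1, by
    rw [lam_inv]; exact conj_mem (inv_mem (h a ha.1 ha.2)) (inv_mem ha.2)⟩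

theorem idx {t : G} {S P H M : Subgroup G} (hM : ∀ g, g ∈ M ↔ g ∈ C[S] ∧ lam t g ∈ S)
    (h1 : H ≤ C[S]) (h2 : ∀ g ∈ H, lam t g ∈ P)
    (onto : ∀ p ∈ P, ∃ g ∈ H, p⁻¹ * lam t g ∈ S) : M.relIndex H = S.relIndex P := by
  have key : ∀ a b : H, (a : G)⁻¹ * b ∈ M ↔ (lam t a)⁻¹ * lam t b ∈ S := fun a b => by
    rw [hM, and_iff_right (h1 (mul_mem (inv_mem a.2) b.2)),
      mem_normalizer_iff.1 (centralizer_le_normalizer _ (h1 (inv_mem a.2))) (_ * _), lam_mul,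
      lam_inv]
    congr! 1
    group
  refine Nat.card_eq_of_bijective (Quotient.map' (fun g : H => (⟨lam t g, h2 g g.2⟩ : P))
    fun a b h => QuotientGroup.leftRel_apply.2 ((key a b).1
      (mem_subgroupOf.1 (QuotientGroup.leftRel_apply.1 h))))
    ⟨fun a b h => ?_, fun p => ?_⟩
  · obtain ⟨a, rfl⟩ := QuotientGroup.mk_surjective a
    obtain ⟨b, rfl⟩ := QuotientGroup.mk_surjective b
    exact QuotientGroup.eq.2 (mem_subgroupOf.2 ((key a b).2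
      (mem_subgroupOf.1 ((QuotientGroup.eq (s := S.subgroupOf P)).1 h))))
  · obtain ⟨p, rfl⟩ := QuotientGroup.mk_surjective p
    obtain ⟨g, hg, e⟩ := onto p p.2
    exact ⟨QuotientGroup.mk ⟨g, hg⟩,
      ((QuotientGroup.eq (s := S.subgroupOf P)).2 (mem_subgroupOf.2 e)).symm⟩

theorem card_eq {M H : Subgroup G} : Nat.card H = M.relIndex H * Nat.card ↥(M ⊓ H) := by
  rw [← inf_relIndex_right, relIndex, ← Nat.card_congr (subgroupOfEquivOfLe inf_le_right).toEquiv,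
    index_mul_card]

/-- **LV2A** -/
theorem lv2a : Lv2aStmt.{u, v} := by
  intro F _ _ G _ _ L x t hC A _ j σ y Yh S P ds hl l1
  have kb := hC.kb
  have t2 : t⁻¹ = t := inv_eq_of_mul_eq_one_left (by rw [← sq, ← hC.tc.t2, pow_orderOf_eq_one])
  have p2 : IsPGroup 2 P := fun p => ⟨2, Subtype.ext (by
    have := l1.sqS _ (l1.sqP p p.2)
    rw [← sq, ← sq, ← pow_mul] at this
    exact this)⟩
  have lS : ∀ p ∈ P, lam t p ∈ S := fun p hp => (lam_iff l1.nS.1).1 (l1.tP p hp)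
  have nP : ∀ g ∈ C[S], lam t g ∈ P → g ∈ N[P] := fun g h1 h2 => by
    refine inv_mem_iff.1 (mem_N_of_conj fun p hp => l1.fix _
      (mul_mem (mul_mem (inv_mem h1) (l1.cS hp)) (inv_mem (inv_mem h1)))
      (H27.End.Is2.conj (is2_of_mem p2 hp) _) ?_)
    have := conj_mem (centralizer_le_normalizer _ (inv_mem h1))
      (mul_mem (l1.tP p hp) (conj_mem l1.nS.1 (l1.comP p hp _ h2)))
    convert this using 1
    simp only [commutatorElement_def, lam]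
    group
  obtain ⟨O, hO⟩ := kb.od
  have mO : ∀ g, g ∈ C[O] ↔ OddC L t {g} := fun g =>
    ⟨fun h k h1 h2 h3 p hp => by
      rw [hp]; exact (comm_of_C h (show k ∈ (O : Set G) from hO ▸ ⟨h1, h2, h3⟩)).symm,
    fun h => mem_C fun k hk => by
      obtain ⟨h1, h2, h3⟩ : k ∈ Od L t := hO ▸ hk
      exact (h k h1 h2 h3 g rfl).symm⟩
  have cO : ∀ g, (∀ k ∈ C[L], Commute k t → Odd (orderOf k) → Commute k g) → g ∈ C[O] :=
    fun g h => (mO g).2 fun k h1 h2 h3 p hp => hp ▸ h k h1 h2 h3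
  let Γ := GG t S P nP ⊓ C[O]
  let M := GG t S S fun g h _ => centralizer_le_normalizer _ h
  have PΓ : P ≤ Γ := fun p hp => ⟨⟨l1.cS hp, l1.SP (lS p hp)⟩,
    cO p fun k h1 h2 h3 => l1.oddP k h1 h2 h3 p hp⟩
  have cjΓ : ∀ n ∈ N[S], n ∈ N[P] → Commute n t → n ∈ C[O] → ∀ g ∈ Γ, n * g * n⁻¹ ∈ Γ :=
    fun n h1 h2 h3 h4 g hg => ⟨⟨conj_C h1 hg.1.1, by
      rw [lam_conj h3]; exact conj_mem h2 hg.1.2⟩, C[O].mul_mem (C[O].mul_mem h4 hg.2) (inv_mem h4)⟩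
  have LO : L ≤ C[O] := fun l hl => cO l fun k h1 _ _ => comm_of_C h1 hl
  have KL : KK x 1 ≤ L := sup_le ((closure_le _).2 (by rintro _ ⟨a, rfl⟩; exact kb.xL _ _))
    ((closure_le _).2 (by rintro _ ⟨a, rfl⟩; exact kb.xL _ _))
  have KS : KK x 1 ≤ N[S] := sup_le
    ((closure_le _).2 (by
      rintro _ ⟨a, rfl⟩
      rw [← ds.res 1 (by decide)]
      exact (l1.nS.2.2 _).1))
    ((closure_le _).2 (by
      rintro _ ⟨a, rfl⟩
      rw [show (1 + 4 : ZMod 8) = 5 from rfl, ← ds.res 5 (by decide)]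
      exact (l1.nS.2.2 _).2))
  have y30 : y 3 0 = 1 := by
    have := ds.add 3 (by decide) 0 0
    rwa [add_zero, left_eq_mul] at this
  have x0 : ∀ i, x i 0 = 1 := fun i => by
    have := hC.mod.pin.add i 0 0
    rwa [add_zero, left_eq_mul] at this
  have onto : ∀ p ∈ P, ∃ g ∈ Γ, Is2 g ∧ p⁻¹ * lam t g ∈ S := fun p hp => by
    obtain ⟨k, hk, r, hr, e1⟩ := l1.tr p hp
    obtain ⟨-, -, ⟨a, e2, -⟩, -⟩ := (hl.mem 2 (by decide) r).1 hr
    obtain ⟨ω, hω⟩ := ds.quad.tr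
    have e3 : y 1 ω * t * (y 1 ω)⁻¹ = t * x 1 1 := by
      have k2 := ds.conj 1 (by decide) ω
      rw [hω, add_comm, ds.add 1 (by decide), ← map_one j, ds.res 1 (by decide)] at k2
      calc _ = t * (t⁻¹ * y 1 ω * t) * (y 1 ω)⁻¹ := by group
        _ = t * (t * y 1 ω * t⁻¹) * (y 1 ω)⁻¹ := by rw [t2]
        _ = _ := by rw [k2]; group
    obtain ⟨w, hw, e4⟩ := hl.surj 4 (by decide) a
    obtain ⟨r', hr', e5, e6⟩ := l1.up ω 1 e3 w hw a e4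
    rw [one_pow, one_mul, ← e2] at e5
    obtain ⟨b, e7⟩ := hl.fix 2 (by decide) _ (mul_mem (inv_mem hr) hr') (by
      calc r⁻¹ * r' * t = r⁻¹ * (r' * t * r'⁻¹) * r' := by group
        _ = _ := by rw [e5]; group)
    have m1 : r⁻¹ * r' ∈ S := (l1.memS _).2 ⟨b, 0, 0, by rw [e7, y30, x0, mul_one, mul_one]⟩
    have m2 : w ∈ P := (l1.memP _).2 ⟨1, one_mem _, 0, w, hw, by rw [y30, mul_one, one_mul]⟩
    have m3 : r' ∈ P := (l1.memP _).2 ⟨r', hr', 0, 1, one_mem _, by rw [y30, mul_one, mul_one]⟩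
    have m4 : y 1 ω * w * (y 1 ω)⁻¹ ∈ Γ := by
      have k1 := cO (y 1 ω) fun k h1 h2 h3 => ds.odd 1 (by decide) k h1 h2 h3 _ ⟨ω, rfl⟩
      refine ⟨⟨conj_C (l1.nS.2.2 ω).1 (l1.cS m2), ?_⟩,
        C[O].mul_mem (C[O].mul_mem k1 (PΓ m2).2) (inv_mem k1)⟩
      exact (mul_mem_cancel_left (inv_mem m3)).1 (l1.SP e6)
    have ck := (kb.tL k (KL hk)).symm.inv_left
    refine ⟨_, cjΓ k⁻¹ (inv_mem (KS hk)) (inv_mem (l1.nP.2.2 hk)) ck (inv_mem (LO (KL hk))) _ m4,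
      H27.End.Is2.conj (H27.End.Is2.conj (is2_of_mem p2 m2) _) _, ?_⟩
    have := conj_mem (inv_mem (KS hk)) (mul_mem (inv_mem e1) (mul_mem m1 e6))
    rw [lam_conj ck]
    convert this using 1
    rw [lam]
    group
  have dec : ∀ g ∈ M, ∃ p ∈ P, ∃ o ∈ O, g = p * o := fun g hg => by
    obtain ⟨p, hp, o, ho, e⟩ := l1.fixO g hg.1 ((lam_iff l1.nS.1).2 hg.2)
    exact ⟨p, hp, o, show o ∈ (O : Set G) from hO ▸ ho, e⟩
  have od : ∀ o ∈ O, Commute o t ∧ Odd (orderOf o) := fun o ho =>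
    (show o ∈ Od L t from hO ▸ ho).2
  haveI nM : (M.subgroupOf Γ).Normal := ⟨fun m hm g => by
    obtain ⟨p, hp, o, ho, e⟩ := dec m hm
    refine ⟨conj_C (centralizer_le_normalizer _ g.2.1.1) hm.1, ?_⟩
    have k1 := lS _ (conj_mem (nP g g.2.1.1 g.2.1.2) hp)
    have k2 : lam t o = 1 := by rw [lam, (od o ho).1.eq]; group
    change lam t (g * m * (g : G)⁻¹) ∈ S
    rw [e, ← mul_assoc, mul_assoc _ o, (comm_of_C g.2.2 ho).inv_left.symm.eq, ← mul_assoc, lam_mul,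
      k2]
    simpa using k1⟩
  have ix : ∃ n, S.relIndex P = 2 ^ n := by
    obtain ⟨n, hn⟩ := IsPGroup.iff_card.1 p2
    obtain ⟨m, -, e⟩ := (Nat.dvd_prime_pow Nat.prime_two).1 (hn ▸ relIndex_dvd_card S P)
    exact ⟨m, e⟩
  have cen : ∀ o ∈ Γ, Odd (orderOf o) → ∀ g ∈ Γ, o * g = g * o := fun o ho h1 g hg => by
    obtain ⟨n, hn⟩ := ix
    have k1 := pow_index_mem (M.subgroupOf Γ) ⟨o, ho⟩
    change o ^ M.relIndex Γ ∈ M at k1
    rw [idx (t := t) (S := S) (P := P) (H := Γ) (M := M) (fun _ => Iff.rfl) (fun g h => h.1.1)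
      (fun g h => h.1.2)
      (fun p hp => (onto p hp).imp fun g h => ⟨h.1, h.2.2⟩), hn] at k1
    have k2 : o ∈ M := zpowers_le.2 k1 (mem_zpowers_pow_iff.2
      ((Nat.coprime_two_right.2 h1).pow_right n).symm)
    obtain ⟨p, hp, o', ho', e⟩ := dec o k2
    have k3 : p = 1 := by
      refine eq_one_of_is2 (is2_of_mem p2 hp) ?_
      rw [← mul_inv_eq_iff_eq_mul] at e
      rw [← e]
      refine Odd.of_dvd_nat (h1.mul (od o' ho').2) ?_
      rw [← orderOf_inv o']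
      exact (comm_of_C ho.2 ho').inv_right.orderOf_mul_dvd_mul_orderOf
    rw [e, k3, one_mul]
    exact (comm_of_C hg.2 ho').symm.eq
  obtain ⟨R, hR⟩ := H86.U3.two_closed cen
  have PR : P ≤ R := fun p hp => (hR p).2 ⟨PΓ hp, is2_of_mem p2 hp⟩
  have onR : ∀ p ∈ P, ∃ g ∈ R, p⁻¹ * lam t g ∈ S := fun p hp =>
    (onto p hp).imp fun g h => ⟨(hR g).2 ⟨h.1, h.2.1⟩, h.2.2⟩
  have nR : ∀ n ∈ N[S], n ∈ N[P] → Commute n t → n ∈ C[O] → n ∈ N[R] := fun n h1 h2 h3 h4 =>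
    mem_N_of_conj fun g hg => (hR _).2 ⟨cjΓ n h1 h2 h3 h4 g ((hR g).1 hg).1,
      H27.End.Is2.conj ((hR g).1 hg).2 n⟩
  refine ⟨R, fun g => (hR g).trans ⟨fun h => ⟨h.2, h.1.1.1, (mO g).1 h.1.2, h.1.1.2⟩,
      fun h => ⟨⟨⟨h.2.1, h.2.2.2⟩, (mO g).2 h.2.2.1⟩, h.1⟩⟩, PR,
    fun g hg => nP g ((hR g).1 hg).1.1.1 ((hR g).1 hg).1.1.2, ?_, onR,
    nR t l1.nS.1 l1.nP.1 (Commute.refl t) (cO t fun k _ h _ => h),
    fun h hh => nR h (l1.nS.2.1 hh) (l1.nP.2.1 hh) (kb.tL h hh.1).symm (LO hh.1),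
    fun h hh => nR h (KS hh) (l1.nP.2.2 hh) (kb.tL h (KL hh)).symm (LO (KL hh))⟩
  have e1 : M ⊓ R = P := le_antisymm
    (fun g h => l1.fix g h.1.1 ((hR g).1 h.2).2 ((lam_iff l1.nS.1).2 h.1.2))
    (le_inf (fun p hp => ⟨l1.cS hp, lS p hp⟩) PR)
  have e2 := card_eq (M := S) (H := P)
  rw [inf_of_le_left l1.SP, l1.cardS, l1.cardP, show 6 = 2 + 4 from rfl, pow_add] at e2
  rw [card_eq (M := M), e1, idx (t := t) (S := S) (P := P) (H := R) (M := M) (fun _ => Iff.rfl)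
    (fun g h => ((hR g).1 h).1.1.1) (fun g h => ((hR g).1 h).1.1.2) onR,
    ← Nat.eq_of_mul_eq_mul_right (pow_pos Nat.card_pos 4) e2, l1.cardP, ← pow_add]

end Cfsg.Agent.H29.S4Lv2a
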