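import Mathlib
import Cfsg.Agent.H29.A5Conj

/-!
Solubilizers in `PSL₂(q)`.
-/

set_option autoImplicit false

namespace Cfsg.Agent.H29

open scoped MatrixGroups LinearAlgebra.Projectivization
open Matrix MulAction

section general
variable {G : Type*} [Group G]

lemma klein_le_of_mem {x y : G} {H : Subgroup G} (hx : x ∈ H) (hy : y ∈ H) : klein x y ≤ H :=
  klein_le_iff.2 ⟨hx, hy⟩

lemma isSolvable_klein_of_invol {x t : G} (hx : x * x = 1) (ht : t * t = 1) :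
    Group.IsSolvable (klein x t) := by
  have : Group.IsSolvable (Subgroup.zpowers (x * t)) :=
    isSolvable_of_comm' (by rintro _ ⟨a, rfl⟩ _ ⟨b, rfl⟩; exact (Commute.zpow_zpow_self _ a b))
  have hx' : x⁻¹ = x := inv_eq_of_mul_eq_one_right hx
  have ht' : t⁻¹ = t := inv_eq_of_mul_eq_one_right ht
  have hinv : ∀ n : ℤ, x * (x * t) ^ n = (x * t) ^ (-n) * x := fun n => by
    have : x * (x * t) * x⁻¹ = (x * t)⁻¹ := by
      rw [_root_.mul_inv_rev, ht', hx', ← mul_assoc, hx, one_mul]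
    rw [← mul_inv_eq_iff_eq_mul, ← conj_zpow, this, _root_.inv_zpow']
  have key : ∀ g ∈ klein x t, ∃ n : ℤ, g = (x * t) ^ n ∨ g = (x * t) ^ n * x := by
    intro g hg
    refine Subgroup.closure_induction ?_ ⟨0, Or.inl (by simp)⟩ ?_ ?_ hg
    · rintro _ (rfl | rfl)
      · exact ⟨0, Or.inr (by simp)⟩
      · exact ⟨-1, Or.inr (by rw [_root_.zpow_neg_one, _root_.mul_inv_rev, ht', hx', mul_assoc, hx,
          mul_one])⟩
    · rintro _ _ - - ⟨a, rfl | rfl⟩ ⟨b, rfl | rfl⟩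
      · exact ⟨a + b, Or.inl (_root_.zpow_add _ _ _).symm⟩
      · exact ⟨a + b, Or.inr (by rw [_root_.zpow_add, mul_assoc])⟩
      · exact ⟨a + -b, Or.inr (by rw [_root_.zpow_add, mul_assoc, hinv, mul_assoc])⟩
      · exact ⟨a + -b, Or.inl (by
          rw [_root_.zpow_add, mul_assoc, ← mul_assoc x, hinv, mul_assoc, hx, mul_one])⟩
    · rintro _ - ⟨a, rfl | rfl⟩
      · exact ⟨-a, Or.inl (_root_.zpow_neg _ _).symm⟩
      · exact ⟨a, Or.inr (by rw [_root_.mul_inv_rev, hx', ← _root_.zpow_neg, hinv, neg_neg])⟩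
  refine isSolvable_of_commutator_mem (A := Subgroup.zpowers (x * t)) fun g hg k hk => ?_
  have hn : ∀ g ∈ klein x t, ∀ a ∈ Subgroup.zpowers (x * t), g * a * g⁻¹ ∈
      Subgroup.zpowers (x * t) := by
    rintro g hg _ ⟨m, rfl⟩
    obtain ⟨n, rfl | rfl⟩ := key g hg
    · exact mul_mem (mul_mem ⟨n, rfl⟩ ⟨m, rfl⟩) (inv_mem ⟨n, rfl⟩)
    · dsimp only
      rw [mul_assoc _ x, hinv, _root_.mul_inv_rev, mul_assoc, mul_assoc, mul_inv_cancel_left]
      exact mul_mem ⟨n, rfl⟩ (mul_mem ⟨-m, rfl⟩ (inv_mem ⟨n, rfl⟩))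
  obtain ⟨n, rfl | rfl⟩ := key k hk
  · exact mul_mem (hn g hg _ ⟨n, rfl⟩) (inv_mem ⟨n, rfl⟩)
  · obtain ⟨m, rfl | rfl⟩ := key g hg
    · have := hn _ hk _ (inv_mem (show (x * t) ^ m ∈ Subgroup.zpowers (x * t) from ⟨m, rfl⟩))
      simpa only [mul_assoc] using mul_mem (⟨m, rfl⟩ : (x * t) ^ m ∈ Subgroup.zpowers (x * t)) this
    · have e : ∀ a : ℤ, ((x * t) ^ a * x)⁻¹ = (x * t) ^ a * x := fun a => by
        rw [_root_.mul_inv_rev, hx', ← _root_.zpow_neg, hinv, neg_neg]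
      have e2 : (x * t) ^ m * x * ((x * t) ^ n * x) ∈ Subgroup.zpowers (x * t) := by
        rw [mul_assoc, ← mul_assoc x, hinv, mul_assoc, hx, mul_one]
        exact mul_mem ⟨m, rfl⟩ ⟨-n, rfl⟩
      rw [e, e, mul_assoc]
      exact mul_mem e2 e2

lemma A4_inv_cases (x y : A4) (hx : x * x = 1) : x * y = y * x ∨ (y ^ 3 = 1 ∧ (x * y) ^ 3 = 1) := by
  revert x y; decide +kernel

lemma A4_three_cases (x y : A4) (hx : x ^ 3 = 1) (hx1 : x ≠ 1) : y = 1 ∨ y = x ∨ y = x * x ∨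
    ∃ t, t ≠ 1 ∧ t * t = 1 ∧ (x * t) ^ 3 = 1 ∧ (y = t ∨ y = x * t ∨ y = x * x * t) := by
  revert x y; decide +kernel

end general

variable {F : Type*} [Field F] [Finite F]

/-- The solubilizer of `x` in `PSL₂(F)`, inside `PGL₂(F)`. -/
def Sol (x : PGL(2, F)) : Set PGL(2, F) := {y | y ∈ Lsub F ∧ Group.IsSolvable (klein x y)}

omit [Finite F] in
lemma card_sol (x : PSL(2, F)) :
    Nat.card {y : PSL(2, F) // Group.IsSolvable (Subgroup.closure ({x, y} : Set PSL(2, F)))} =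
      (Sol (pslp x)).ncard := by
  rw [← Nat.card_coe_set_eq]
  have key : ∀ y : PSL(2, F), Group.IsSolvable (Subgroup.closure ({x, y} : Set PSL(2, F))) ↔
      Group.IsSolvable (klein (pslp x) (pslp y)) := fun y => by
    rw [← klein_map]
    exact ⟨fun h => @isSolvable_of_equiv _ (klein x y) _ _ (pslpEquiv _).symm h,
      fun h => isSolvable_of_equiv (pslpEquiv (klein x y))⟩
  refine Nat.card_congr (Equiv.ofBijective (fun y => ⟨pslp y.1, pslp_mem_L _, (key _).1 y.2⟩)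
    ⟨fun a b h => Subtype.ext (pslp_injective (congrArg Subtype.val h)), ?_⟩)
  rintro ⟨y, hy, h⟩
  obtain ⟨y, rfl⟩ := exists_pslp_eq hy
  exact ⟨⟨y, (key _).2 h⟩, rfl⟩

lemma solvable_cases {H : Subgroup PGL(2, F)} (h : Group.IsSolvable H) :
    (∃ z : P1 F, H ≤ stabilizer PGL(2, F) z) ∨
    (∃ T D : Subgroup PGL(2, F), IsTorus T D ∧ H ≤ D) ∨
    ((2 : F) ≠ 0 ∧ (Nonempty (H ≃* A4) ∨ Nonempty (H ≃* S4))) := by
  have := finite_PGL2 (F := F)
  obtain ⟨p, hp, hc, -⟩ := exists_char_card F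
  have h2 : ¬ p ∣ Nat.card H → 2 ∣ Nat.card H → (2 : F) ≠ 0 := fun h1 h2 h3 => h1 (by
    have := (CharP.cast_eq_zero_iff F p 2).1 (by simpa using h3)
    exact this.trans h2)
  rcases dickson p H with h1 | ⟨T, D, hT, -, hD⟩ | ⟨h1, ⟨⟨e⟩⟩ | ⟨⟨e⟩⟩ | ⟨⟨e⟩⟩⟩ | ⟨-, ⟨e⟩⟩ |
    ⟨c, k, hk3, hk⟩
  · exact Or.inl h1
  · exact Or.inr (Or.inl ⟨T, D, hT, hD⟩)
  · exact Or.inr (Or.inr ⟨h2 h1 (by rw [Nat.card_congr e.toEquiv, card_A4]; norm_num),
      Or.inl ⟨e⟩⟩)
  · exact Or.inr (Or.inr ⟨h2 h1 (by rw [Nat.card_congr e.toEquiv, card_S4]; norm_num),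
      Or.inr ⟨e⟩⟩)
  · exact absurd (isSolvable_of_equiv e.symm) not_isSolvable_A5
  · exact absurd (isSolvable_of_equiv e.symm) not_isSolvable_A5
  have h1 : PSLsub k.subtype ≤ H.map (MulAut.conj c).toMonoidHom := by
    rcases hk with hk | hk <;> rw [hk]
    exact PSLsub_le_PGLsub _
  have hk4 : Nat.card k = 3 := by
    by_contra h'
    have := isSolvable_of_equiv (conjEquiv H c).symm
    have := isSolvable_of_le h1
    exact not_isSolvable_PSL2 (F := k) (by omega) (isSolvable_of_equiv (PSLsubEquiv k.subtype))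
  have hp3 : p = 3 := by
    have := char_dvd_card (F := k) p
    rw [hk4] at this
    exact (Nat.prime_dvd_prime_iff_eq hp.out Nat.prime_three).1 this
  have h6 : ∀ x : PGL(2, k), orderOf x ≠ 6 := fun x hx => by
    have := orderOf_dvd_PGL p x
    rw [hx, hk4, hp3] at this
    omega
  refine Or.inr (Or.inr ⟨fun h3 => ?_, ?_⟩)
  · have := (CharP.cast_eq_zero_iff F p 2).1 (by simpa using h3)
    rw [hp3] at this
    omega
  rcases hk with hk | hk
  · obtain ⟨e⟩ := nonempty_mulEquiv_S4 (G := PGL(2, k)) (by rw [card_PGL2, hk4]) h6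
    exact Or.inr ⟨(conjEquiv H c).trans ((MulEquiv.subgroupCongr hk).trans
      ((PGLsubEquiv k.subtype).symm.trans e))⟩
  · obtain ⟨e⟩ := nonempty_mulEquiv_A4 (G := PSL(2, k)) (by
      have h2 := card_L_of_odd (F := k) (by rw [hk4]; decide)
      rw [hk4, ← card_PSL2_eq] at h2
      omega) (fun x => by rw [← orderOf_injective _ pslp_injective]; exact h6 _)
    exact Or.inl ⟨(conjEquiv H c).trans ((MulEquiv.subgroupCongr hk).trans
      ((PSLsubEquiv k.subtype).symm.trans e))⟩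

variable {T D : Subgroup PGL(2, F)} {x : PGL(2, F)}

omit [Finite F] in
lemma mem_sol_of_fix {y : PGL(2, F)} (hy : y ∈ Lsub F) {z : P1 F} (h1 : x • z = z)
    (h2 : y • z = z) : y ∈ Sol x :=
  ⟨hy, isSolvable_of_le_stabilizer (x := z) (klein_le_of_mem h1 h2)⟩

lemma mem_sol_of_D {y : PGL(2, F)} (hy : y ∈ Lsub F) (h : IsTorus T D) (h1 : x ∈ D)
    (h2 : y ∈ D) : y ∈ Sol x :=
  ⟨hy, have := h.isSolvable; isSolvable_of_le (klein_le_of_mem h1 h2)⟩

lemma mem_sol_torus (h : IsTorus T D) (hx : x ∈ T) (hx2 : x * x ≠ 1)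
    (hex : ∀ H ≤ Lsub F, (2 : F) ≠ 0 → Nonempty (H ≃* A4) ∨ Nonempty (H ≃* S4) → x ∉ H)
    (hL : x ∈ Lsub F) {y : PGL(2, F)} :
    y ∈ Sol x ↔ y ∈ Lsub F ∧ ((∃ z : P1 F, x • z = z ∧ y • z = z) ∨ y ∈ D) := by
  constructor
  · rintro ⟨hy, hs⟩
    refine ⟨hy, ?_⟩
    rcases solvable_cases hs with ⟨z, hz⟩ | ⟨T', D', h', hD⟩ | ⟨h2, e⟩
    · exact Or.inl ⟨z, hz (left_mem_klein _ _), hz (right_mem_klein _ _)⟩
    · rw [(h.eq_of_mem h' (fun e => hx2 (by rw [e, mul_one])) hx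
        (h'.mem_T_of_mul_self_ne (hD (left_mem_klein _ _)) hx2)).2]
      exact Or.inr (hD (right_mem_klein _ _))
    · exact absurd (left_mem_klein _ _) (hex _ (klein_le_of_mem hL hy) h2 e)
  · rintro ⟨hy, ⟨z, h1, h2⟩ | hD⟩
    · exact mem_sol_of_fix hy h1 h2
    · exact mem_sol_of_D hy h (h.le hx) hD

lemma ncard_sol_nonsplit (h : IsNonsplitTorus T D) (hx : x ∈ T) (hx2 : x * x ≠ 1)
    (hex : ∀ H ≤ Lsub F, (2 : F) ≠ 0 → Nonempty (H ≃* A4) ∨ Nonempty (H ≃* S4) → x ∉ H)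
    (hL : x ∈ Lsub F) :
    Nat.gcd 2 (Nat.card F - 1) * (Sol x).ncard = 2 * (Nat.card F + 1) := by
  have h' : IsTorus T D := Or.inr h
  have : Sol x = (D ⊓ Lsub F : Subgroup _) := by
    ext y
    rw [mem_sol_torus h' hx hx2 hex hL]
    refine ⟨fun h1 => ⟨h1.2.resolve_left ?_, h1.1⟩, fun h1 => ⟨h1.2, Or.inr h1.1⟩⟩
    rintro ⟨z, hz, -⟩
    exact hx2 (by rw [h.free hx hz, mul_one])
  rw [this, ← Nat.card_coe_set_eq, SetLike.coe_sort_coe, h'.dihedral_inf_L.2, mul_left_comm,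
    h'.card_inf_L, h.card]

lemma ncard_sol_split (h : IsSplitTorus T D) (hx : x ∈ T) (hx2 : x * x ≠ 1)
    (hex : ∀ H ≤ Lsub F, (2 : F) ≠ 0 → Nonempty (H ≃* A4) ∨ Nonempty (H ≃* S4) → x ∉ H)
    (hL : x ∈ Lsub F) :
    Nat.gcd 2 (Nat.card F - 1) * (Sol x).ncard = 2 * (Nat.card F * (Nat.card F - 1)) := by
  have := finite_PGL2 (F := F)
  have h' : IsTorus T D := Or.inl h
  obtain ⟨a, b, hab, hT, hD⟩ := h.exists_pts
  have hx1 : x ≠ 1 := fun e => hx2 (by rw [e, mul_one])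
  let A : Set PGL(2, F) := (stabilizer PGL(2, F) a ⊓ Lsub F : Subgroup _)
  let B : Set PGL(2, F) := (stabilizer PGL(2, F) b ⊓ Lsub F : Subgroup _)
  let C : Set PGL(2, F) := (T ⊓ Lsub F : Subgroup _)
  let E : Set PGL(2, F) := (D ⊓ Lsub F : Subgroup _)
  have e1 : Sol x = (A ∪ B) ∪ (E \ C) := by
    ext y
    rw [mem_sol_torus h' hx hx2 hex hL]
    constructor
    · rintro ⟨hy, ⟨z, h1, h2⟩ | h1⟩
      · rcases fix_eq_or_eq hx1 hab ((hT x).1 hx).1 ((hT x).1 hx).2 h1 with rfl | rfl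
        · exact Or.inl (Or.inl ⟨h2, hy⟩)
        · exact Or.inl (Or.inr ⟨h2, hy⟩)
      · by_cases h2 : y ∈ T
        · exact Or.inl (Or.inl ⟨((hT y).1 h2).1, hy⟩)
        · exact Or.inr ⟨⟨h1, hy⟩, fun h3 => h2 h3.1⟩
    · rintro ((h1 | h1) | h1)
      · exact ⟨h1.2, Or.inl ⟨a, ((hT x).1 hx).1, h1.1⟩⟩
      · exact ⟨h1.2, Or.inl ⟨b, ((hT x).1 hx).2, h1.1⟩⟩
      · exact ⟨h1.1.2, Or.inr h1.1.1⟩
  have e2 : A ∩ B = C := by
    ext y
    exact ⟨fun h1 => ⟨(hT y).2 ⟨h1.1.1, h1.2.1⟩, h1.1.2⟩,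
      fun h1 => ⟨⟨((hT y).1 h1.1).1, h1.2⟩, ((hT y).1 h1.1).2, h1.2⟩⟩
  have e3 : Disjoint (A ∪ B) (E \ C) := by
    rw [Set.disjoint_left]
    rintro y h1 ⟨h2, h3⟩
    have h4 := ((hD y).1 h2.1).resolve_left fun h4 => h3 ⟨(hT y).2 h4, h2.2⟩
    rcases h1 with h1 | h1
    · exact hab (h1.1.symm.trans h4.1)
    · exact hab (h4.2.symm.trans h1.1)
  have c1 := Set.ncard_union_add_ncard_inter A B
  have c2 := Set.ncard_sdiff_add_ncard_of_subset (s := C) (t := E)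
    (fun y h1 => ⟨h'.le h1.1, h1.2⟩)
  have c3 : E.ncard = 2 * C.ncard := h'.dihedral_inf_L.2
  have c4 : _ * A.ncard = _ := card_stab_inf_L a
  have c5 : _ * B.ncard = _ := card_stab_inf_L b
  rw [e1, Set.ncard_union_eq e3]
  rw [e2] at c1
  have : (A ∪ B).ncard + (E \ C).ncard = A.ncard + B.ncard := by omega
  rw [this, mul_add, c4, c5, two_mul]

/-- The involutions of `PSL₂(F)`. -/
def Invol (F : Type*) [Field F] : Set PGL(2, F) := {t | t ∈ Lsub F ∧ t ≠ 1 ∧ t * t = 1}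

lemma ncard_invol (hx : x ∈ Invol F) :
    Nat.card ↥(Subgroup.centralizer {x} ⊓ Lsub F) * (Invol F).ncard = Nat.card (Lsub F) := by
  have h1 := index_centralizer_eq_ncard (⟨x, hx.1⟩ : Lsub F)
  have h2 := (Subgroup.centralizer {(⟨x, hx.1⟩ : Lsub F)}).card_mul_index
  rw [h1] at h2
  rw [← h2]
  congr 1
  · rw [← Subgroup.card_map_of_injective (Subgroup.subtype_injective (Lsub F))]
    congr 2
    ext g
    simp only [Subgroup.mem_inf, Subgroup.mem_centralizer_singleton_iff, Subgroup.mem_map]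
    exact ⟨fun h => ⟨⟨g, h.2⟩, Subtype.ext h.1, rfl⟩, by
      rintro ⟨g, h, rfl⟩; exact ⟨congrArg Subtype.val h, g.2⟩⟩
  · rw [← Set.ncard_image_of_injective _ (Subgroup.subtype_injective (Lsub F))]
    congr 1
    ext t
    constructor
    · intro ht
      obtain ⟨c, hc, e⟩ := invol_conj_L' hx.1 ht.1 hx.2.1 ht.2.1 hx.2.2 ht.2.2
      exact ⟨⟨t, ht.1⟩, isConj_iff.2 ⟨⟨c, hc⟩, Subtype.ext e⟩, rfl⟩
    · rintro ⟨t, ht, rfl⟩
      obtain ⟨c, rfl⟩ := isConj_iff.1 ht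
      refine ⟨(Lsub_normal (F := F)).conj_mem _ hx.1 c, by simpa using hx.2.1, ?_⟩
      simp [mul_assoc, ← mul_assoc x, hx.2.2]

omit [Finite F] in
lemma mem_sol_of_invol (hx : x * x = 1) {y : PGL(2, F)} (hy : y ∈ Lsub F)
    (h : y * y = 1 ∨ x * y * (x * y) = 1) : y ∈ Sol x := by
  refine ⟨hy, ?_⟩
  rcases h with h | h
  · exact isSolvable_klein_of_invol hx h
  · have := isSolvable_klein_of_invol hx h
    refine isSolvable_of_le (K := klein x (x * y)) (klein_le_of_mem (left_mem_klein _ _) ?_)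
    simpa using mul_mem (inv_mem (left_mem_klein x (x * y))) (right_mem_klein x (x * y))

omit [Finite F] in
/-- Counting the dihedral part of the solubilizer of an involution. -/
lemma ncard_dihedral_part [Finite PGL(2, F)] {C : Subgroup PGL(2, F)} (hx : x ∈ Invol F)
    (hxC : x ∈ C) (hC : ∀ y ∈ Lsub F, x * y = y * x → y ∈ C) :
    ((C : Set PGL(2, F)) ∪ (Invol F \ C) ∪ (x * ·) '' (Invol F \ C)).ncard =
      Nat.card C + 2 * (Invol F \ C).ncard := by
  rw [Set.ncard_union_eq, Set.ncard_union_eq Set.disjoint_sdiff_right,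
    Set.ncard_image_of_injective _ (mul_right_injective x), two_mul, add_assoc]
  · rfl
  rw [Set.disjoint_right]
  rintro _ ⟨t, ⟨ht, ht'⟩, rfl⟩ (h | h)
  · exact ht' (by simpa using mul_mem (inv_mem hxC) h)
  · refine ht' (hC t ht.1 ?_)
    have := h.1.2.2
    dsimp only at this
    rw [← inv_eq_of_mul_eq_one_right this, _root_.mul_inv_rev, inv_eq_of_mul_eq_one_right hx.2.2,
      inv_eq_of_mul_eq_one_right ht.2.2]

lemma mem_dihedral_part {C : Subgroup PGL(2, F)} (hx : x ∈ Invol F) (hxC : x ∈ C)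
    (hC : ∀ y ∈ Lsub F, x * y = y * x → y ∈ C) (h : IsTorus T D) (h1 : x ∈ D) {y : PGL(2, F)}
    (hy : y ∈ Lsub F) (h2 : y ∈ D) :
    y ∈ (C : Set PGL(2, F)) ∪ (Invol F \ C) ∪ (x * ·) '' (Invol F \ C) := by
  by_cases hyC : y ∈ C
  · exact Or.inl (Or.inl hyC)
  by_cases h3 : y ∈ T
  · by_cases h4 : x ∈ T
    · exact absurd (hC y hy (h.comm h4 h3)) hyC
    · have h5 : x * y ∉ C := fun h' => hyC (by simpa using mul_mem (inv_mem hxC) h')
      exact Or.inr ⟨x * y, ⟨⟨mul_mem hx.1 hy, fun h' => h5 (h' ▸ one_mem C),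
        h.invol (mul_mem h1 h2) fun h' => h4 (by simpa using mul_mem h' (inv_mem h3))⟩, h5⟩,
        by simp [← mul_assoc, hx.2.2]⟩
  · exact Or.inl (Or.inr ⟨⟨hy, fun h' => hyC (h' ▸ one_mem C), h.invol h2 h3⟩, hyC⟩)

omit [Finite F] in
lemma dihedral_part_subset {C : Subgroup PGL(2, F)} (hx : x ∈ Invol F) (hC : (C : Set _) ⊆ Sol x) :
    (C : Set PGL(2, F)) ∪ (Invol F \ C) ∪ (x * ·) '' (Invol F \ C) ⊆ Sol x := by
  rintro y ((h | h) | ⟨t, ht, rfl⟩)
  · exact hC h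
  · exact mem_sol_of_invol hx.2.2 h.1.1 (Or.inl h.1.2.2)
  · exact mem_sol_of_invol hx.2.2 (mul_mem hx.1 ht.1.1) (Or.inr (by
      simp [← mul_assoc, hx.2.2, ht.1.2.2]))

theorem ncard_sol_invol_even (h2 : (2 : F) = 0) (hx1 : x ≠ 1) (hx2 : x * x = 1) :
    (Sol x).ncard = 3 * Nat.card F * (Nat.card F - 1) := by
  have := finite_PGL2 (F := F)
  have he := even_card_iff.2 h2
  have : Fact (Nat.Prime 2) := Nat.fact_prime_two
  have : CharP F 2 := charP_of_dvd_card F 2 he.two_dvd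
  have hL : ∀ g, g ∈ Lsub F := fun g => by rw [L_eq_top_of_even he]; trivial
  have hx : x ∈ Invol F := ⟨hL x, hx1, hx2⟩
  obtain ⟨z, hz⟩ := exists_mem_uni_of_pow_char 2 (g := x) (n := 1) (by rw [pow_one, sq, hx2])
  have hC : ∀ y ∈ Lsub F, x * y = y * x → y ∈ stabilizer PGL(2, F) z := fun y _ h =>
    uni_le_stabilizer z (mem_uni_of_commute hz hx1 h.symm)
  have e1 : Sol x = (stabilizer PGL(2, F) z : Set PGL(2, F)) ∪ (Invol F \ stabilizer PGL(2, F) z) ∪
      (x * ·) '' (Invol F \ stabilizer PGL(2, F) z) := by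
    refine Set.Subset.antisymm ?_ (dihedral_part_subset hx fun y hy =>
      mem_sol_of_fix (hL y) (uni_le_stabilizer z hz) hy)
    rintro y ⟨hy, hs⟩
    rcases solvable_cases hs with ⟨w, hw⟩ | ⟨T, D, h, hD⟩ | ⟨h3, -⟩
    · obtain rfl := uni_eq_of_mem hx1 hz (hw (left_mem_klein _ _))
      exact Or.inl (Or.inl (hw (right_mem_klein _ _)))
    · exact mem_dihedral_part hx (uni_le_stabilizer z hz) hC h (hD (left_mem_klein _ _)) hy
        (hD (right_mem_klein _ _))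
    · exact absurd h2 h3
  have c1 := ncard_invol hx
  have e2 : Subgroup.centralizer {x} ⊓ Lsub F = uni z := by
    ext y
    rw [Subgroup.mem_inf, Subgroup.mem_centralizer_singleton_iff]
    exact ⟨fun h => mem_uni_of_commute hz hx1 h.1, fun h => ⟨uni_comm h hz, hL y⟩⟩
  rw [e2, card_uni, card_L_of_even he, mul_left_comm] at c1
  have c2 := Nat.eq_of_mul_eq_mul_left Nat.card_pos c1
  have e3 : Invol F ∩ stabilizer PGL(2, F) z = (uni z : Set PGL(2, F)) \ {1} := by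
    ext t
    constructor
    · rintro ⟨ht, ht'⟩
      obtain ⟨w, hw⟩ := exists_mem_uni_of_pow_char 2 (g := t) (n := 1) (by rw [pow_one, sq, ht.2.2])
      obtain rfl := uni_eq_of_mem ht.2.1 hw ht'
      exact ⟨hw, ht.2.1⟩
    · rintro ⟨ht, ht'⟩
      exact ⟨⟨hL t, ht', by rw [← sq, pow_char_eq_one_of_mem_uni 2 ht]⟩, uni_le_stabilizer z ht⟩
  have c3 := Set.ncard_inter_add_ncard_sdiff_eq_ncard (Invol F) (stabilizer PGL(2, F) z)
  have c4 := Set.ncard_sdiff_singleton_add_one (s := (uni z : Set PGL(2, F))) (one_mem _)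
  have c5 : (uni z : Set PGL(2, F)).ncard = Nat.card F := card_uni z
  rw [e1, ncard_dihedral_part hx (uni_le_stabilizer z hz) hC, card_stabilizer_PGL]
  rw [e3, c2] at c3
  obtain ⟨m, hm⟩ : ∃ m, Nat.card F = m + 1 := ⟨_, (Nat.sub_add_cancel Nat.card_pos).symm⟩
  rw [hm] at c3 c5 ⊢
  simp only [Nat.add_sub_cancel] at c3 ⊢
  nlinarith

lemma isSolvable_233 (ho : Odd (Nat.card F)) {t y : PGL(2, F)} (ht : t ∈ Invol F) (hy : y ^ 3 = 1)
    (hty : (t * y) ^ 3 = 1) : Group.IsSolvable (klein t y) := by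
  have h1 : t⁻¹ = t := inv_eq_of_mul_eq_one_right ht.2.2
  have h2 : t * (y * t * y⁻¹) = y⁻¹ * t * y := by
    calc _ = (t * y) ^ 3 * (y⁻¹ * t⁻¹ * y) * (y ^ 3)⁻¹ := by simp only [pow_three]; group
      _ = _ := by rw [hty, hy, h1]; group
  have h3 : y * t * y⁻¹ * (y * t * y⁻¹) = 1 := by simp [mul_assoc, ← mul_assoc t, ht.2.2]
  have hk : KPair t (y * t * y⁻¹) := by
    refine ⟨ht.2.1, by simpa using ht.2.1, fun h => ht.2.1 ?_, ht.2.2, h3, ?_⟩
    · have hc : Commute t y := (mul_inv_eq_iff_eq_mul.1 h.symm).symm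
      rwa [hc.mul_pow, hy, mul_one, pow_three, ht.2.2, mul_one] at hty
    · have h4 : t * (y * t * y⁻¹) * (t * (y * t * y⁻¹)) = 1 := by
        rw [h2]; simp [mul_assoc, ← mul_assoc t, ht.2.2]
      rw [← inv_eq_of_mul_eq_one_right h4, _root_.mul_inv_rev, h1, inv_eq_of_mul_eq_one_right h3]
  have hb : y * t * y⁻¹ ∈ Lsub F := (Lsub_normal (F := F)).conj_mem _ ht.1 y
  obtain ⟨e⟩ := hk.normalizer_S4 ho ht.1 hb
  have := isSolvable_S4
  have := isSolvable_of_equiv e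
  refine isSolvable_of_le (K := Subgroup.normalizer (klein t (y * t * y⁻¹) : Set PGL(2, F)))
    (klein_le_of_mem (Subgroup.le_normalizer (left_mem_klein _ _)) ?_)
  rw [mem_normalizer_klein hk]
  refine ⟨right_mem_klein _ _, ?_⟩
  have : y * (y * t * y⁻¹) * y⁻¹ = t * (y * t * y⁻¹) := by
    rw [h2]
    calc _ = y ^ 3 * (y⁻¹ * t * y) * (y ^ 3)⁻¹ := by simp only [pow_three]; group
      _ = _ := by rw [hy]; group
  rw [this]
  exact mul_mem (left_mem_klein _ _) (right_mem_klein _ _)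

lemma invol_nonsplit (h4 : Nat.card F % 4 = 3) (hx : x ∈ Invol F) :
    ∃ T D : Subgroup PGL(2, F), IsNonsplitTorus T D ∧ x ∈ T := by
  have ho : Odd (Nat.card F) := Nat.odd_iff.2 (by omega)
  obtain ⟨T, D, h, hT⟩ := exists_torus_of_invol ho hx.2.1 hx.2.2
  have := h.orderOf_dvd_L hT hx.1
  rw [gcd_two_of_odd ho, orderOf_eq_prime (p := 2) (x := x) (by rw [sq, hx.2.2]) hx.2.1] at this
  rcases h with h | h
  · rw [h.card] at this; omega
  · exact ⟨T, D, h, hT⟩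

lemma invol_not_fix (h4 : Nat.card F % 4 = 3) (hx : x ∈ Invol F) (z : P1 F) : x • z ≠ z := by
  obtain ⟨T, D, h, hT⟩ := invol_nonsplit h4 hx
  exact fun h' => hx.2.1 (h.free hT h')

omit [Finite F] in
lemma slp_uni (b : F) : slp (smat 1 b 0 1 (by simp)) = aff 1 b := by
  rw [slp_smat, aff, pmk_eq_pmk_iff]; exact ⟨1, by simp⟩

omit [Finite F] in
lemma invol_conj_mem (hx : x ∈ Invol F) (c : PGL(2, F)) : c * x * c⁻¹ ∈ Invol F :=
  ⟨(Lsub_normal (F := F)).conj_mem _ hx.1 c, by simpa using hx.2.1,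
    by simp [mul_assoc, ← mul_assoc x, hx.2.2]⟩

omit [Finite F] in
lemma ncard_conj_image (c : PGL(2, F)) (S : Set PGL(2, F)) :
    ((fun g => c * g * c⁻¹) '' S).ncard = S.ncard :=
  Set.ncard_image_of_injective _ (MulAut.conj c).injective

omit [Finite F] in
lemma ncard_fiber_three (h2 : (2 : F) ≠ 0) (hx : x ∈ Invol F) {z : P1 F} (hz : x • z ≠ z) :
    {y | y ∈ uni z ∧ y ≠ 1 ∧ (x * y) ^ 3 = 1}.ncard = 2 := by
  obtain ⟨c, hc⟩ := exists_smul_eq_inf z
  obtain ⟨⟨X, hX⟩, h1, h3⟩ := invol_conj_mem hx c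
  change slp X = _ at hX
  rw [← hX] at h1 h3
  have hX0 : X 1 0 ≠ 0 := fun h => hz (by
    rw [← conj_smul_eq_iff c, ← hX, hc, slp_apply, pmk_smul_inf_eq_inf]; exact h)
  have htr : X 0 0 + X 1 1 = 0 := by
    rwa [mul_self_eq_one_iff_tri h1, tri_slp, pow_eq_zero_iff two_ne_zero] at h3
  have key : ∀ b : F, (slp X * aff 1 b) ^ 3 = 1 ↔ (X 1 0 * b) ^ 2 = 1 := fun b => by
    rw [cube_eq_one_iff_tri, ← slp_uni, ← map_mul, tri_slp]
    · simp only [SL2_mul_apply, smat_00, smat_01, smat_10, smat_11]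
      rw [show X 0 0 * 1 + X 0 1 * 0 + (X 1 0 * b + X 1 1 * 1) = X 1 0 * b by
        linear_combination htr]
    · intro h
      have := congrArg (· • (inf : P1 F)) h
      simp only [mul_smul, aff_smul_inf, one_smul] at this
      rw [slp_apply, pmk_smul_inf_eq_inf] at this
      exact hX0 this
  rw [← ncard_conj_image c, Set.ncard_eq_two]
  refine ⟨aff 1 (X 1 0)⁻¹, aff 1 (-(X 1 0)⁻¹), fun h => ?_, ?_⟩
  · have := (aff_inj.1 h).2
    exact mul_ne_zero h2 (inv_ne_zero hX0) (by linear_combination this)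
  ext y
  constructor
  · rintro ⟨y, ⟨a1, -, a3⟩, rfl⟩
    obtain ⟨b, hb⟩ := mem_uni_inf.1 (hc ▸ conj_mem_uni_iff.2 a1 : c * y * c⁻¹ ∈ uni inf)
    have : (X 1 0 * b) ^ 2 = 1 := by
      rw [← key, ← hb, hX, show c * x * c⁻¹ * (c * y * c⁻¹) = c * (x * y) * c⁻¹ by group,
        conj_pow, a3, mul_one, mul_inv_cancel]
    dsimp only
    rw [hb]
    rcases sq_eq_one_iff.1 this with h | h
    · exact Or.inl (by rw [eq_inv_of_mul_eq_one_right h])
    · exact Or.inr (by rw [show b = -(X 1 0)⁻¹ by field_simp; linear_combination h]; rfl)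
  · intro hy
    obtain ⟨b, rfl, hb⟩ : ∃ b, y = aff 1 b ∧ (X 1 0 * b) ^ 2 = 1 := by
      rcases hy with rfl | rfl
      · exact ⟨_, rfl, by field_simp⟩
      · exact ⟨_, rfl, by field_simp⟩
    refine ⟨c⁻¹ * aff 1 b * c, ⟨?_, ?_, ?_⟩, by group⟩
    · rw [← conj_mem_uni_iff (c := c), hc, mem_uni_inf]
      exact ⟨b, by group⟩
    · intro h
      have : aff 1 b = c * (c⁻¹ * aff 1 b * c) * c⁻¹ := by group
      rw [h, mul_one, mul_inv_cancel, aff_eq_one] at this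
      simp [this.2] at hb
    · rw [← key, hX] at hb
      rw [show x * (c⁻¹ * aff 1 b * c) = c⁻¹ * (c * x * c⁻¹ * aff 1 b) * c⁻¹⁻¹ by group,
        conj_pow, hb]
      simp

theorem ncard_sol_invol_three (h3 : 3 ∣ Nat.card F) (h8 : Nat.card F % 8 = 3) (hx : x ∈ Invol F) :
    (Sol x).ncard = Nat.card F * (Nat.card F + 1) := by
  have := finite_PGL2 (F := F)
  have := finite_P1 (K := F)
  have : Fact (Nat.Prime 3) := Nat.fact_prime_three
  have : CharP F 3 := charP_of_dvd_card F 3 h3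
  have ho : Odd (Nat.card F) := Nat.odd_iff.2 (by omega)
  obtain ⟨T, D, hT, hxT⟩ := invol_nonsplit (by omega) hx
  have h : IsTorus T D := Or.inr hT
  have hxC : x ∈ D ⊓ Lsub F := ⟨h.le hxT, hx.1⟩
  have hC : ∀ y ∈ Lsub F, x * y = y * x → y ∈ D ⊓ Lsub F := fun y hy h' =>
    ⟨h.mem_D_of_commute hxT hx.2.1 h'.symm, hy⟩
  have huni : ∀ y : PGL(2, F), y ^ 3 = 1 → ∃ z, y ∈ uni z := fun y hy =>
    exists_mem_uni_of_pow_char 3 (n := 1) (by simpa using hy)
  have h23 : ∀ y : PGL(2, F), y ^ 3 = 1 → y * y = 1 → y = 1 := fun y a b => by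
    rwa [pow_three, b, mul_one] at a
  let W : Set PGL(2, F) := {y | y ≠ 1 ∧ y ^ 3 = 1 ∧ (x * y) ^ 3 = 1}
  have e1 : Sol x = ((D ⊓ Lsub F : Subgroup _) : Set PGL(2, F)) ∪
      (Invol F \ (D ⊓ Lsub F : Subgroup _)) ∪ (x * ·) '' (Invol F \ (D ⊓ Lsub F : Subgroup _)) ∪
      W := by
    refine Set.Subset.antisymm ?_ (Set.union_subset (dihedral_part_subset hx fun y hy =>
      mem_sol_of_D hy.2 h (h.le hxT) hy.1) ?_)
    · rintro y ⟨hy, hs⟩
      rcases solvable_cases hs with ⟨w, hw⟩ | ⟨T', D', h', hD⟩ | ⟨-, ⟨⟨e⟩⟩ | ⟨⟨e⟩⟩⟩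
      · exact absurd (hw (left_mem_klein _ _)) (invol_not_fix (by omega) hx w)
      · exact Or.inl (mem_dihedral_part hx hxC hC h' (hD (left_mem_klein _ _)) hy
          (hD (right_mem_klein _ _)))
      · rcases A4_inv_cases (e ⟨x, left_mem_klein _ _⟩) (e ⟨y, right_mem_klein _ _⟩) (by
          rw [← map_mul, map_eq_one_iff _ e.injective]; exact Subtype.ext hx.2.2) with a | ⟨a, b⟩
        · rw [← map_mul, ← map_mul, e.apply_eq_iff_eq] at a
          exact Or.inl (Or.inl (Or.inl (hC y hy (congrArg Subtype.val a))))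
        · rw [← map_pow, map_eq_one_iff _ e.injective] at a
          rw [← map_mul, ← map_pow, map_eq_one_iff _ e.injective] at b
          have a' : y ^ 3 = 1 := congrArg Subtype.val a
          have b' : (x * y) ^ 3 = 1 := congrArg Subtype.val b
          refine Or.inr ⟨?_, a', b'⟩
          rintro rfl
          exact hx.2.1 (h23 x (by simpa using b') hx.2.2)
      · have := mod_eight_of_S4 ho e (klein_le_of_mem hx.1 hy)
        omega
    · rintro y ⟨-, a, b⟩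
      obtain ⟨z, hz⟩ := huni y a
      exact ⟨uni_le_L z hz, isSolvable_233 ho hx a b⟩
  have cW : W.ncard = (Nat.card F + 1) * 2 := by
    rw [← Nat.card_coe_set_eq, ← card_P1]
    have e : (Σ z : P1 F, {y | y ∈ uni z ∧ y ≠ 1 ∧ (x * y) ^ 3 = 1}) ≃ W :=
      Equiv.ofBijective (fun a => ⟨a.2.1, a.2.2.2.1, pow_char_eq_one_of_mem_uni 3 a.2.2.1,
        a.2.2.2.2⟩) ⟨by
          rintro ⟨z, y, hy⟩ ⟨z', y', hy'⟩ h'
          obtain rfl : y = y' := congrArg Subtype.val h'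
          obtain rfl := uni_eq_of_mem hy.2.1 hy.1 (uni_le_stabilizer _ hy'.1)
          rfl, by
          rintro ⟨y, a, b, c⟩
          obtain ⟨z, hz⟩ := huni y b
          exact ⟨⟨z, y, hz, a, c⟩, rfl⟩⟩
    have := Fintype.ofFinite (P1 F)
    rw [← Nat.card_congr e, Nat.card_sigma]
    simp only [Nat.card_coe_set_eq,
      ncard_fiber_three (odd_card_iff.1 ho) hx (invol_not_fix (by omega) hx _)]
    simp
  have cD : Nat.card ↥(D ⊓ Lsub F) = Nat.card F + 1 := by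
    rw [h.dihedral_inf_L.2, ← hT.card, ← h.card_inf_L, gcd_two_of_odd ho]
  have c1 := ncard_invol hx
  have e2 : Subgroup.centralizer {x} ⊓ Lsub F = D ⊓ Lsub F := by
    ext y
    simp only [Subgroup.mem_inf, Subgroup.mem_centralizer_singleton_iff]
    refine ⟨fun h' => hC y h'.2 h'.1.symm, fun h' => ⟨?_, h'.2⟩⟩
    rcases h.conj_mem h'.1 hxT with a | a
    · exact mul_inv_eq_iff_eq_mul.1 a
    · rw [inv_eq_of_mul_eq_one_right hx.2.2] at a
      exact mul_inv_eq_iff_eq_mul.1 a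
  have c2 := card_L_of_odd ho
  rw [← c1, e2, cD, mul_left_comm] at c2
  have c3 := Nat.eq_of_mul_eq_mul_left (by omega) c2
  have e3 : Invol F ∩ (D ⊓ Lsub F : Subgroup _) = insert x
      (((D ⊓ Lsub F : Subgroup _) : Set PGL(2, F)) \ (T ⊓ Lsub F : Subgroup _)) := by
    ext t
    constructor
    · rintro ⟨a, b⟩
      by_cases c : t ∈ T
      · exact Or.inl (h.eq_of_invol c hxT a.2.1 hx.2.1 a.2.2 hx.2.2)
      · exact Or.inr ⟨b, fun d => c d.1⟩
    · rintro (rfl | ⟨a, b⟩)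
      · exact ⟨hx, hxC⟩
      · have c : t ∉ T := fun d => b ⟨d, a.2⟩
        exact ⟨⟨a.2, fun d => c (d ▸ one_mem T), h.invol a.1 c⟩, a⟩
  have c4 := Set.ncard_inter_add_ncard_sdiff_eq_ncard (Invol F) (D ⊓ Lsub F : Subgroup _)
  have c5 := Set.ncard_sdiff_add_ncard_of_subset (s := (T ⊓ Lsub F : Subgroup _))
    (t := ((D ⊓ Lsub F : Subgroup _) : Set PGL(2, F))) (fun y h1 => ⟨h.le h1.1, h1.2⟩)
  have c6 : ((D ⊓ Lsub F : Subgroup _) : Set PGL(2, F)).ncard =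
    2 * ((T ⊓ Lsub F : Subgroup _) : Set PGL(2, F)).ncard := h.dihedral_inf_L.2
  have c7 : ((D ⊓ Lsub F : Subgroup _) : Set PGL(2, F)).ncard = Nat.card F + 1 := cD
  rw [e3, Set.ncard_insert_of_notMem (fun a => a.2 ⟨hxT, hx.1⟩)] at c4
  rw [e1, Set.ncard_union_eq, ncard_dihedral_part hx hxC hC, cW, cD]
  · obtain ⟨m, hm⟩ : ∃ m, Nat.card F = m + 1 := ⟨_, (Nat.sub_add_cancel Nat.card_pos).symm⟩
    rw [hm] at c3 c7 ⊢
    simp only [Nat.add_sub_cancel] at c3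
    nlinarith
  rw [Set.disjoint_right]
  rintro y ⟨a, b, c⟩ ((d | d) | ⟨t, d, rfl⟩)
  · obtain ⟨z, hz⟩ := huni y b
    exact h.not_mem_uni (h.mem_T_of_mul_self_ne d.1 fun e => a (h23 y b e)) a z hz
  · exact a (h23 y b d.1.2.2)
  · simp only [← mul_assoc, hx.2.2, one_mul] at c
    exact d.1.2.1 (h23 t c d.1.2.2)

omit [Finite F] in
lemma ncard_invol_233 (h2 : (2 : F) ≠ 0) {z : P1 F} (hz : x ∈ uni z) (hx1 : x ≠ 1)
    (hx2 : x * x ≠ 1) : {t | t ∈ Invol F ∧ (x * t) ^ 3 = 1}.ncard = Nat.card F := by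
  obtain ⟨c, hc⟩ := exists_smul_eq_inf z
  obtain ⟨b, hb⟩ := mem_uni_inf.1 (hc ▸ conj_mem_uni_iff.2 hz : c * x * c⁻¹ ∈ uni inf)
  have hb0 : b ≠ 0 := by
    rintro rfl
    rw [aff_one_zero] at hb
    exact hx1 (by simpa using hb)
  let M : F → SL(2, F) := fun a => smat a ((-1 - a ^ 2) * b) b⁻¹ (-a) (by field_simp; ring)
  have hM : Function.Injective fun a => slp (M a) := fun a a' h => by
    rcases (slp_eq_slp_iff _ _).1 h with e | e
    · exact congrArg (fun A : SL(2, F) => A 0 0) e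
    · have : b⁻¹ = -b⁻¹ := congrArg (fun A : SL(2, F) => A 1 0) e
      exact absurd (by linear_combination this) (mul_ne_zero h2 (inv_ne_zero hb0))
  have key : ∀ X : SL(2, F), slp X ∈ Invol F → ((aff 1 b * slp X) ^ 3 = 1 ↔ (b * X 1 0) ^ 2 = 1) := by
    intro X hX
    have htr : X 0 0 + X 1 1 = 0 := by
      have := hX.2.2
      rwa [mul_self_eq_one_iff_tri hX.2.1, tri_slp, pow_eq_zero_iff two_ne_zero] at this
    rw [cube_eq_one_iff_tri, ← slp_uni, ← map_mul, tri_slp]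
    · simp only [SL2_mul_apply, smat_00, smat_01, smat_10, smat_11]
      rw [show 1 * X 0 0 + b * X 1 0 + (0 * X 0 1 + 1 * X 1 1) = b * X 1 0 by
        linear_combination htr]
    · intro h
      have e := eq_inv_of_mul_eq_one_left h
      rw [inv_eq_of_mul_eq_one_right hX.2.2, ← hb] at e
      have := hX.2.2
      rw [← e, ← sq, conj_pow, conj_eq_one_iff, sq] at this
      exact hx2 this
  rw [← ncard_conj_image c, ← Set.ncard_univ, ← Set.ncard_image_of_injective _ hM, Set.image_univ]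
  congr 1
  ext t
  constructor
  · rintro ⟨t, ⟨a1, a2⟩, rfl⟩
    have a3 := invol_conj_mem a1 c
    obtain ⟨X, hX⟩ := a3.1
    change slp X = _ at hX
    rw [← hX] at a3
    have htr : X 0 0 + X 1 1 = 0 := by
      have := a3.2.2
      rwa [mul_self_eq_one_iff_tri a3.2.1, tri_slp, pow_eq_zero_iff two_ne_zero] at this
    have : (b * X 1 0) ^ 2 = 1 := by
      rw [← key X a3, ← hb, hX, show c * x * c⁻¹ * (c * t * c⁻¹) = c * (x * t) * c⁻¹ by group,
        conj_pow, a2, mul_one, mul_inv_cancel]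
    have hd := SL2_det X
    dsimp only
    rw [← hX]
    rcases sq_eq_one_iff.1 this with h | h
    · refine ⟨X 0 0, congrArg slp (SL2_ext rfl ?_ ?_ ?_)⟩ <;> simp only [M, smat_01, smat_10, smat_11]
      · linear_combination b * hd - b * X 0 0 * htr + X 0 1 * h
      · exact (eq_inv_of_mul_eq_one_right h).symm
      · linear_combination -htr
    · refine ⟨-X 0 0, (slp_eq_slp_iff _ _).2 (Or.inr (SL2_ext rfl ?_ ?_ ?_))⟩ <;>
        simp only [M, smat_01, smat_10, smat_11, SpecialLinearGroup.coe_neg, Matrix.neg_apply]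
      · linear_combination b * hd - b * X 0 0 * htr + X 0 1 * h
      · field_simp; linear_combination h
      · linear_combination htr
  · rintro ⟨a, rfl⟩
    have h1 : slp (M a) ≠ 1 := by
      rw [Ne, slp_smat, pmk_eq_one_iff]; simp [hb0]
    have h3 : slp (M a) ∈ Invol F :=
      ⟨slp_mem_L _, h1, by rw [mul_self_eq_one_iff_tri h1, tri_slp]; simp [M]⟩
    refine ⟨c⁻¹ * slp (M a) * c, ⟨by simpa using invol_conj_mem h3 c⁻¹, ?_⟩, by group⟩
    have := (key _ h3).2 (by simp [M, hb0])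
    rw [← hb] at this
    rw [show x * (c⁻¹ * slp (M a) * c) = c⁻¹ * (c * x * c⁻¹ * slp (M a)) * c⁻¹⁻¹ by group,
      conj_pow, this]
    simp

theorem ncard_sol_three (h3 : 3 ∣ Nat.card F) (h8 : Nat.card F % 8 = 3) (hx1 : x ≠ 1)
    (hx3 : x ^ 3 = 1) : 2 * (Sol x).ncard = Nat.card F * (Nat.card F + 5) := by
  have := finite_PGL2 (F := F)
  have : Fact (Nat.Prime 3) := Nat.fact_prime_three
  have : CharP F 3 := charP_of_dvd_card F 3 h3
  have ho : Odd (Nat.card F) := Nat.odd_iff.2 (by omega)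
  obtain ⟨z, hz⟩ := exists_mem_uni_of_pow_char 3 (g := x) (n := 1) (by simpa using hx3)
  have hxz : x • z = z := uni_le_stabilizer z hz
  have hL := uni_le_L z hz
  have h23 : ∀ y : PGL(2, F), y ^ 3 = 1 → y * y = 1 → y = 1 := fun y a b => by
    rwa [pow_three, b, mul_one] at a
  have hx2 : x * x ≠ 1 := fun h => hx1 (h23 x hx3 h)
  let W : Set PGL(2, F) := {t | t ∈ Invol F ∧ (x * t) ^ 3 = 1}
  let B : Set PGL(2, F) := (stabilizer PGL(2, F) z ⊓ Lsub F : Subgroup _)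
  have hxx : x * x = x⁻¹ := by rw [eq_inv_iff_mul_eq_one, ← hx3, pow_three, mul_assoc]
  have hW : ∀ t ∈ W, (x * x * t) ^ 3 = 1 := fun t ht => by
    have : x * x * t = t * (x * t)⁻¹ * t⁻¹ := by
      rw [hxx, _root_.mul_inv_rev, inv_eq_of_mul_eq_one_right ht.1.2.2, ← mul_assoc, ht.1.2.2, one_mul]
    rw [this, conj_pow, inv_pow, ht.2]; simp
  have hs : ∀ t ∈ W, Group.IsSolvable (klein t x) := fun t ht =>
    isSolvable_233 ho ht.1 hx3 (by
      rw [show t * x = x⁻¹ * (x * t) * x⁻¹⁻¹ by group, conj_pow, ht.2]; simp)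
  have e1 : Sol x = B ∪ W ∪ (x * ·) '' W ∪ (x * x * ·) '' W := by
    apply Set.Subset.antisymm
    · rintro y ⟨hy, hs⟩
      rcases solvable_cases hs with ⟨w, hw⟩ | ⟨T', D', h', hD⟩ | ⟨-, ⟨⟨e⟩⟩ | ⟨⟨e⟩⟩⟩
      · obtain rfl := uni_eq_of_mem hx1 hz (hw (left_mem_klein _ _))
        exact Or.inl (Or.inl (Or.inl ⟨hw (right_mem_klein _ _), hy⟩))
      · exact absurd hz (h'.not_mem_uni (h'.mem_T_of_mul_self_ne (hD (left_mem_klein _ _)) hx2)
          hx1 z)
      · obtain ⟨φ, hφ, hr⟩ := exists_hom_of_equiv e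
        obtain ⟨x, rfl⟩ : x ∈ φ.range := hr ▸ left_mem_klein _ _
        obtain ⟨y, rfl⟩ : y ∈ φ.range := hr ▸ right_mem_klein _ _
        rcases A4_three_cases x y (hφ (by rw [map_pow, hx3, map_one]))
          (fun h => hx1 (by rw [h, map_one])) with rfl | rfl | rfl | ⟨t, a1, a2, a3, a4⟩
        · exact Or.inl (Or.inl (Or.inl ⟨by simp, hy⟩))
        · exact Or.inl (Or.inl (Or.inl ⟨hxz, hy⟩))
        · exact Or.inl (Or.inl (Or.inl ⟨by rw [map_mul]; exact mul_mem hxz hxz, hy⟩))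
        have ht : φ t ∈ W := ⟨⟨le_L_of_A4 e (hr ▸ ⟨t, rfl⟩), fun h => a1 (hφ (by rw [h, map_one])),
          by rw [← map_mul, a2, map_one]⟩, by rw [← map_mul, ← map_pow, a3, map_one]⟩
        rcases a4 with rfl | rfl | rfl
        · exact Or.inl (Or.inl (Or.inr ht))
        · exact Or.inl (Or.inr ⟨_, ht, by simp⟩)
        · exact Or.inr ⟨_, ht, by simp⟩
      · have := mod_eight_of_S4 ho e (klein_le_of_mem hL hy)
        omega
    · rintro y (((h | h) | ⟨t, h, rfl⟩) | ⟨t, h, rfl⟩)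
      · exact mem_sol_of_fix h.2 hxz h.1
      · have := hs y h
        exact ⟨h.1.1, isSolvable_of_le (klein_le_of_mem (right_mem_klein y x) (left_mem_klein y x))⟩
      · have := hs t h
        exact ⟨mul_mem hL h.1.1, isSolvable_of_le (klein_le_of_mem (right_mem_klein t x)
          (mul_mem (right_mem_klein t x) (left_mem_klein t x)))⟩
      · have := hs t h
        exact ⟨mul_mem (mul_mem hL hL) h.1.1, isSolvable_of_le (klein_le_of_mem (right_mem_klein t x)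
          (mul_mem (mul_mem (right_mem_klein t x) (right_mem_klein t x)) (left_mem_klein t x)))⟩
  have hnf : ∀ t ∈ W, t • z ≠ z := fun t ht => invol_not_fix (by omega) ht.1 z
  have cW : W.ncard = Nat.card F := ncard_invol_233 (odd_card_iff.1 ho) hz hx1 hx2
  have cB : _ * B.ncard = _ := card_stab_inf_L z
  rw [gcd_two_of_odd ho] at cB
  rw [e1, Set.ncard_union_eq, Set.ncard_union_eq, Set.ncard_union_eq,
    Set.ncard_image_of_injective _ (mul_right_injective _),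
    Set.ncard_image_of_injective _ (mul_right_injective _), cW]
  · obtain ⟨m, hm⟩ : ∃ m, Nat.card F = m + 1 := ⟨_, (Nat.sub_add_cancel Nat.card_pos).symm⟩
    rw [hm] at cB ⊢
    simp only [Nat.add_sub_cancel] at cB
    nlinarith
  · exact Set.disjoint_right.2 fun t ht h => hnf t ht h.1
  · rw [Set.disjoint_right]
    rintro _ ⟨t, ht, rfl⟩ (h | h)
    · have : (x * t) • z = z := h.1
      rw [mul_smul, ← eq_inv_smul_iff, inv_smul_eq_iff.2 hxz.symm] at this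
      exact hnf t ht this
    · exact h.1.2.1 (h23 _ ht.2 h.1.2.2)
  · rw [Set.disjoint_right]
    rintro _ ⟨t, ht, rfl⟩ ((h | h) | ⟨t', ht', h⟩)
    · have : (x * x * t) • z = z := h.1
      rw [hxx, mul_smul, inv_smul_eq_iff, hxz] at this
      exact hnf t ht this
    · exact h.1.2.1 (h23 _ (hW t ht) h.1.2.2)
    · simp only [mul_assoc, mul_right_inj] at h
      exact ht'.1.2.1 (h23 _ (h ▸ ht.2) ht'.1.2.2)

end Cfsg.Agent.H29
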