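import Cfsg.Agent.H79.SqDefs
import Cfsg.Agent.H58.SelfElem
import Cfsg.Agent.H11.GroupUtil

/-! A self-centralizing Sylow subgroup of order `p`: no character of degree `n_p` in the
principal block. -/

set_option autoImplicit false

namespace Cfsg.Agent.H29.SqAB

open MulAction Subgroup Cfsg Cfsg.Agent.H58 Cfsg.Agent.H79.Sq

universe w

section group
variable {G : Type*} [Group G] [Finite G] {p : ℕ} [hp : Fact p.Prime]

omit [Finite G] in
theorem eq_one_of_comm (h : SelfCent p G) (P : Sylow p G) {g x : G} (hg : g ∉ (P : Subgroup G))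
    (hx : x ∈ (P : Subgroup G)) (e : x * g = g * x) : x = 1 := by
  by_contra hx1
  exact hg (h.mem_of_commute P hx hx1 e)

omit [Finite G] hp in
theorem comm_mem (P : Sylow p G) {g x : G} (hN : g ∈ normalizer ((P : Subgroup G) : Set G))
    (hx : x ∈ (P : Subgroup G)) : g⁻¹ * x⁻¹ * g * x ∈ (P : Subgroup G) := by
  have := (mem_normalizer_iff.1 (inv_mem hN) _).1 (inv_mem hx)
  rw [inv_inv] at this
  exact mul_mem this hx

/-- The coset `g P` is a single `P`-class. -/
theorem exists_conj (h : SelfCent p G) (P : Sylow p G) {g : G}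
    (hN : g ∈ normalizer ((P : Subgroup G) : Set G)) (hg : g ∉ (P : Subgroup G)) {c : G}
    (hc : c ∈ (P : Subgroup G)) : ∃ x ∈ (P : Subgroup G), x⁻¹ * g * x = g * c := by
  let f : ↥(P : Subgroup G) → ↥(P : Subgroup G) := fun x =>
    ⟨g⁻¹ * (x : G)⁻¹ * g * x, comm_mem P hN x.2⟩
  have hf : Function.Injective f := by
    intro x y e
    have e1 : g⁻¹ * (x : G)⁻¹ * g * x = g⁻¹ * (y : G)⁻¹ * g * y := congrArg Subtype.val e
    have e2 := eq_one_of_comm h P hg (mul_mem y.2 (inv_mem x.2)) (by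
      calc (y : G) * (x : G)⁻¹ * g = y * g * (g⁻¹ * (x : G)⁻¹ * g * x) * (x : G)⁻¹ := by group
        _ = g * (y * (x : G)⁻¹) := by rw [e1]; group)
    exact Subtype.ext (mul_inv_eq_one.1 e2).symm
  obtain ⟨x, hx⟩ := Finite.injective_iff_surjective.1 hf ⟨c, hc⟩
  have e1 : g⁻¹ * (x : G)⁻¹ * g * x = c := congrArg Subtype.val hx
  exact ⟨x, x.2, by rw [← e1]; group⟩

theorem conj_notMem (h : SelfCent p G) (P : Sylow p G) {g : G}
    (hN : g ∈ normalizer ((P : Subgroup G) : Set G)) (hg : g ∉ (P : Subgroup G)) (a : G) :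
    a⁻¹ * g * a ∉ (P : Subgroup G) := by
  intro ha
  have h1 : a⁻¹ * g * a ≠ 1 := by
    intro e
    apply hg
    have : g = 1 := by
      calc g = a * (a⁻¹ * g * a) * a⁻¹ := by group
        _ = 1 := by rw [e]; group
    rw [this]; exact one_mem _
  have h2 := orderOf_eq_of_mem_of_card_prime hp.out (h.card P) ha h1
  have h3 : orderOf (a⁻¹ * g * a) = orderOf g := by
    simpa using (MulAut.conj a⁻¹).orderOf_eq g
  exact hg (mem_sylow_of_mem_normalizer P (isPGroup_zpowers_of_orderOf_eq (h3 ▸ h2)) hN)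

omit [Finite G] in
theorem eq_one_of_mem_zpowers (h : SelfCent p G) (P : Sylow p G) {g y : G}
    (hg : g ∉ (P : Subgroup G)) (hy : y ∈ zpowers g) (hyP : y ∈ (P : Subgroup G)) : y = 1 := by
  obtain ⟨k, rfl⟩ := hy
  exact eq_one_of_comm h P hg hyP ((Commute.refl g).zpow_left k).eq

/-- Two elements of `N(P) \ P` of the same order generate `P`-conjugate subgroups. -/
theorem exists_conj_mem_zpowers (h : SelfCent p G) (P : Sylow p G) {g g' : G}
    (hN : g ∈ normalizer ((P : Subgroup G) : Set G)) (hg : g ∉ (P : Subgroup G))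
    (hN' : g' ∈ normalizer ((P : Subgroup G) : Set G)) (hg' : g' ∉ (P : Subgroup G))
    (ho : orderOf g' = orderOf g) : ∃ x ∈ (P : Subgroup G), x * g' * x⁻¹ ∈ zpowers g := by
  have : IsCyclic (P : Subgroup G) := isCyclic_of_prime_card (h.card P)
  have hc : IsCyclic (MulAut (P : Subgroup G)) := by
    have e := IsCyclic.mulAutMulEquiv (P : Subgroup G)
    rw [show Nat.card (P : Subgroup G) = p from h.card P] at e
    exact isCyclic_of_surjective e.symm e.symm.surjective
  set φ := (P : Subgroup G).normalizerMonoidHom with hφ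
  have hker : ∀ y : normalizer ((P : Subgroup G) : Set G), φ y = 1 ↔ (y : G) ∈ (P : Subgroup G) :=
    fun y => by
      rw [← MonoidHom.mem_ker, hφ, normalizerMonoidHom_ker, mem_subgroupOf, h.cent P]
  have h1 : orderOf (φ ⟨g, hN⟩) = orderOf g := by
    rw [orderOf_eq_orderOf_iff]
    intro k
    rw [← map_pow, hker]
    exact ⟨fun e => eq_one_of_mem_zpowers h P hg (pow_mem (mem_zpowers g) k) e,
      fun e => by rw [SubgroupClass.coe_pow, e]; exact one_mem _⟩
  have h2 : orderOf (φ ⟨g', hN'⟩) ∣ orderOf (φ ⟨g, hN⟩) := by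
    rw [h1, ← ho, ← orderOf_mk g' hN']
    exact orderOf_map_dvd φ _
  have h3 : IsCyclic (⊤ : Subgroup (MulAut (P : Subgroup G))) := inferInstance
  obtain ⟨k, hk⟩ := H11.mem_zpowers_of_orderOf_dvd ⊤ (mem_top _) (mem_top _) h2
  have h4 : (g ^ k)⁻¹ * g' ∈ (P : Subgroup G) := by
    have := (hker ((⟨g, hN⟩ ^ k)⁻¹ * ⟨g', hN'⟩)).1 (by
      rw [map_mul, map_inv, map_zpow, inv_mul_eq_one]; exact hk)
    simpa using this
  have h5 : g ^ k ∉ (P : Subgroup G) := fun e => hg' (by simpa using mul_mem e h4)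
  obtain ⟨x, hx, e⟩ := exists_conj h P (zpow_mem hN k) h5 h4
  refine ⟨x, hx, k, ?_⟩
  rw [mul_inv_cancel_left] at e
  change g ^ k = _
  rw [← e]; group

omit hp in
theorem mem_normalizer_zpowers {g b : G} (hb : b⁻¹ * g * b ∈ zpowers g) :
    b ∈ normalizer ((zpowers g : Subgroup G) : Set G) := by
  rw [← inv_mem_iff]
  refine mem_normalizer_fintype fun y hy => ?_
  obtain ⟨k, rfl⟩ := hy
  have := zpow_mem hb k
  rw [inv_inv]
  have e : (b⁻¹ * g * b) ^ k = b⁻¹ * g ^ k * b := by simpa using conj_zpow (a := b⁻¹) (b := g) (i := k)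
  rwa [e] at this

/-- The number of Sylow subgroups normalized by `g ∈ N(P) \ P`. -/
theorem card_fix_mul_dvd (h : SelfCent p G) (P : Sylow p G) {e : ℕ}
    (he : Nat.card (normalizer ((P : Subgroup G) : Set G)) = p * e) {g : G}
    (hN : g ∈ normalizer ((P : Subgroup G) : Set G)) (hg : g ∉ (P : Subgroup G)) :
    Nat.card (fixedBy (Sylow p G) g) * e ∣ Nat.card G := by
  set M := normalizer ((zpowers g : Subgroup G) : Set G) with hM
  set N := normalizer ((P : Subgroup G) : Set G) with hNd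
  have hMc : ∀ b ∈ M, b⁻¹ * g * b ∈ zpowers g := fun b hb => by
    simpa using (mem_normalizer_iff.1 (inv_mem hb) g).1 (mem_zpowers g)
  have hzN : zpowers g ≤ N := zpowers_le.2 hN
  have key : ∀ a : G, a⁻¹ * g * a ∈ N → ∃ x ∈ (P : Subgroup G), a * x⁻¹ ∈ M := by
    intro a ha
    obtain ⟨x, hx, e⟩ := exists_conj_mem_zpowers h P hN hg ha (conj_notMem h P hN hg a)
      (by simpa using (MulAut.conj a⁻¹).orderOf_eq g)
    refine ⟨x, hx, mem_normalizer_zpowers ?_⟩
    convert e using 1
    group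
  have horb : orbit M P = fixedBy (Sylow p G) g := by
    ext Q
    rw [mem_fixedBy]
    constructor
    · rintro ⟨b, rfl⟩
      change g • (b : G) • P = (b : G) • P
      have := (smul_eq_iff P _).2 (hzN (hMc b b.2))
      rw [mul_smul, mul_smul, inv_smul_eq_iff] at this
      exact this
    · intro hQ
      obtain ⟨a, rfl⟩ := exists_smul_eq G P Q
      obtain ⟨x, hx, e⟩ := key a ((smul_eq_iff P _).1 (by
        rw [mul_smul, mul_smul, hQ, inv_smul_smul]))
      refine ⟨⟨_, e⟩, ?_⟩
      change (a * x⁻¹) • P = a • P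
      rw [mul_smul, (smul_eq_iff P _).2 (le_normalizer (inv_mem hx))]
  have hst : Nat.card (stabilizer M P) = e := by
    let f : stabilizer M P × ↥(P : Subgroup G) → N := fun a =>
      ⟨(a.1.1 : G) * a.2, mul_mem ((smul_eq_iff P _).1 a.1.2) (le_normalizer a.2.2)⟩
    have hf : Function.Bijective f := by
      constructor
      · rintro ⟨⟨⟨b, hb⟩, hb2⟩, ⟨x, hx⟩⟩ ⟨⟨⟨b', hb'⟩, hb2'⟩, ⟨x', hx'⟩⟩ e
        have e1 : b * x = b' * x' := congrArg Subtype.val e
        have e2 : b'⁻¹ * b = x' * x⁻¹ := by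
          rw [inv_mul_eq_iff_eq_mul, ← mul_assoc, ← e1, mul_inv_cancel_right]
        have h1 : x' * x⁻¹ ∈ (P : Subgroup G) := mul_mem hx' (inv_mem hx)
        have h2 : x' * x⁻¹ ∈ M := e2 ▸ mul_mem (inv_mem hb') hb
        have h3 := eq_one_of_mem_zpowers h P hg
          (by simpa only [mul_assoc] using mul_mem (inv_mem (mem_zpowers g)) (hMc _ h2))
          (by simpa only [mul_assoc] using comm_mem P hN h1)
        have h4 := eq_one_of_comm h P hg h1 (by
          rw [inv_mul_eq_one, eq_inv_mul_iff_mul_eq] at h3; exact h3)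
        rw [h4, inv_mul_eq_one] at e2
        rw [mul_inv_eq_one] at h4
        subst e2 h4
        rfl
      · rintro ⟨a, ha⟩
        obtain ⟨x, hx, e⟩ := key a (mul_mem (mul_mem (inv_mem ha) hN) ha)
        exact ⟨⟨⟨⟨_, e⟩, (smul_eq_iff P _).2 (mul_mem ha (le_normalizer (inv_mem hx)))⟩, ⟨x, hx⟩⟩,
          Subtype.ext (inv_mul_cancel_right a x)⟩
    have := Nat.card_congr (Equiv.ofBijective f hf)
    rw [Nat.card_prod, he, show Nat.card (P : Subgroup G) = p from h.card P, mul_comm] at this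
    exact Nat.eq_of_mul_eq_mul_left hp.out.pos this
  rw [← horb, ← hst, ← Nat.card_prod, Nat.card_congr (orbitProdStabilizerEquivGroup M P)]
  exact card_subgroup_dvd_card M

end group

theorem arith {p u m e : ℕ} (hp : p.Prime) (hpe : p = (u + 1) * m + 1) (hu : 1 ≤ u)
    (he : 0 < e) (h2 : u * (m + 1) + 1 + 1 + 2 ≤ p)
    (hd : (u * (m + 1) + 1 + 1) * e ∣ p * e * (1 + (u * (m + 1) + 1) * p)) : False := by
  set n := u * (m + 1) + 1 with hn
  have h3 : n + 1 ∣ p * (1 + n * p) :=
    Nat.dvd_of_mul_dvd_mul_right he (by convert hd using 1; ring)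
  have h4 : (n + 1).Coprime p :=
    ((Nat.Prime.coprime_iff_not_dvd hp).2 (Nat.not_dvd_of_pos_of_lt (by omega) (by omega))).symm
  have h5 := h4.dvd_of_dvd_mul_left h3
  have h6 : n + 1 ∣ (u + 1) * m := by
    refine (Nat.dvd_add_right h5).1 ⟨p, ?_⟩
    have : (u + 1) * m = p - 1 := by omega
    rw [add_mul n 1 p]; omega
  obtain ⟨k, hk⟩ := h6
  have h7 : 2 ≤ k := by
    rcases k with _ | _ | k
    · omega
    · omega
    · omega
  have h8 := Nat.mul_le_mul_left (n + 1) h7
  nlinarith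

section core
variable {G : Type*} [Group G] [Fintype G] {p : ℕ} [hp : Fact p.Prime] {P : Sylow p G}
  {u m e t : ℕ}

theorem core (D : Dat G p P u m e t) (I : Ind G p P e) (h : SelfCent p G) {Ψ : G → ℂ}
    (hΨ : IsCharacter G Ψ) {s : ℕ} (hs : s ≤ t) (hn : classInner Ψ Ψ = s)
    (h1 : classInner Ψ (fun _ => 1) = 0) (hf : fixDim P Ψ = u * (m + 1) + 1 + 1)
    (key : ∀ Λ, IsCharacter G Λ → Λ 1 = Nat.card (Sylow p G) → (∀ g, p ∣ orderOf g → Λ g = 1) →
      classInner Λ Ψ ≠ 0 → Λ = Ψ) : False := by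
  classical
  set n := u * (m + 1) + 1 with hnd
  have keyI := fun i => key (I.Λ i) (I.char i) (I.one i) (I.sing i)
  have hsum := I.sum Ψ hΨ
  rw [h.cent P, hf] at hsum
  -- the bound
  have hb : n + 1 ≤ s * (e - 1) := by
    choose a ha using fun i => H11.exists_nat_classInner (I.char i) hΨ
    have h2 : ∑ i, a i = n + 1 := by
      simp_rw [ha] at hsum
      exact_mod_cast hsum
    have h3 : a I.i0 = 0 := by
      by_contra h3
      have h4 := keyI I.i0 (by rw [ha]; exact_mod_cast h3)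
      have h5 := I.triv I.i0
      rw [h4, h1] at h5
      simp at h5
    have h4 : ∀ i, a i ≤ s := fun i => by
      by_cases h4 : a i = 0
      · omega
      have h5 := keyI i (by rw [ha]; exact_mod_cast h4)
      have h6 := ha i
      rw [h5, hn] at h6
      exact le_of_eq (by exact_mod_cast h6.symm)
    rw [← h2, ← Finset.add_sum_erase _ _ (Finset.mem_univ I.i0), h3, zero_add]
    refine (Finset.sum_le_card_nsmul _ _ s fun i _ => h4 i).trans ?_
    rw [Finset.card_erase_of_mem (Finset.mem_univ _), Finset.card_univ, Fintype.card_fin,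
      smul_eq_mul, mul_comm]
  have hb2 : n + 1 + 2 ≤ p := by
    have h2 := D.het'
    have h3 := D.t_pos
    have h4 := D.he2
    obtain ⟨f, rfl⟩ : ∃ f, e = f + 1 := ⟨e - 1, by omega⟩
    have h5 := Nat.mul_le_mul_right f hs
    rw [Nat.add_sub_cancel] at hb
    nlinarith
  -- no fixed vectors of the normalizer
  have hN0 : fixDim (normalizer ((P : Subgroup G) : Set G)) Ψ = 0 := by
    by_contra h2
    have h3 := classInner_permChar P hΨ
    rw [Sylow.stabilizer_eq_normalizer] at h3
    have h4 := key _ (H11.isCharacter_permChar (Sylow p G)) (H11.permChar_one _) (fun g hg => by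
      rw [H11.permChar_apply, Nat.card_coe_set_eq,
        ncard_fixedBy_sylow_of_card_prime P D.hP (h.orderOf_eq hg), Nat.cast_one])
      (by rw [h3]; exact_mod_cast h2)
    have h5 := classInner_permChar (G := G) P H11.isCharacter_one
    rw [h4, h1, fixDim_one] at h5
    simp at h5
  obtain ⟨g, hgN, hg, hg0⟩ : ∃ g ∈ normalizer ((P : Subgroup G) : Set G),
      g ∉ (P : Subgroup G) ∧ Ψ g ≠ 0 := by
    by_contra hc
    push Not at hc
    have h2 := card_mul_fixDim (normalizer ((P : Subgroup G) : Set G)) hΨ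
    have h3 := card_mul_fixDim (P : Subgroup G) hΨ
    have h4 : sumOn (normalizer ((P : Subgroup G) : Set G)) Ψ = sumOn (P : Subgroup G) Ψ := by
      unfold sumOn
      refine (Finset.sum_subset (fun x hx => ?_) fun x hx hx' => hc x ?_ ?_).symm
      · simp only [Finset.mem_filter, Finset.mem_univ, true_and] at hx ⊢
        exact le_normalizer hx
      · simpa using hx
      · simpa using hx'
    rw [hN0, h4, ← h3, hf, Nat.cast_zero, mul_zero] at h2
    exact mul_ne_zero (H11.card_ne_zero _) (Nat.cast_ne_zero.2 (Nat.succ_ne_zero n)) h2.symm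
  have hcl := H11.isClassFunction_of_isCharacter hΨ
  have h4 := I.four Ψ hcl g fun a ha c hc => by
    rw [h.cent P] at hc
    obtain ⟨x, -, e⟩ := exists_conj h P ha (conj_notMem h P hgN hg a) hc
    rw [← e]
    refine (H11.classFun_of_isConj hcl (isConj_iff.2 ⟨(a * x)⁻¹, ?_⟩)).symm
    group
  have h5 : ∑ i, classInner Ψ (I.Λ i) * I.Λ i g = ∑ i, classInner (I.Λ i) Ψ * Ψ g := by
    refine Finset.sum_congr rfl fun i _ => ?_
    rw [H11.classInner_comm_of_isCharacter hΨ (I.char i)]
    by_cases h5 : classInner (I.Λ i) Ψ = 0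
    · rw [h5, zero_mul, zero_mul]
    · rw [congrFun (keyI i h5) g]
  rw [h5, ← Finset.sum_mul, hsum] at h4
  have h6 : n + 1 = Nat.card (fixedBy (Sylow p G) g) := by
    exact_mod_cast mul_right_cancel₀ hg0 h4
  have h7 := card_fix_mul_dvd h P (h.card_normalizer P D.he P) hgN hg
  rw [← h6, D.card_G h, ← D.AB] at h7
  exact arith hp.out D.hpe D.hu (by have := D.he2; omega) hb2 h7

end core

theorem ab : ABStmt.{w} := by
  intro G _ _ p hp P u m e t D I h
  classical
  constructor
  · refine Finset.eq_empty_of_forall_notMem fun χ hχ => ?_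
    obtain ⟨hA, hd⟩ := D.mem_A1.1 hχ
    refine core D I h (H11.irr_isCharacter χ) (s := 1) D.t_pos
      (by rw [H11.classInner_irr_self χ.2, Nat.cast_one]) ?_ (D.fixDim_P_A D.hP hA hd)
      fun Λ hΛ h1 _ h3 => ?_
    · have := H11.classInner_irr_irr χ (H21.triv G)
      rwa [if_neg (D.mem_A.1 hA).2.1, H21.triv_coe] at this
    · funext g
      simpa using eq_sum_of_inner_ne_zero hΛ {χ} (by simpa using h3) (by
        rw [h1, D.hn, Finset.sum_singleton, ← H21.cast_deg, hd]) g
  · intro hz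
    have hε : D.ε = -1 := by
      have h5 := D.five_le
      have hu := D.hu
      rcases D.degZ with ⟨-, h1 | h1⟩ | ⟨h1, -⟩
      · exfalso; nlinarith [Nat.zero_le (u * (m + 1) * p)]
      · exfalso; nlinarith [Nat.mul_le_mul_right ((m + 1) * p) hu]
      · exact h1
    have hΘ : D.Θ = ∑ θ ∈ D.Y, θ.1 := by
      funext g
      simp [BrPre.Θ]
    have hT : H21.triv G ∉ D.Y := D.disj _ D.triv_mem
    refine core D I h D.isCharacter_Θ (s := t) le_rfl ?_ ?_ ?_ fun Λ hΛ h1 h2 h3 => ?_
    · conv_lhs => arg 2; rw [hΘ]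
      rw [H11.classInner_sum_right, Finset.sum_congr rfl fun θ hθ => (by
        rw [inner_Θ, if_pos hθ] : classInner D.Θ θ.1 = 1), Finset.sum_const, D.cardY]
      simp
    · have := inner_Θ D.toBrPre (H21.triv G)
      rwa [if_neg hT, H21.triv_coe] at this
    · have h1 := D.fixDim_Θ D.hP
      have h2 : (t : ℤ) * D.z = 1 + (u * (m + 1) + 1) * p := by exact_mod_cast hz
      rw [hε, h2] at h1
      have h3 : (p : ℤ) * fixDim P D.Θ = p * (u * (m + 1) + 1 + 1 : ℕ) := by
        push_cast; linear_combination h1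
      exact_mod_cast mul_left_cancel₀ (by exact_mod_cast hp.out.ne_zero : (p : ℤ) ≠ 0) h3
    · have h4 : ∀ θ ∈ D.Y, classInner (Λ - fun _ => 1) θ.1 = classInner Λ θ.1 := fun θ hθ => by
        have := H11.classInner_irr_irr (H21.triv G) θ
        rw [if_neg (fun e : H21.triv G = θ => hT (e ▸ hθ)), H21.triv_coe] at this
        rw [H11.classInner_sub_left, this, sub_zero]
      funext g
      refine eq_sum_of_inner_ne_zero hΛ D.Y (fun θ hθ h5 => h3 ?_) ?_ g
      · rw [hΘ, H11.classInner_sum_right]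
        refine Finset.sum_eq_zero fun θ' hθ' => ?_
        rw [← h4 θ' hθ', D.inner_Y_eq (fun g hg => by simp [h2 g hg]) hθ' hθ, h4 θ hθ, h5]
      · rw [h1, D.hn, ← hz]
        exact D.Θ_one.symm

end Cfsg.Agent.H29.SqAB
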