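import Cfsg.Agent.H42.VpDefs

/-! Project VP, piece Z: noncentral elements of a `p`-group are vanishing. -/

set_option autoImplicit false

namespace Cfsg.Agent.H29.VpZ

open Subgroup Cfsg Cfsg.Agent.H42.Vp

universe u

theorem z (z0 : Z0Stmt.{u}) : ZStmt.{u} := by
  intro G _ _ p hp
  haveI : Fact p.Prime := ⟨hp⟩
  induction hn : Nat.card G using Nat.strong_induction_on generalizing G with
  | _ n ih =>
    intro hG x hx
    haveI : Nontrivial G := ⟨⟨x, 1, fun e => hx (e ▸ one_mem _)⟩⟩
    by_cases hc : (QuotientGroup.mk' (center G) x) ∈ center (G ⧸ center G)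
    · have hx' := hx
      rw [mem_center_iff] at hx'
      push Not at hx'
      obtain ⟨g, hg⟩ := hx'
      refine z0 G x g (x⁻¹ * (g * x * g⁻¹)) ?_ (fun e => hg ?_) (by group)
      · rw [← QuotientGroup.eq_one_iff]
        have := mem_center_iff.1 hc (QuotientGroup.mk' (center G) g)
        simp only [QuotientGroup.mk'_apply] at this
        simp only [QuotientGroup.mk_mul, QuotientGroup.mk_inv]
        rw [this]
        group
      · rw [inv_mul_eq_one, eq_mul_inv_iff_mul_eq] at e
        exact e.symm
    · refine H22.VanP.Van.comp _ (QuotientGroup.mk'_surjective (center G))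
        (ih _ ?_ (G ⧸ center G) rfl (hG.to_quotient _) _ hc)
      haveI := hG.center_nontrivial
      rw [← hn, card_eq_card_quotient_mul_card_subgroup (center G)]
      exact lt_mul_of_one_lt_right Nat.card_pos Finite.one_lt_card

end Cfsg.Agent.H29.VpZ
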